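import Mathlib
import Cfsg.Agent.Lib.Helper44.Centralizer
import Cfsg.Agent.Lib.Helper44.Index
import Cfsg.Agent.Lib.Helper44.Adjust

set_option autoImplicit false

/-! # `Ω` is generated by Eichler transformations (dimension at least five, finite field) -/

namespace Cfsg.Agent.Lib.Helper5

open QuadraticMap Module Cfsg.Agent.Lib.Helper44

variable {F V : Type*} [Field F] [AddCommGroup V] [Module F V]

/-- if `d^⊥ ⊆ v^⊥` then `v ∈ span d` -/
lemma eq_smul_of_perp_le {Q : QuadraticForm F V} (hQ : (polarBilin Q).Nondegenerate) {d v : V}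
    (h : ∀ x, polar Q d x = 0 → polar Q v x = 0) : ∃ c : F, v = c • d := by
  by_cases hd : d = 0
  · refine ⟨0, ?_⟩
    rw [zero_smul]
    apply hQ.1 v
    intro y
    exact h y (by rw [hd]; simp)
  · obtain ⟨a, ha⟩ := polar_nondeg_exists hQ hd
    refine ⟨polar Q v a, ?_⟩
    rw [← sub_eq_zero]
    apply hQ.1
    intro y
    have h1 := h (y - polar Q d y • a) (by
      rw [polar_sub_right, polar_smul_right, polar_comm Q d a, ha]; simp)
    rw [polar_sub_right, polar_smul_right, smul_eq_mul] at h1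
    change polar Q (v - polar Q v a • d) y = 0
    rw [polar_sub_left, polar_smul_left, smul_eq_mul]
    linear_combination h1

/-- a hyperbolic pair inside `d^⊥` -/
lemma exists_hyp_pair_perp [Fintype F] [FiniteDimensional F V] {Q : QuadraticForm F V}
    (hQ : (polarBilin Q).Nondegenerate) (hn : 5 ≤ finrank F V) (d : V) :
    ∃ s f : V, Q s = 0 ∧ Q f = 0 ∧ polar Q s f = 1 ∧ polar Q d s = 0 ∧ polar Q d f = 0 := by
  by_cases hd : d = 0
  · obtain ⟨s, -, hs0, hs⟩ := exists_singular_of_finrank Q ⊤ (by rw [finrank_top]; omega)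
    obtain ⟨f, hf, hsf⟩ := exists_hyp_partner hQ hs0 hs
    exact ⟨s, f, hs, hf, hsf, by rw [hd]; simp, by rw [hd]; simp⟩
  · obtain ⟨a, ha⟩ := polar_nondeg_exists hQ hd
    have h3 := le_finrank_perp2 Q d a
    obtain ⟨s, hsA, hs0, hs⟩ := exists_singular_of_finrank Q (perp2 Q d a) (by omega)
    rw [mem_perp2] at hsA
    obtain ⟨z, hdz, hsz⟩ : ∃ z, polar Q d z = 0 ∧ polar Q s z ≠ 0 := by
      by_contra hcon
      push Not at hcon
      obtain ⟨c, hc⟩ := eq_smul_of_perp_le hQ hcon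
      have h1 := hsA.2
      rw [hc, polar_smul_right, ha, smul_eq_mul, mul_one] at h1
      rw [h1, zero_smul] at hc
      exact hs0 hc
    obtain ⟨z', h1, h2⟩ : ∃ z', polar Q s z' = 1 ∧ polar Q d z' = 0 :=
      ⟨(polar Q s z)⁻¹ • z, by rw [polar_smul_right, smul_eq_mul, inv_mul_cancel₀ hsz],
        by rw [polar_smul_right, hdz, smul_zero]⟩
    refine ⟨s, z' + (-Q z') • s, hs, ?_, ?_, hsA.1, ?_⟩
    · rw [Q_add_smul, hs, polar_comm Q z' s, h1]; ring
    · rw [polar_add_right, polar_smul_right, polar_self, hs, h1]; simp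
    · rw [polar_add_right, polar_smul_right, h2, hsA.1]; simp

/-- Every vector of `d^⊥` is a sum of three singular vectors of `d^⊥`. -/
lemma exists_three_singular [Fintype F] [FiniteDimensional F V] {Q : QuadraticForm F V}
    (hQ : (polarBilin Q).Nondegenerate) (hn : 5 ≤ finrank F V) (d : V) {x : V}
    (hx : polar Q d x = 0) :
    ∃ s₁ s₂ s₃ : V, x = s₁ + s₂ + s₃ ∧ (Q s₁ = 0 ∧ polar Q d s₁ = 0) ∧
      (Q s₂ = 0 ∧ polar Q d s₂ = 0) ∧ (Q s₃ = 0 ∧ polar Q d s₃ = 0) := by
  obtain ⟨s, f, hs, hf, hsf, hds, hdf⟩ := exists_hyp_pair_perp hQ hn d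
  have hfs : polar Q f s = 1 := by rw [polar_comm]; exact hsf
  have hss : polar Q s s = 0 := by rw [polar_self, hs]; simp
  have hff : polar Q f f = 0 := by rw [polar_self, hf]; simp
  set w := x - polar Q f x • s - polar Q s x • f with hw
  have hsw : polar Q s w = 0 := by
    rw [hw]; simp only [polar_sub_right, polar_smul_right, hss, hsf, smul_eq_mul]; ring
  have hfw : polar Q f w = 0 := by
    rw [hw]; simp only [polar_sub_right, polar_smul_right, hff, hfs, smul_eq_mul]; ring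
  have hdw : polar Q d w = 0 := by
    rw [hw]; simp only [polar_sub_right, polar_smul_right, hx, hds, hdf, smul_eq_mul]; ring
  refine ⟨w + s + (-Q w) • f, (polar Q f x - 1) • s, (polar Q s x + Q w) • f, ?_, ⟨?_, ?_⟩,
    ⟨?_, ?_⟩, ⟨?_, ?_⟩⟩
  · rw [hw]; module
  · rw [Q_add_smul, QuadraticMap.map_add (⇑Q), hs, hf, polar_add_left, hsf, polar_comm Q w s, hsw,
      polar_comm Q w f, hfw]
    ring
  · rw [polar_add_right, polar_add_right, polar_smul_right, hdw, hds, hdf]; simp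
  · rw [QuadraticMap.map_smul, hs]; simp
  · rw [polar_smul_right, hds]; simp
  · rw [QuadraticMap.map_smul, hf]; simp
  · rw [polar_smul_right, hdf]; simp

/-- a singular vector orthogonal to `d` but not to `v` -/
lemma exists_singular_perp_not_perp [Fintype F] [FiniteDimensional F V] {Q : QuadraticForm F V}
    (hQ : (polarBilin Q).Nondegenerate) (hn : 5 ≤ finrank F V) {d v : V}
    (hv : ∀ c : F, v ≠ c • d) : ∃ u, Q u = 0 ∧ polar Q u d = 0 ∧ polar Q u v ≠ 0 := by
  by_contra hcon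
  push Not at hcon
  obtain ⟨c, hc⟩ := eq_smul_of_perp_le hQ (d := d) (v := v) (by
    intro x hx
    obtain ⟨s₁, s₂, s₃, rfl, h1, h2, h3⟩ := exists_three_singular hQ hn d hx
    rw [polar_add_right, polar_add_right, polar_comm Q v s₁, polar_comm Q v s₂, polar_comm Q v s₃,
      hcon s₁ h1.1 (by rw [polar_comm]; exact h1.2), hcon s₂ h2.1 (by rw [polar_comm]; exact h2.2),
      hcon s₃ h3.1 (by rw [polar_comm]; exact h3.2)]
    simp)
  exact hv c hc

/-- The subgroup generated by the Eichler transformations. -/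
def EO (Q : QuadraticForm F V) : Subgroup ↥(OQ Q) :=
  Subgroup.closure {g | ∃ (u v : V) (hu : Q u = 0) (huv : polar Q u v = 0), g = eichlerO Q u v hu huv}

lemma eichlerO_mem_EO (Q : QuadraticForm F V) (u v : V) (hu : Q u = 0) (huv : polar Q u v = 0) :
    eichlerO Q u v hu huv ∈ EO Q :=
  Subgroup.subset_closure ⟨u, v, hu, huv, rfl⟩

lemma eichlerO_apply (Q : QuadraticForm F V) (u v : V) (hu : Q u = 0) (huv : polar Q u v = 0) (x : V) :
    (eichlerO Q u v hu huv : V ≃ₗ[F] V) x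
      = x + polar Q v x • u - polar Q u x • v - (Q v * polar Q u x) • u :=
  eichler_apply Q u v hu huv x

lemma OQ_inv_apply_apply {Q : QuadraticForm F V} (g : ↥(OQ Q)) (x : V) :
    ((g⁻¹ : ↥(OQ Q)) : V ≃ₗ[F] V) ((g : V ≃ₗ[F] V) x) = x := by
  have : ((g⁻¹ * g : ↥(OQ Q)) : V ≃ₗ[F] V) x = x := by rw [inv_mul_cancel]; rfl
  exact this

lemma OQ_apply_inv_apply {Q : QuadraticForm F V} (g : ↥(OQ Q)) (x : V) :
    (g : V ≃ₗ[F] V) (((g⁻¹ : ↥(OQ Q)) : V ≃ₗ[F] V) x) = x := by
  have : ((g * g⁻¹ : ↥(OQ Q)) : V ≃ₗ[F] V) x = x := by rw [mul_inv_cancel]; rfl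
  exact this

lemma OQ_ext {Q : QuadraticForm F V} {g h : ↥(OQ Q)}
    (H : ∀ x, (g : V ≃ₗ[F] V) x = (h : V ≃ₗ[F] V) x) : g = h :=
  Subtype.ext (LinearEquiv.ext H)

lemma conj_eichlerO {Q : QuadraticForm F V} (g : ↥(OQ Q)) (u v : V) (hu : Q u = 0)
    (huv : polar Q u v = 0) :
    g * eichlerO Q u v hu huv * g⁻¹ = eichlerO Q ((g : V ≃ₗ[F] V) u) ((g : V ≃ₗ[F] V) v)
      (by rw [mem_OQ.1 g.2, hu]) (by rw [OQ_polar g.2, huv]) := by
  apply OQ_ext
  intro x
  change (g : V ≃ₗ[F] V) ((eichlerO Q u v hu huv : V ≃ₗ[F] V) (((g⁻¹ : ↥(OQ Q)) : V ≃ₗ[F] V) x)) = _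
  rw [eichlerO_apply, eichlerO_apply]
  have h1 : ∀ y, polar Q y (((g⁻¹ : ↥(OQ Q)) : V ≃ₗ[F] V) x) = polar Q ((g : V ≃ₗ[F] V) y) x := by
    intro y
    rw [← OQ_polar g.2, OQ_apply_inv_apply]
  simp only [map_add, map_sub, map_smul, h1, OQ_apply_inv_apply, mem_OQ.1 g.2]

instance EO_normal (Q : QuadraticForm F V) : (EO Q).Normal := by
  rw [← Subgroup.normalizer_eq_top_iff, eq_top_iff, EO, Subgroup.le_normalizer_closure_iff]
  rintro h - _ ⟨u, v, hu, huv, rfl⟩
  rw [conj_eichlerO]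
  exact Subgroup.subset_closure ⟨_, _, _, _, rfl⟩

lemma EO_le_commutator [Fintype F] [FiniteDimensional F V] {Q : QuadraticForm F V}
    (hQ : (polarBilin Q).Nondegenerate) (hn : 5 ≤ finrank F V) :
    EO Q ≤ commutator ↥(OQ Q) := by
  rw [EO, Subgroup.closure_le]
  rintro _ ⟨u, v, hu, huv, rfl⟩
  exact eichlerO_mem_commutator hQ hn hu huv

/-- one Eichler step -/
lemma exists_eichler_map {Q : QuadraticForm F V} {v w u : V} (hvw : Q v = Q w) (hu : Q u = 0)
    (hud : polar Q u (w - v) = 0) (huv : polar Q u v ≠ 0) :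
    ∃ y, ∃ huy : polar Q u y = 0, (eichlerO Q u y hu huy : V ≃ₗ[F] V) v = w := by
  set a := polar Q u v with ha'
  set d := w - v with hd
  have ha : a ≠ 0 := huv
  refine ⟨(-a⁻¹) • d, by rw [polar_smul_right, hud, smul_zero], ?_⟩
  rw [eichlerO_apply]
  have h1 : Q d + polar Q d v = 0 := by
    have : Q w = Q v + Q d + polar Q v d := by
      rw [← QuadraticMap.map_add (⇑Q)]; congr 1; rw [hd]; abel
    rw [polar_comm]; linear_combination -hvw - this
  rw [polar_smul_left, QuadraticMap.map_smul, smul_eq_mul, smul_eq_mul, ← ha']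
  have e1 : a • ((-a⁻¹) • d) = -d := by
    rw [smul_smul, mul_neg, mul_inv_cancel₀ ha, neg_smul, one_smul]
  have e2 : (-a⁻¹ * polar Q d v) - ((-a⁻¹) * (-a⁻¹) * Q d) * a = 0 := by
    field_simp
    linear_combination -h1
  calc _ = v + ((-a⁻¹ * polar Q d v) - ((-a⁻¹) * (-a⁻¹) * Q d) * a) • u - a • ((-a⁻¹) • d) := by
        module
    _ = w := by rw [e2, e1, hd]; simp

lemma EO_step [Fintype F] [FiniteDimensional F V] {Q : QuadraticForm F V}
    (hQ : (polarBilin Q).Nondegenerate) (hn : 5 ≤ finrank F V) {v w : V} (hv : v ≠ 0)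
    (hvw : Q v = Q w) (hne : ∀ c : F, w ≠ c • v) : ∃ g ∈ EO Q, (g : V ≃ₗ[F] V) v = w := by
  obtain ⟨u, hu, hud, huv⟩ := exists_singular_perp_not_perp hQ hn (d := w - v) (v := v) (by
    intro c hc
    by_cases hc0 : c = 0
    · rw [hc0, zero_smul] at hc; exact hv hc
    · apply hne (c⁻¹ * (1 + c))
      have : c • w = (1 + c) • v := by
        rw [smul_sub] at hc
        rw [add_smul, one_smul]
        nth_rewrite 1 [hc]
        abel
      rw [mul_smul, ← this, smul_smul, inv_mul_cancel₀ hc0, one_smul])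
  obtain ⟨y, huy, h⟩ := exists_eichler_map hvw hu hud huv
  exact ⟨_, eichlerO_mem_EO Q u y hu huy, h⟩

/-- The group generated by the Eichler transformations is transitive on the vectors of a given
non-zero norm. -/
theorem EO_transitive_nonsing [Fintype F] [FiniteDimensional F V] {Q : QuadraticForm F V}
    (hQ : (polarBilin Q).Nondegenerate) (hn : 5 ≤ finrank F V) {v w : V} (hv : Q v ≠ 0)
    (hvw : Q v = Q w) : ∃ g ∈ EO Q, (g : V ≃ₗ[F] V) v = w := by
  have hv0 : v ≠ 0 := by rintro rfl; simp at hv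
  by_cases h : ∃ c : F, w = c • v
  · obtain ⟨c₀, hc₀⟩ := h
    have h3 := le_finrank_perp2 Q v v
    obtain ⟨s, hsA, hs0, hs⟩ := exists_singular_of_finrank Q (perp2 Q v v) (by omega)
    rw [mem_perp2] at hsA
    have hne : ∀ c : F, v + s ≠ c • v := by
      intro c hc
      have h1 : s = (c - 1) • v := by rw [sub_smul, one_smul, ← hc]; abel
      have h2 := hs
      rw [h1, QuadraticMap.map_smul, smul_eq_mul] at h2
      rcases mul_eq_zero.1 h2 with h4 | h4
      · have : c - 1 = 0 := by simpa using h4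
        rw [this, zero_smul] at h1
        exact hs0 h1
      · exact hv h4
    have hQ' : Q v = Q (v + s) := by rw [QuadraticMap.map_add (⇑Q), hs, hsA.1]; simp
    have hv'0 : v + s ≠ 0 := by
      intro h0
      exact hne 0 (by rw [h0, zero_smul])
    obtain ⟨g₁, hg₁, e₁⟩ := EO_step hQ hn hv0 hQ' hne
    obtain ⟨g₂, hg₂, e₂⟩ := EO_step hQ hn hv'0 (hQ'.symm.trans hvw) (by
      intro c hc
      have hc0 : c ≠ 0 := by
        rintro rfl
        rw [zero_smul] at hc
        rw [hc] at hvw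
        simp at hvw
        exact hv hvw
      apply hne (c⁻¹ * c₀)
      rw [mul_smul, ← hc₀, hc, smul_smul, inv_mul_cancel₀ hc0, one_smul])
    refine ⟨g₂ * g₁, mul_mem hg₂ hg₁, ?_⟩
    change (g₂ : V ≃ₗ[F] V) ((g₁ : V ≃ₗ[F] V) v) = w
    rw [e₁, e₂]
  · push Not at h
    exact EO_step hQ hn hv0 hvw h

lemma conj_reflO {Q : QuadraticForm F V} (g : ↥(OQ Q)) (v : V) :
    g * reflO Q v * g⁻¹ = reflO Q ((g : V ≃ₗ[F] V) v) :=
  Subtype.ext (conj_refl g.2 v)

theorem commutator_le_EO [Fintype F] [FiniteDimensional F V] {Q : QuadraticForm F V}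
    (hQ : (polarBilin Q).Nondegenerate) (hn : 5 ≤ finrank F V) :
    commutator ↥(OQ Q) ≤ EO Q := by
  set φ := QuotientGroup.mk' (EO Q) with hφ
  have hker : ∀ t ∈ EO Q, φ t = 1 := fun t ht => (QuotientGroup.eq_one_iff t).2 ht
  have key : ∀ v w : V, Q w ≠ 0 → Commute (φ (reflO Q v)) (φ (reflO Q w)) := by
    intro v w hw
    obtain ⟨s, f, hs, hf, hsf, hvs, hvf⟩ := exists_hyp_pair_perp hQ hn v
    have hw' : Q w = Q (s + Q w • f) := by rw [Q_add_smul, hs, hf, hsf]; ring
    obtain ⟨t, ht, e⟩ := EO_transitive_nonsing hQ hn hw hw'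
    have h1 : φ (reflO Q (s + Q w • f)) = φ (reflO Q w) := by
      rw [← e, ← conj_reflO, map_mul, map_mul, map_inv, hker t ht]; simp
    rw [← h1]
    apply Commute.map
    have h2 := conj_reflO (reflO Q v) (s + Q w • f)
    have h3 : ((reflO Q v : ↥(OQ Q)) : V ≃ₗ[F] V) (s + Q w • f) = s + Q w • f := by
      apply refl_apply_of_polar_eq_zero
      rw [polar_add_right, polar_smul_right, hvs, hvf]; simp
    rw [h3] at h2
    exact mul_inv_eq_iff_eq_mul.1 h2
  rw [commutator_def, Subgroup.commutator_le]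
  intro g _ h _
  rw [← QuotientGroup.eq_one_iff, ← QuotientGroup.mk'_apply, ← hφ, map_commutatorElement,
    commutatorElement_eq_one_iff_commute]
  obtain ⟨l₁, hl₁, rfl⟩ := exists_prod_reflO hQ (Or.inr (by omega)) g
  obtain ⟨l₂, hl₂, rfl⟩ := exists_prod_reflO hQ (Or.inr (by omega)) h
  rw [map_list_prod, map_list_prod]
  apply Commute.list_prod_left
  intro x hx
  apply Commute.list_prod_right
  intro y hy
  simp only [List.mem_map] at hx hy
  obtain ⟨_, ⟨v, hv, rfl⟩, rfl⟩ := hx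
  obtain ⟨_, ⟨w, hw, rfl⟩, rfl⟩ := hy
  exact key v w (hl₂ w hw)

/-- `Ω` is generated by the Eichler transformations. -/
theorem commutator_eq_EO [Fintype F] [FiniteDimensional F V] {Q : QuadraticForm F V}
    (hQ : (polarBilin Q).Nondegenerate) (hn : 5 ≤ finrank F V) :
    commutator ↥(OQ Q) = EO Q :=
  le_antisymm (commutator_le_EO hQ hn) (EO_le_commutator hQ hn)

end Cfsg.Agent.Lib.Helper5
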