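import Mathlib
import Cfsg.Agent.Lib.Helper5.OmegaGen

set_option autoImplicit false

/-! # `Ω` is perfect (dimension at least five, finite field) -/

namespace Cfsg.Agent.Lib.Helper5

open QuadraticMap Module Cfsg.Agent.Lib.Helper44
open scoped commutatorElement

variable {F V : Type*} [Field F] [AddCommGroup V] [Module F V]

lemma exists_polar_ne_zero_of_finrank [FiniteDimensional F V] {Q : QuadraticForm F V}
    (hQ : (polarBilin Q).Nondegenerate) (W : Submodule F V) (hW : finrank F V < 2 * finrank F W) :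
    ∃ w ∈ W, ∃ w' ∈ W, polar Q w w' ≠ 0 := by
  by_contra hcon
  push Not at hcon
  have hle : W ≤ LinearMap.BilinForm.orthogonal (polarBilin Q) W := by
    intro w hw
    rw [LinearMap.BilinForm.mem_orthogonal_iff]
    intro n hn
    exact hcon n hn w hw
  have h1 := Submodule.finrank_mono hle
  rw [LinearMap.BilinForm.finrank_orthogonal hQ] at h1
  omega

lemma commutator_eichlerO {Q : QuadraticForm F V} {u u' w w' : V} (hu : Q u = 0) (hu' : Q u' = 0)
    (huu' : polar Q u u' = 0) (huw : polar Q u w = 0) (huw' : polar Q u w' = 0)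
    (hu'w : polar Q u' w = 0) (hu'w' : polar Q u' w' = 0) :
    ⁅eichlerO Q u w hu huw, eichlerO Q u' w' hu' hu'w'⁆
      = eichlerO Q u ((-polar Q w w') • u') hu (by rw [polar_smul_right, huu', smul_zero]) := by
  rw [commutatorElement_def, mul_inv_eq_iff_eq_mul, mul_inv_eq_iff_eq_mul]
  apply OQ_ext
  intro x
  have h1 : polar Q u u = 0 := by rw [polar_self, hu]; simp
  have h2 : polar Q u' u' = 0 := by rw [polar_self, hu']; simp
  have h3 : polar Q u' u = 0 := by rw [polar_comm]; exact huu'
  have h4 : polar Q w u = 0 := by rw [polar_comm]; exact huw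
  have h5 : polar Q w' u = 0 := by rw [polar_comm]; exact huw'
  have h6 : polar Q w u' = 0 := by rw [polar_comm]; exact hu'w
  have h7 : polar Q w' u' = 0 := by rw [polar_comm]; exact hu'w'
  have h8 : polar Q w' w = polar Q w w' := polar_comm _ _ _
  simp only [Subgroup.coe_mul, LinearEquiv.mul_apply, eichlerO_apply, polar_add_right,
    polar_sub_right, polar_smul_right, polar_smul_left, QuadraticMap.map_smul, smul_eq_mul,
    hu', huu', huw, huw', hu'w, hu'w', h1, h2, h3, h5, h6, h8, mul_zero, zero_mul,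
    add_zero, sub_zero, zero_smul]
  module

lemma eichlerO_mem_commutator_EO [Fintype F] [FiniteDimensional F V] {Q : QuadraticForm F V}
    (hQ : (polarBilin Q).Nondegenerate) (hn : 5 ≤ finrank F V) {u s : V} (hu : Q u = 0)
    (hs : Q s = 0) (hus : polar Q u s = 0) : eichlerO Q u s hu hus ∈ ⁅EO Q, EO Q⁆ := by
  have h3 := le_finrank_perp2 Q u s
  obtain ⟨w, hw, w', hw', hne⟩ := exists_polar_ne_zero_of_finrank hQ (perp2 Q u s) (by omega)
  rw [mem_perp2] at hw hw'
  have h := commutator_eichlerO (w := w) (w' := (-(polar Q w w')⁻¹) • w') hu hs hus hw.1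
    (by rw [polar_smul_right, hw'.1, smul_zero]) hw.2 (by rw [polar_smul_right, hw'.2, smul_zero])
  have e : eichlerO Q u s hu hus = eichlerO Q u ((-polar Q w ((-(polar Q w w')⁻¹) • w')) • s) hu
      (by rw [polar_smul_right, hus, smul_zero]) := by
    congr 1
    rw [polar_smul_right, smul_eq_mul, neg_mul, inv_mul_cancel₀ hne, neg_neg, one_smul]
  rw [e, ← h]
  exact Subgroup.commutator_mem_commutator (eichlerO_mem_EO Q _ _ _ _) (eichlerO_mem_EO Q _ _ _ _)

theorem EO_le_commutator_EO [Fintype F] [FiniteDimensional F V] {Q : QuadraticForm F V}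
    (hQ : (polarBilin Q).Nondegenerate) (hn : 5 ≤ finrank F V) : EO Q ≤ ⁅EO Q, EO Q⁆ := by
  nth_rewrite 1 [EO]
  rw [Subgroup.closure_le]
  rintro _ ⟨u, v, hu, huv, rfl⟩
  obtain ⟨s₁, s₂, s₃, rfl, h1, h2, h3⟩ := exists_three_singular hQ hn u huv
  have e := eichlerO_add Q (v := s₁ + s₂) (v' := s₃) hu
    (by rw [polar_add_right, h1.2, h2.2, add_zero]) h3.2
  have e' := eichlerO_add Q (v := s₁) (v' := s₂) hu h1.2 h2.2
  change eichlerO Q u (s₁ + s₂ + s₃) hu huv ∈ ⁅EO Q, EO Q⁆
  rw [e, e']
  exact mul_mem (mul_mem (eichlerO_mem_commutator_EO hQ hn hu h1.1 h1.2)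
    (eichlerO_mem_commutator_EO hQ hn hu h2.1 h2.2)) (eichlerO_mem_commutator_EO hQ hn hu h3.1 h3.2)

/-- `Ω` is perfect. -/
theorem commutator_commutator_eq_top [Fintype F] [FiniteDimensional F V] {Q : QuadraticForm F V}
    (hQ : (polarBilin Q).Nondegenerate) (hn : 5 ≤ finrank F V) :
    commutator ↥(commutator ↥(OQ Q)) = ⊤ := by
  apply Subgroup.map_injective (commutator ↥(OQ Q)).subtype_injective
  rw [Subgroup.map_subtype_commutator, ← MonoidHom.range_eq_map, Subgroup.range_subtype]
  apply le_antisymm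
  · exact Subgroup.commutator_le_left _ _
  · rw [commutator_eq_EO hQ hn]
    exact EO_le_commutator_EO hQ hn

end Cfsg.Agent.Lib.Helper5
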