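import Mathlib
import Cfsg.Agent.Lib.Helper5.OmegaPerfect

set_option autoImplicit false

/-! # `Ω` acts primitively on the singular points -/

namespace Cfsg.Agent.Lib.Helper5

open QuadraticMap Module Cfsg.Agent.Lib.Helper44
open scoped LinearAlgebra.Projectivization Pointwise

variable {F V : Type*} [Field F] [AddCommGroup V] [Module F V]

/-- The abstract `Ω`. -/
abbrev OmQ (Q : QuadraticForm F V) : Type _ := ↥(commutator ↥(OQ Q))

/-- The underlying linear equivalence. -/
def OmQ.lin {Q : QuadraticForm F V} (g : OmQ Q) : V ≃ₗ[F] V := g.1.1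

lemma OmQ.lin_mul {Q : QuadraticForm F V} (g h : OmQ Q) (x : V) :
    (g * h).lin x = g.lin (h.lin x) := rfl

lemma OmQ.lin_one {Q : QuadraticForm F V} (x : V) : (1 : OmQ Q).lin x = x := rfl

lemma OmQ.Q_lin {Q : QuadraticForm F V} (g : OmQ Q) (x : V) : Q (g.lin x) = Q x :=
  mem_OQ.1 g.1.2 x

lemma OmQ.polar_lin {Q : QuadraticForm F V} (g : OmQ Q) (x y : V) :
    polar Q (g.lin x) (g.lin y) = polar Q x y := OQ_polar g.1.2 x y

lemma OmQ.ext {Q : QuadraticForm F V} {g h : OmQ Q} (H : ∀ x, g.lin x = h.lin x) : g = h :=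
  Subtype.ext (OQ_ext H)

/-- The singular points. -/
def SingPt (Q : QuadraticForm F V) : Type _ := {p : ℙ F V // Q p.rep = 0}

lemma Q_rep_mk (Q : QuadraticForm F V) {v : V} (hv : v ≠ 0) (hq : Q v = 0) :
    Q (Projectivization.mk F v hv).rep = 0 := by
  obtain ⟨a, ha⟩ := Projectivization.exists_smul_eq_mk_rep F v hv
  rw [← ha, Units.smul_def, QuadraticMap.map_smul, hq, smul_zero]

/-- The point spanned by a singular vector. -/
def SingPt.mk (Q : QuadraticForm F V) (v : V) (hv : v ≠ 0) (hq : Q v = 0) : SingPt Q :=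
  ⟨Projectivization.mk F v hv, Q_rep_mk Q hv hq⟩

lemma SingPt.ind {Q : QuadraticForm F V} {P : SingPt Q → Prop}
    (h : ∀ v hv hq, P (SingPt.mk Q v hv hq)) (x : SingPt Q) : P x := by
  have := h x.1.rep x.1.rep_nonzero x.2
  have e : SingPt.mk Q x.1.rep x.1.rep_nonzero x.2 = x := Subtype.ext (Projectivization.mk_rep _)
  rwa [e] at this

lemma SingPt.mk_eq_mk_iff {Q : QuadraticForm F V} {v w : V} (hv : v ≠ 0) (hq : Q v = 0)
    (hw : w ≠ 0) (hq' : Q w = 0) :
    SingPt.mk Q v hv hq = SingPt.mk Q w hw hq' ↔ ∃ a : F, a • w = v := by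
  rw [← Projectivization.mk_eq_mk_iff' F v w hv hw]
  exact Subtype.ext_iff

noncomputable instance (Q : QuadraticForm F V) : MulAction (OmQ Q) (SingPt Q) where
  smul g x := ⟨g.lin • x.1, by
    obtain ⟨p, hp⟩ := x
    induction p using Projectivization.ind with | h v hv => ?_
    rw [Projectivization.smul_mk]
    apply Q_rep_mk
    rw [LinearEquiv.smul_def, g.Q_lin]
    obtain ⟨a, ha⟩ := Projectivization.exists_smul_eq_mk_rep F v hv
    rw [← ha, Units.smul_def, QuadraticMap.map_smul, smul_eq_mul] at hp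
    rcases mul_eq_zero.1 hp with h | h
    · exact absurd h (mul_ne_zero a.ne_zero a.ne_zero)
    · exact h⟩
  one_smul x := Subtype.ext (one_smul (V ≃ₗ[F] V) x.1)
  mul_smul g h x := Subtype.ext (mul_smul g.lin h.lin x.1)

lemma OmQ.lin_ne_zero {Q : QuadraticForm F V} (g : OmQ Q) {v : V} (hv : v ≠ 0) : g.lin v ≠ 0 :=
  fun h => hv (g.lin.map_eq_zero_iff.1 h)

lemma OmQ.smul_mk {Q : QuadraticForm F V} (g : OmQ Q) (v : V) (hv : v ≠ 0) (hq : Q v = 0) :
    g • SingPt.mk Q v hv hq = SingPt.mk Q (g.lin v) (g.lin_ne_zero hv) (by rw [g.Q_lin, hq]) :=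
  rfl

section

variable [Fintype F] [FiniteDimensional F V] {Q : QuadraticForm F V}
  (hQ : (polarBilin Q).Nondegenerate) (hn : 5 ≤ finrank F V)

/-- Eichler transformations as elements of `Ω`. -/
def eichOm (u v : V) (hu : Q u = 0) (huv : polar Q u v = 0) : OmQ Q :=
  ⟨eichlerO Q u v hu huv, eichlerO_mem_commutator hQ hn hu huv⟩

lemma eichOm_lin (u v : V) (hu : Q u = 0) (huv : polar Q u v = 0) (x : V) :
    (eichOm hQ hn u v hu huv).lin x
      = x + polar Q v x • u - polar Q u x • v - (Q v * polar Q u x) • u :=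
  eichlerO_apply Q u v hu huv x

lemma eichOm_lin_of_perp (u v : V) (hu : Q u = 0) (huv : polar Q u v = 0) {x : V}
    (h1 : polar Q u x = 0) (h2 : polar Q v x = 0) : (eichOm hQ hn u v hu huv).lin x = x := by
  rw [eichOm_lin, h1, h2]; simp

/-- `v` is a non-zero singular vector and the point `[v]` lies in `B`. -/
def inBq (B : Set (SingPt Q)) (v : V) : Prop :=
  ∃ (hv : v ≠ 0) (hq : Q v = 0), SingPt.mk Q v hv hq ∈ B

omit [Fintype F] [FiniteDimensional F V] in
lemma inBq_smul {B : Set (SingPt Q)} {v : V} (h : inBq B v) {a : F} (ha : a ≠ 0) :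
    inBq B (a • v) := by
  obtain ⟨hv, hq, hB⟩ := h
  refine ⟨smul_ne_zero ha hv, by rw [QuadraticMap.map_smul, hq, smul_zero], ?_⟩
  have : SingPt.mk Q (a • v) (smul_ne_zero ha hv) (by rw [QuadraticMap.map_smul, hq, smul_zero])
      = SingPt.mk Q v hv hq := by
    rw [SingPt.mk_eq_mk_iff]
    exact ⟨a, rfl⟩
  rw [this]; exact hB

omit [Fintype F] [FiniteDimensional F V] in
lemma inBq_map {B : Set (SingPt Q)} (hB : MulAction.IsBlock (OmQ Q) B) (g : OmQ Q) {v : V}
    (h : inBq B v) (h' : inBq B (g.lin v)) {w : V} (hw : inBq B w) : inBq B (g.lin w) := by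
  obtain ⟨hv, hvq, hvB⟩ := h
  obtain ⟨hv', hvq', hvB'⟩ := h'
  obtain ⟨hw, hwq, hwB⟩ := hw
  have h1 : g • B = B := hB.smul_eq_of_mem hvB (by rw [OmQ.smul_mk]; exact hvB')
  refine ⟨g.lin_ne_zero hw, by rw [g.Q_lin, hwq], ?_⟩
  rw [← OmQ.smul_mk g w hw hwq, ← h1]
  exact Set.smul_mem_smul_set hwB

include hQ hn in
lemma blockAq {B : Set (SingPt Q)} (hB : MulAction.IsBlock (OmQ Q) B) {u w z : V} (hu : inBq B u)
    (hw : inBq B w) (huw : polar Q u w ≠ 0) (hz : Q z = 0) (huz : polar Q u z ≠ 0) :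
    inBq B z := by
  have hu0 : Q u = 0 := hu.2.1
  have hw0 : Q w = 0 := hw.2.1
  obtain ⟨y, huy, hy⟩ := exists_eichler_map (Q := Q) (v := (polar Q u w)⁻¹ • w)
    (w := (polar Q u z)⁻¹ • z) (u := u)
    (by rw [QuadraticMap.map_smul, QuadraticMap.map_smul, hw0, hz]; simp) hu0
    (by rw [polar_sub_right, polar_smul_right, polar_smul_right, smul_eq_mul, smul_eq_mul,
      inv_mul_cancel₀ huw, inv_mul_cancel₀ huz, sub_self])
    (by rw [polar_smul_right, smul_eq_mul, inv_mul_cancel₀ huw]; exact one_ne_zero)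
  have hfix : (eichOm hQ hn u y hu0 huy).lin u = u :=
    eichOm_lin_of_perp hQ hn u y hu0 huy (by rw [polar_self, hu0]; simp)
      (by rw [polar_comm]; exact huy)
  have h1 := inBq_map hB (eichOm hQ hn u y hu0 huy) hu (by rw [hfix]; exact hu)
    (inBq_smul hw (inv_ne_zero huw))
  have h2 : (eichOm hQ hn u y hu0 huy).lin ((polar Q u w)⁻¹ • w) = (polar Q u z)⁻¹ • z := hy
  rw [h2] at h1
  have h3 := inBq_smul h1 huz
  rwa [smul_smul, mul_inv_cancel₀ huz, one_smul] at h3

include hQ hn in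
lemma blockBq {B : Set (SingPt Q)} (hB : MulAction.IsBlock (OmQ Q) B) {u w : V} (hu : inBq B u)
    (hw : inBq B w) (huw : polar Q u w ≠ 0) {z : V} (hz0 : z ≠ 0) (hz : Q z = 0) : inBq B z := by
  have hu0 : Q u = 0 := hu.2.1
  by_cases huz : polar Q u z = 0
  · obtain ⟨a, hua, hza⟩ : ∃ a, polar Q u a ≠ 0 ∧ polar Q z a ≠ 0 := by
      obtain ⟨b, hb⟩ := polar_nondeg_exists hQ hz0
      rw [polar_comm] at hb
      by_cases h1 : polar Q z w = 0
      · by_cases h2 : polar Q u b = 0
        · refine ⟨w + b, ?_, ?_⟩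
          · rw [polar_add_right, h2, add_zero]; exact huw
          · rw [polar_add_right, h1, zero_add, hb]; exact one_ne_zero
        · exact ⟨b, h2, by rw [hb]; exact one_ne_zero⟩
      · exact ⟨w, huw, h1⟩
    set y := a + (-(Q a / polar Q u a)) • u with hy
    have hyq : Q y = 0 := by
      rw [hy, Q_add_smul, hu0, polar_comm Q a u]; field_simp; ring
    have huy : polar Q u y ≠ 0 := by
      rw [hy, polar_add_right, polar_smul_right, polar_self, hu0]; simpa using hua
    have hzy : polar Q z y ≠ 0 := by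
      rw [hy, polar_add_right, polar_smul_right, polar_comm Q z u, huz]; simpa using hza
    have hyB : inBq B y := blockAq hQ hn hB hu hw huw hyq huy
    exact blockAq hQ hn hB hyB hu (by rw [polar_comm]; exact huy) hz (by rw [polar_comm]; exact hzy)
  · exact blockAq hQ hn hB hu hw huw hz huz

include hQ hn in
lemma blockCq {B : Set (SingPt Q)} (hB : MulAction.IsBlock (OmQ Q) B) {u w : V} (hu : inBq B u)
    (hw : inBq B w) (hne : ∀ a : F, u ≠ a • w) {z : V} (hz0 : z ≠ 0) (hz : Q z = 0) :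
    inBq B z := by
  have hu0 : Q u = 0 := hu.2.1
  by_cases huw : polar Q u w = 0
  · obtain ⟨a, hwa, hua⟩ : ∃ a, polar Q w a = 0 ∧ polar Q u a ≠ 0 := by
      by_contra hcon
      push Not at hcon
      obtain ⟨c, hc⟩ := eq_smul_of_perp_le hQ hcon
      exact hne c hc
    obtain ⟨a', hwa', hua'⟩ : ∃ a, polar Q w a = 0 ∧ polar Q u a = 1 :=
      ⟨(polar Q u a)⁻¹ • a, by rw [polar_smul_right, hwa, smul_zero],
        by rw [polar_smul_right, smul_eq_mul, inv_mul_cancel₀ hua]⟩
    set f := a' + (-Q a') • u with hf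
    have hfq : Q f = 0 := by rw [hf, Q_add_smul, hu0, polar_comm Q a' u, hua']; ring
    have hwf : polar Q f w = 0 := by
      rw [polar_comm, hf, polar_add_right, polar_smul_right, hwa', polar_comm Q w u, huw]; simp
    have huf : polar Q f u = 1 := by
      rw [polar_comm, hf, polar_add_right, polar_smul_right, polar_self, hu0, hua']; simp
    have h3 := le_finrank_perp2 Q f w
    obtain ⟨v, hv, hvq⟩ := exists_nonsingular_of_finrank hQ (perp2 Q f w) (by omega)
    rw [mem_perp2] at hv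
    have hfix : (eichOm hQ hn f v hfq hv.1).lin w = w :=
      eichOm_lin_of_perp hQ hn f v hfq hv.1 hwf (by rw [polar_comm]; exact hv.2)
    have h1 := inBq_map hB (eichOm hQ hn f v hfq hv.1) hw (by rw [hfix]; exact hw) hu
    refine blockBq hQ hn hB hu h1 ?_ hz0 hz
    rw [eichOm_lin, huf]
    simp only [polar_add_right, polar_sub_right, polar_smul_right, polar_self, hu0,
      polar_comm Q u f, huf, smul_eq_mul, polar_comm Q u v]
    simpa using hvq
  · exact blockBq hQ hn hB hu hw huw hz0 hz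

include hQ hn in
theorem omQ_isPretransitive : MulAction.IsPretransitive (OmQ Q) (SingPt Q) := by
  constructor
  intro x y
  induction x using SingPt.ind with | h v hv hvq => ?_
  induction y using SingPt.ind with | h w hw hwq => ?_
  by_cases h : ∃ c : F, w = c • v
  · obtain ⟨c, hc⟩ := h
    refine ⟨1, ?_⟩
    rw [one_smul, eq_comm, SingPt.mk_eq_mk_iff]
    exact ⟨c, hc.symm⟩
  · push Not at h
    obtain ⟨g, hg, e⟩ := EO_step hQ hn hv (hvq.trans hwq.symm) h
    refine ⟨⟨g, EO_le_commutator hQ hn hg⟩, ?_⟩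
    rw [OmQ.smul_mk, SingPt.mk_eq_mk_iff]
    exact ⟨1, by rw [one_smul]; exact e.symm⟩

include hQ hn in
theorem omQ_isPreprimitive : MulAction.IsPreprimitive (OmQ Q) (SingPt Q) := by
  have := omQ_isPretransitive hQ hn
  constructor
  intro B hB
  by_cases hs : B.Subsingleton
  · exact Or.inl hs
  right
  rw [Set.not_subsingleton_iff] at hs
  obtain ⟨x, hx, y, hy, hxy⟩ := hs
  induction x using SingPt.ind with | h v hv hvq => ?_
  induction y using SingPt.ind with | h w hw hwq => ?_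
  rw [Set.eq_univ_iff_forall]
  intro z
  induction z using SingPt.ind with | h z hz hzq => ?_
  have := blockCq hQ hn hB (u := v) (w := w) ⟨hv, hvq, hx⟩ ⟨hw, hwq, hy⟩ (by
    intro a ha
    apply hxy
    rw [SingPt.mk_eq_mk_iff]
    exact ⟨a, ha.symm⟩) hz hzq
  exact this.2.2

end

end Cfsg.Agent.Lib.Helper5
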