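import Mathlib
import Cfsg.Agent.Lib.Helper5.OmegaPrimitive
import Cfsg.Agent.Lib.Helper44.Transport

set_option autoImplicit false

/-! # Simplicity of `PΩ` (dimension at least five, finite field, non-degenerate polar form) -/

namespace Cfsg.Agent.Lib.Helper5

open QuadraticMap Module Cfsg.Agent.Lib.Helper44
open scoped LinearAlgebra.Projectivization Pointwise

variable {F V : Type*} [Field F] [AddCommGroup V] [Module F V]

lemma eichlerO_zero_right (Q : QuadraticForm F V) (u : V) (hu : Q u = 0) :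
    eichlerO Q u 0 hu (by simp) = 1 := by
  apply OQ_ext
  intro x
  rw [eichlerO_apply]
  simp

lemma eichlerO_zero_left (Q : QuadraticForm F V) (v : V) :
    eichlerO Q 0 v (by simp) (by simp) = 1 := by
  apply OQ_ext
  intro x
  rw [eichlerO_apply]
  simp

lemma eichlerO_inv (Q : QuadraticForm F V) (u v : V) (hu : Q u = 0) (huv : polar Q u v = 0) :
    (eichlerO Q u v hu huv)⁻¹ = eichlerO Q u (-v) hu (by rw [polar_neg_right, huv, neg_zero]) := by
  apply inv_eq_of_mul_eq_one_right
  rw [← eichlerO_add]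
  have : eichlerO Q u (v + -v) hu (by simp) = eichlerO Q u 0 hu (by simp) := by
    congr 1; simp
  rw [this, eichlerO_zero_right]

lemma eichlerO_smul_left (Q : QuadraticForm F V) (u v : V) (a : F) (hu : Q u = 0)
    (huv : polar Q u v = 0) :
    eichlerO Q (a • u) v (by rw [QuadraticMap.map_smul, hu, smul_zero])
      (by rw [polar_smul_left, huv, smul_zero])
      = eichlerO Q u (a • v) hu (by rw [polar_smul_right, huv, smul_zero]) := by
  apply OQ_ext
  intro x
  rw [eichlerO_apply, eichlerO_apply]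
  simp only [polar_smul_left, QuadraticMap.map_smul, smul_eq_mul]
  module

/-- The group of Eichler transformations with centre `u`. -/
def eichGroup (Q : QuadraticForm F V) (u : V) (hu : Q u = 0) : Subgroup (OmQ Q) where
  carrier := {g | ∃ v, ∃ huv : polar Q u v = 0, (g : ↥(OQ Q)) = eichlerO Q u v hu huv}
  mul_mem' := by
    rintro a b ⟨v, hv, ha⟩ ⟨v', hv', hb⟩
    exact ⟨v + v', by rw [polar_add_right, hv, hv', add_zero],
      by rw [Subgroup.coe_mul, ha, hb, eichlerO_add]⟩
  one_mem' := ⟨0, by simp, (eichlerO_zero_right Q u hu).symm⟩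
  inv_mem' := by
    rintro a ⟨v, hv, ha⟩
    exact ⟨-v, by rw [polar_neg_right, hv, neg_zero], by rw [Subgroup.coe_inv, ha, eichlerO_inv]⟩

lemma eichGroup_smul (Q : QuadraticForm F V) (u : V) (hu : Q u = 0) {a : F} (ha : a ≠ 0) :
    eichGroup Q (a • u) (by rw [QuadraticMap.map_smul, hu, smul_zero]) = eichGroup Q u hu := by
  ext g
  constructor
  · rintro ⟨v, hv, hg⟩
    have hv' : polar Q u v = 0 := by
      rw [polar_smul_left, smul_eq_mul] at hv
      exact (mul_eq_zero.1 hv).resolve_left ha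
    exact ⟨a • v, by rw [polar_smul_right, hv', smul_zero], by rw [hg, eichlerO_smul_left Q u v a hu hv']⟩
  · rintro ⟨v, hv, hg⟩
    refine ⟨a⁻¹ • v, by rw [polar_smul_left, polar_smul_right, hv]; simp, ?_⟩
    rw [hg, eichlerO_smul_left Q u (a⁻¹ • v) a hu (by rw [polar_smul_right, hv, smul_zero])]
    congr 1
    rw [smul_smul, mul_inv_cancel₀ ha, one_smul]

lemma eichGroup_congr (Q : QuadraticForm F V) {u u' : V} (h : u = u') (hu : Q u = 0) :
    eichGroup Q u hu = eichGroup Q u' (h ▸ hu) := by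
  subst h; rfl

lemma eichGroup_conj {Q : QuadraticForm F V} (g : OmQ Q) (u : V) (hu : Q u = 0) :
    eichGroup Q (g.lin u) (by rw [g.Q_lin, hu]) = MulAut.conj g • eichGroup Q u hu := by
  ext X
  rw [Subgroup.mem_pointwise_smul_iff_inv_smul_mem]
  constructor
  · rintro ⟨v, hv, hX⟩
    refine ⟨g⁻¹.lin v, ?_, ?_⟩
    · rw [← g.polar_lin, ← OmQ.lin_mul, mul_inv_cancel]; exact hv
    · have h1 := conj_eichlerO g.1 u (g⁻¹.lin v) hu
        (by rw [← g.polar_lin, ← OmQ.lin_mul, mul_inv_cancel]; exact hv)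
      have h2 : eichlerO Q ((g.1 : V ≃ₗ[F] V) u) ((g.1 : V ≃ₗ[F] V) (g⁻¹.lin v))
          (by rw [mem_OQ.1 g.1.2, hu]) (by
            rw [OQ_polar g.1.2, ← g.polar_lin, ← OmQ.lin_mul, mul_inv_cancel]; exact hv)
          = X.1 := by
        rw [hX]
        congr 1
        change g.lin (g⁻¹.lin v) = v
        rw [← OmQ.lin_mul, mul_inv_cancel]; rfl
      rw [h2] at h1
      simp only [MulAut.smul_def, MulAut.conj_inv_apply, Subgroup.coe_mul, Subgroup.coe_inv]
      rw [← h1]
      group
  · rintro ⟨v, hv, hX⟩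
    refine ⟨g.lin v, by rw [g.polar_lin, hv], ?_⟩
    have h1 := conj_eichlerO g.1 u v hu hv
    simp only [MulAut.smul_def, MulAut.conj_inv_apply, Subgroup.coe_mul, Subgroup.coe_inv] at hX
    rw [← hX] at h1
    rw [← show _ = eichlerO Q (g.lin u) (g.lin v) _ _ from h1]
    group

lemma eichGroup_rep (Q : QuadraticForm F V) (v : V) (hv : v ≠ 0) (hq : Q v = 0) :
    eichGroup Q (SingPt.mk Q v hv hq).1.rep (SingPt.mk Q v hv hq).2 = eichGroup Q v hq := by
  obtain ⟨a, ha⟩ := Projectivization.exists_smul_eq_mk_rep F v hv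
  rw [← eichGroup_smul Q v hq a.ne_zero]
  exact eichGroup_congr Q ha.symm _

section

variable [Fintype F] [FiniteDimensional F V] {Q : QuadraticForm F V}
  (hQ : (polarBilin Q).Nondegenerate) (hn : 5 ≤ finrank F V)

include hQ hn in
lemma iSup_eichGroup_eq_top : (⨆ x : SingPt Q, eichGroup Q x.1.rep x.2) = ⊤ := by
  rw [eq_top_iff]
  rintro ⟨g, hg⟩ -
  have hg' : g ∈ EO Q := commutator_le_EO hQ hn hg
  have hle := EO_le_commutator hQ hn
  induction hg' using Subgroup.closure_induction with
  | mem y hy =>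
    obtain ⟨u, v, hu, huv, rfl⟩ := hy
    by_cases hu0 : u = 0
    · subst hu0
      have : (⟨eichlerO Q 0 v hu huv, hg⟩ : OmQ Q) = 1 := Subtype.ext (eichlerO_zero_left Q v)
      rw [this]; exact one_mem _
    · apply Subgroup.mem_iSup_of_mem (SingPt.mk Q u hu0 hu)
      rw [eichGroup_rep]
      exact ⟨v, huv, rfl⟩
  | one => exact one_mem _
  | mul a b ha hb iha ihb =>
    have := mul_mem (iha (hle ha)) (ihb (hle hb))
    exact this
  | inv a ha iha =>
    have := inv_mem (iha (hle ha))
    exact this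

/-- The Iwasawa structure of `Ω`. -/
noncomputable def omIwasawa : MulAction.IwasawaStructure (OmQ Q) (SingPt Q) where
  T x := eichGroup Q x.1.rep x.2
  is_comm x := by
    refine ⟨⟨?_⟩⟩
    rintro ⟨a, v, hv, ha⟩ ⟨b, v', hv', hb⟩
    apply Subtype.ext
    apply Subtype.ext
    change a.1 * b.1 = b.1 * a.1
    rw [ha, hb, ← eichlerO_add, ← eichlerO_add]
    congr 1
    exact add_comm _ _
  is_conj g x := by
    induction x using SingPt.ind with | h v hv hq => ?_
    rw [OmQ.smul_mk, eichGroup_rep, eichGroup_rep, eichGroup_conj]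
  is_generator := iSup_eichGroup_eq_top hQ hn

include hQ hn in
/-- A linear map fixing all singular points is a scalar. -/
theorem eq_smul_of_fix_singular (g : V →ₗ[F] V)
    (h1 : ∀ u, u ≠ 0 → Q u = 0 → ∃ c : F, g u = c • u) : ∃ c : F, ∀ x, g x = c • x := by
  obtain ⟨e, -, he0, he⟩ := exists_singular_of_finrank Q ⊤ (by rw [finrank_top]; omega)
  obtain ⟨c, hc⟩ := h1 e he0 he
  have h2 : ∀ u, Q u = 0 → g u = c • u := by
    intro u hu
    by_cases hu0 : u = 0
    · subst hu0; simp
    obtain ⟨a, ha⟩ := h1 u hu0 hu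
    have h3 := le_finrank_perp2 Q e u
    obtain ⟨w, hw, hw0, hwQ⟩ := exists_singular_of_finrank Q (perp2 Q e u) (by omega)
    rw [mem_perp2] at hw
    obtain ⟨b, hb⟩ := h1 w hw0 hwQ
    have e1 := eigen_eq_of_orth Q g h1 he0 hw0 he hwQ hw.1 hc hb
    have e2 := eigen_eq_of_orth Q g h1 hu0 hw0 hu hwQ hw.2 ha hb
    rw [ha, e2, ← e1]
  refine ⟨c, fun x => ?_⟩
  obtain ⟨s₁, s₂, s₃, rfl, k1, k2, k3⟩ := exists_three_singular hQ hn (0 : V) (x := x) (by simp)
  rw [map_add, map_add, h2 _ k1.1, h2 _ k2.1, h2 _ k3.1, smul_add, smul_add]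

include hQ hn in
/-- A normal subgroup of `Ω` is central or everything. -/
theorem omQ_normal_le_center_or (N : Subgroup (OmQ Q)) [N.Normal] :
    N ≤ Subgroup.center (OmQ Q) ∨ N = ⊤ := by
  have := omQ_isPreprimitive hQ hn
  by_cases hfix : MulAction.fixedPoints N (SingPt Q) = Set.univ
  · left
    intro A hA
    obtain ⟨c, hc⟩ := eq_smul_of_fix_singular hQ hn (A.lin : V →ₗ[F] V) (fun v hv hq => by
      have h1 : (⟨A, hA⟩ : N) • SingPt.mk Q v hv hq = SingPt.mk Q v hv hq :=
        (Set.eq_univ_iff_forall.1 hfix _) ⟨A, hA⟩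
      change A • SingPt.mk Q v hv hq = _ at h1
      rw [OmQ.smul_mk, SingPt.mk_eq_mk_iff] at h1
      obtain ⟨c, hc⟩ := h1
      exact ⟨c, hc.symm⟩)
    rw [Subgroup.mem_center_iff]
    intro B
    apply OmQ.ext
    intro x
    rw [OmQ.lin_mul, OmQ.lin_mul]
    have h1 : ∀ y, A.lin y = c • y := hc
    rw [h1, h1, map_smul]
  · right
    have := (omIwasawa hQ hn).commutator_le N hfix
    rwa [commutator_commutator_eq_top hQ hn, top_le_iff] at this

include hQ hn in
theorem omQ_center_ne_top : Subgroup.center (OmQ Q) ≠ ⊤ := by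
  intro hc
  have h1 : commutator (OmQ Q) = ⊥ := by
    change ⁅(⊤ : Subgroup (OmQ Q)), ⊤⁆ = ⊥
    rw [Subgroup.commutator_eq_bot_iff_le_centralizer, Subgroup.coe_top,
      Subgroup.centralizer_univ, hc]
  rw [commutator_commutator_eq_top hQ hn] at h1
  obtain ⟨s, f, hs, hf, hsf, -, -⟩ := exists_hyp_pair_perp hQ hn (0 : V)
  have h3 := le_finrank_perp2 Q s f
  obtain ⟨v, hv, hvq⟩ := exists_nonsingular_of_finrank hQ (perp2 Q s f) (by omega)
  rw [mem_perp2] at hv
  have h2 : eichOm hQ hn s v hs hv.1 = 1 := by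
    have : eichOm hQ hn s v hs hv.1 ∈ (⊤ : Subgroup (OmQ Q)) := trivial
    rw [h1] at this
    exact this
  have h4 := congrArg (fun A : OmQ Q => polar Q f (A.lin f)) h2
  simp only [eichOm_lin, OmQ.lin_one] at h4
  simp only [polar_add_right, polar_sub_right, polar_smul_right, polar_self, hf, hsf,
    polar_comm Q f s, polar_comm Q v f, hv.2, smul_eq_mul] at h4
  apply hvq
  simpa using h4

include hQ hn in
theorem omQ_quot_isSimpleGroup : IsSimpleGroup (OmQ Q ⧸ Subgroup.center (OmQ Q)) := by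
  have hnt : Nontrivial (OmQ Q ⧸ Subgroup.center (OmQ Q)) := by
    rw [QuotientGroup.nontrivial_iff]
    exact omQ_center_ne_top hQ hn
  refine ⟨fun N hN => ?_⟩
  rcases omQ_normal_le_center_or hQ hn
    (N.comap (QuotientGroup.mk' (Subgroup.center (OmQ Q)))) with h1 | h1
  · left
    rw [eq_bot_iff]
    intro x hx
    obtain ⟨a, rfl⟩ := QuotientGroup.mk_surjective x
    have : a ∈ Subgroup.center (OmQ Q) := h1 hx
    rw [Subgroup.mem_bot]
    exact (QuotientGroup.eq_one_iff a).2 this
  · right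
    rw [eq_top_iff]
    intro x _
    obtain ⟨a, rfl⟩ := QuotientGroup.mk_surjective x
    have : a ∈ N.comap (QuotientGroup.mk' (Subgroup.center (OmQ Q))) := by rw [h1]; trivial
    exact this

end

/-- An isomorphism of groups induces an isomorphism of the commutator subgroups. -/
noncomputable def commutatorEquiv {A B : Type*} [Group A] [Group B] (e : A ≃* B) :
    ↥(commutator A) ≃* ↥(commutator B) :=
  (e.subgroupMap (commutator A)).trans (MulEquiv.subgroupCongr (by
    rw [commutator_def, Subgroup.map_commutator, commutator_def,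
      Subgroup.map_top_of_surjective _ e.surjective]))

lemma commutatorEquiv_coe {A B : Type*} [Group A] [Group B] (e : A ≃* B) (x : ↥(commutator A)) :
    ((commutatorEquiv e x : ↥(commutator B)) : B) = e x := rfl

/-- An isomorphism of groups induces an isomorphism of the central quotients. -/
noncomputable def quotCenterEquiv {G H : Type*} [Group G] [Group H] (e : G ≃* H) :
    G ⧸ Subgroup.center G ≃* H ⧸ Subgroup.center H :=
  QuotientGroup.congr _ _ e (by
    ext x
    constructor
    · rintro ⟨z, hz, rfl⟩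
      rw [Subgroup.mem_center_iff]
      intro h
      obtain ⟨h', rfl⟩ := e.surjective h
      have := Subgroup.mem_center_iff.1 hz h'
      change e h' * e z = e z * e h'
      rw [← map_mul, ← map_mul, this]
    · intro hx
      refine ⟨e.symm x, ?_, by simp⟩
      change e.symm x ∈ Subgroup.center G
      rw [Subgroup.mem_center_iff]
      intro g
      apply e.injective
      rw [map_mul, map_mul, e.apply_symm_apply]
      exact Subgroup.mem_center_iff.1 hx (e g))

/-- `PΩ` of a form on `ι → F` is the central quotient of the abstract `Ω`. -/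
noncomputable def pOmegaEquiv {ι : Type} [Fintype ι] [DecidableEq ι] (Q : QuadraticForm F (ι → F)) :
    Cfsg.POmega F ⇑Q ≃* OmQ Q ⧸ Subgroup.center (OmQ Q) :=
  quotCenterEquiv (commutatorEquiv (isoEquiv Q))

theorem pOmega_isSimpleGroup [Fintype F] {ι : Type} [Fintype ι] [DecidableEq ι]
    (Q : QuadraticForm F (ι → F)) (hQ : (polarBilin Q).Nondegenerate) (hn : 5 ≤ Fintype.card ι) :
    IsSimpleGroup (Cfsg.POmega F ⇑Q) := by
  rw [(pOmegaEquiv Q).isSimpleGroup_congr]
  exact omQ_quot_isSimpleGroup hQ (by simpa using hn)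

end Cfsg.Agent.Lib.Helper5
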