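import Mathlib
import Cfsg.Agent.Lib.Helper5.SUTorus

set_option autoImplicit false

/-! # Automorphisms of `PSU_n(q)`, part 1: calculus relative to a hyperbolic pair -/

namespace Cfsg.Agent.Lib.Helper5

open Matrix Module Cfsg.Agent.Lib.Helper13 Cfsg.Agent.Lib.Helper94 Cfsg.Agent.Lib.Helper94.U
  Cfsg.Agent.Lib.Helper45.SUGen

variable {F : Type*} [Field F] {q n : ℕ}

local notation "H" => Cfsg.hermForm n F q
local notation "V" => (Fin n → F)
local notation "G" => Cfsg.SU n F q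

/-- The class of an element of `SU_n(q)` in `PSU_n(q)`. -/
def pmk (g : G) : Cfsg.PSU n F q := QuotientGroup.mk g

lemma pmk_mul (g h : G) : pmk (g * h) = pmk g * pmk h := rfl
lemma pmk_inv (g : G) : pmk g⁻¹ = (pmk g)⁻¹ := rfl
lemma pmk_one : pmk (1 : G) = 1 := rfl
lemma pmk_surj (x : Cfsg.PSU n F q) : ∃ g : G, pmk g = x := QuotientGroup.mk_surjective x

lemma pmk_eq_of_smul {g g' : G} {ζ : F} (h : ∀ x, g.1.1 *ᵥ x = ζ • (g'.1.1 *ᵥ x)) :
    pmk g = pmk g' := by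
  rw [pmk, pmk, QuotientGroup.eq, Subgroup.mem_center_iff]
  have h1 : ∀ x, (g⁻¹ * g').1.1 *ᵥ (ζ • x) = x := by
    intro x
    rw [SU_mul_mulVec, mulVec_smul, ← h, SU_inv_mulVec_mulVec]
  have hζ : n ≠ 0 → ζ ≠ 0 := by
    intro hn hζ
    obtain ⟨i⟩ : Nonempty (Fin n) := ⟨⟨0, Nat.pos_of_ne_zero hn⟩⟩
    have := h1 (Pi.single i 1)
    rw [hζ, zero_smul, mulVec_zero] at this
    have h2 := congrFun this i
    simp at h2
  intro k
  apply SU_ext_mulVec
  intro x
  rcases Nat.eq_zero_or_pos n with hn | hn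
  · subst hn; exact Subsingleton.elim _ _
  have hz := hζ hn.ne'
  have h2 : ∀ x, (g⁻¹ * g').1.1 *ᵥ x = ζ⁻¹ • x := by
    intro x
    have := h1 (ζ⁻¹ • x)
    rw [smul_smul, mul_inv_cancel₀ hz, one_smul] at this
    exact this
  rw [SU_mul_mulVec k, SU_mul_mulVec _ k, h2, h2, mulVec_smul]

variable [Fintype F]

lemma exists_smul_of_pmk_eq (hF : Fintype.card F = q ^ 2) {g g' : G} (h : pmk g = pmk g') :
    ∃ ζ : F, ∀ x, g'.1.1 *ᵥ x = ζ • (g.1.1 *ᵥ x) := by
  rw [pmk, pmk, QuotientGroup.eq] at h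
  obtain ⟨a, ha⟩ := SU_center_scalar hF _ h
  refine ⟨a, fun x => ?_⟩
  have h1 : (g⁻¹ * g').1.1 *ᵥ x = a • x := by
    rw [ha, Matrix.scalar_apply, ← Matrix.smul_one_eq_diagonal, Matrix.smul_mulVec, one_mulVec]
  have h2 : g.1.1 *ᵥ ((g⁻¹ * g').1.1 *ᵥ x) = g'.1.1 *ᵥ x := by
    rw [← SU_mul_mulVec, mul_inv_cancel_left]
  rw [← h2, h1, mulVec_smul]

/-- A hyperbolic pair. -/
structure HypPair (n : ℕ) (F : Type*) [Field F] (q : ℕ) where
  u : Fin n → F
  v : Fin n → F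
  hu : Cfsg.hermForm n F q u u = 0
  hv : Cfsg.hermForm n F q v v = 0
  huv : Cfsg.hermForm n F q u v = 1

namespace HypPair

variable (P : HypPair n F q)

include P in
lemma hvu (hF : Fintype.card F = q ^ 2) : H P.v P.u = 1 := by
  rw [← hermForm_swap hF, P.huv, one_pow]

omit [Fintype F] in
lemma u_ne : P.u ≠ 0 := by
  intro h
  have := P.huv
  rw [h, hermForm_zero_left] at this
  exact zero_ne_one this

lemma v_ne (hF : Fintype.card F = q ^ 2) : P.v ≠ 0 := by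
  intro h
  have := P.hvu hF
  rw [h, hermForm_zero_left] at this
  exact zero_ne_one this

/-- Membership in `W = {u,v}^⊥`. -/
def InW (w : V) : Prop := H w P.u = 0 ∧ H w P.v = 0

omit [Fintype F] in
lemma inW_zero : P.InW 0 := ⟨hermForm_zero_left _, hermForm_zero_left _⟩

omit [Fintype F] in
lemma InW.add {w w' : V} (h : P.InW w) (h' : P.InW w') : P.InW (w + w') :=
  ⟨by rw [hermForm_add_left, h.1, h'.1, add_zero], by rw [hermForm_add_left, h.2, h'.2, add_zero]⟩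

omit [Fintype F] in
lemma InW.smul {w : V} (h : P.InW w) (c : F) : P.InW (c • w) :=
  ⟨by rw [hermForm_smul_left, h.1, mul_zero], by rw [hermForm_smul_left, h.2, mul_zero]⟩

omit [Fintype F] in
lemma InW.neg {w : V} (h : P.InW w) : P.InW (-w) :=
  ⟨by rw [hermForm_neg_left, h.1, neg_zero], by rw [hermForm_neg_left, h.2, neg_zero]⟩

omit [Fintype F] in
lemma InW.sub {w w' : V} (h : P.InW w) (h' : P.InW w') : P.InW (w - w') :=
  ⟨by rw [hermForm_sub_left, h.1, h'.1, sub_zero], by rw [hermForm_sub_left, h.2, h'.2, sub_zero]⟩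

lemma InW.u_left (hF : Fintype.card F = q ^ 2) {w : V} (h : P.InW w) : H P.u w = 0 :=
  hermForm_eq_zero_comm hF h.1

lemma InW.v_left (hF : Fintype.card F = q ^ 2) {w : V} (h : P.InW w) : H P.v w = 0 :=
  hermForm_eq_zero_comm hF h.2

/-- The projection to `W`. -/
def pW (x : V) : V := x - H x P.v • P.u - H x P.u • P.v

lemma inW_pW (hF : Fintype.card F = q ^ 2) (x : V) : P.InW (P.pW x) := by
  constructor
  · rw [pW, hermForm_sub_left, hermForm_sub_left, hermForm_smul_left, hermForm_smul_left, P.hu,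
      P.hvu hF]; ring
  · rw [pW, hermForm_sub_left, hermForm_sub_left, hermForm_smul_left, hermForm_smul_left, P.hv,
      P.huv]; ring

omit [Fintype F] in
lemma pW_of_inW {w : V} (h : P.InW w) : P.pW w = w := by
  rw [pW, h.1, h.2]; simp

omit [Fintype F] in
lemma decomp (x : V) : x = H x P.v • P.u + H x P.u • P.v + P.pW x := by
  rw [pW]; abel

omit [Fintype F] in
lemma pW_add (x y : V) : P.pW (x + y) = P.pW x + P.pW y := by
  simp only [pW, hermForm_add_left]; module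

omit [Fintype F] in
lemma pW_smul (c : F) (x : V) : P.pW (c • x) = c • P.pW x := by
  simp only [pW, hermForm_smul_left]; module

/-- If `α u + β v + w = α' u + β' v + w'` then all components agree. -/
lemma comp_ext (hF : Fintype.card F = q ^ 2) {α β α' β' : F} {w w' : V} (hw : P.InW w)
    (hw' : P.InW w') (h : α • P.u + β • P.v + w = α' • P.u + β' • P.v + w') :
    α = α' ∧ β = β' ∧ w = w' := by
  have h1 := congrArg (fun x => H x P.v) h
  have h2 := congrArg (fun x => H x P.u) h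
  simp only [hermForm_add_left, hermForm_smul_left, P.hu, P.hv, P.huv, P.hvu hF, hw.1, hw.2, hw'.1,
    hw'.2, mul_one, mul_zero, add_zero, zero_add] at h1 h2
  subst h1 h2
  exact ⟨rfl, rfl, add_left_cancel h⟩

/-- The elements of the unipotent radical `Q_u`, parametrised by `W`. -/
def E (hF : Fintype.card F = q ^ 2) (w : V) (a : F) (hw : P.InW w)
    (ha : a + a ^ q + H w w = 0) : G := eSU hF P.u w a P.hu hw.1 ha

lemma E_mulVec (hF : Fintype.card F = q ^ 2) (w : V) (a : F) (hw : P.InW w)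
    (ha : a + a ^ q + H w w = 0) (x : V) :
    (P.E hF w a hw ha).1.1 *ᵥ x = x + H x P.u • w - H x w • P.u + (a * H x P.u) • P.u :=
  eSU_mulVec hF _ _ _ _ _ _ x

lemma E_congr (hF : Fintype.card F = q ^ 2) {w w' : V} {a a' : F} (h1 : w = w') (h2 : a = a')
    (hw : P.InW w) (ha : a + a ^ q + H w w = 0) :
    P.E hF w a hw ha = P.E hF w' a' (h1 ▸ hw) (by subst h1 h2; exact ha) := by
  subst h1 h2; rfl

lemma E_u (hF : Fintype.card F = q ^ 2) (w : V) (a : F) (hw : P.InW w)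
    (ha : a + a ^ q + H w w = 0) : (P.E hF w a hw ha).1.1 *ᵥ P.u = P.u := by
  rw [E_mulVec, P.hu, hw.u_left P hF]; simp

lemma E_v (hF : Fintype.card F = q ^ 2) (w : V) (a : F) (hw : P.InW w)
    (ha : a + a ^ q + H w w = 0) : (P.E hF w a hw ha).1.1 *ᵥ P.v = P.v + w + a • P.u := by
  rw [E_mulVec, P.hvu hF, hw.v_left P hF]; simp

lemma E_mul (hF : Fintype.card F = q ^ 2) (w w' : V) (a a' : F) (hw : P.InW w) (hw' : P.InW w')
    (ha : a + a ^ q + H w w = 0) (ha' : a' + a' ^ q + H w' w' = 0) :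
    ∃ h3, P.E hF w a hw ha * P.E hF w' a' hw' ha'
      = P.E hF (w + w') (a + a' - H w' w) (hw.add P hw') h3 :=
  ⟨_, eSU_mul hF P.u w w' a a' P.hu hw.1 hw'.1 ha ha'⟩

lemma tSU_eq_E (hF : Fintype.card F = q ^ 2) (c : F) (hc : c + c ^ q = 0) :
    tSU hF P.u c P.hu hc = P.E hF 0 c P.inW_zero (by rw [hermForm_zero_left, hc, add_zero]) := rfl

/-- Uniqueness of the parameters, even modulo the centre. -/
lemma E_inj (hF : Fintype.card F = q ^ 2) {w w' : V} {a a' : F} (hw : P.InW w) (hw' : P.InW w')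
    (ha : a + a ^ q + H w w = 0) (ha' : a' + a' ^ q + H w' w' = 0)
    (h : pmk (P.E hF w a hw ha) = pmk (P.E hF w' a' hw' ha')) : w = w' ∧ a = a' := by
  obtain ⟨ζ, hζ⟩ := exists_smul_of_pmk_eq hF h
  have h1 := hζ P.u
  rw [E_u, E_u] at h1
  have hζ1 : ζ = 1 := by
    have := congrArg (fun x => H x P.v) h1
    simp only [hermForm_smul_left, P.huv, mul_one] at this
    exact this.symm
  have h2 := hζ P.v
  rw [E_v, E_v, hζ1, one_smul] at h2
  have h3 : a' • P.u + (1 : F) • P.v + w' = a • P.u + (1 : F) • P.v + w := by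
    rw [one_smul]; linear_combination (exp := 1) h2
  obtain ⟨e1, -, e3⟩ := P.comp_ext hF hw' hw h3
  exact ⟨e3.symm, e1.symm⟩

/-- `k` fixes the points `u`, `v`, with eigenvalue `l` on `u`. -/
def Tor (k : G) (l : F) : Prop :=
  l ≠ 0 ∧ k.1.1 *ᵥ P.u = l • P.u ∧ k.1.1 *ᵥ P.v = (l ^ q)⁻¹ • P.v

lemma tor_of_fix (hF : Fintype.card F = q ^ 2) {k : G} {l l' : F} (h1 : k.1.1 *ᵥ P.u = l • P.u)
    (h2 : k.1.1 *ᵥ P.v = l' • P.v) : P.Tor k l := by
  have h3 : H (k.1.1 *ᵥ P.u) (k.1.1 *ᵥ P.v) = 1 := by rw [SU_preserves, P.huv]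
  rw [h1, h2, hermForm_smul_left, hermForm_smul_right, P.huv, mul_one] at h3
  have hl : l ≠ 0 := by rintro rfl; simp at h3
  refine ⟨hl, h1, ?_⟩
  rw [h2]
  congr 1
  have h4 : l' ^ q = l⁻¹ := by field_simp; linear_combination h3
  rw [← pow_q_pow_q hF l', h4, inv_pow]

variable {P}

lemma Tor.inW (hF : Fintype.card F = q ^ 2) {k : G} {l : F} (hk : P.Tor k l) {w : V}
    (hw : P.InW w) : P.InW (k.1.1 *ᵥ w) := by
  obtain ⟨hl, h1, h2⟩ := hk
  have hq : l ^ q ≠ 0 := pow_ne_zero _ hl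
  constructor
  · have : H (k.1.1 *ᵥ w) (k.1.1 *ᵥ P.u) = 0 := by rw [SU_preserves, hw.1]
    rw [h1, hermForm_smul_right] at this
    exact (mul_eq_zero.1 this).resolve_left hq
  · have : H (k.1.1 *ᵥ w) (k.1.1 *ᵥ P.v) = 0 := by rw [SU_preserves, hw.2]
    rw [h2, hermForm_smul_right] at this
    exact (mul_eq_zero.1 this).resolve_left (pow_ne_zero _ (inv_ne_zero hq))

lemma Tor.kap_inW (hF : Fintype.card F = q ^ 2) {k : G} {l : F} (hk : P.Tor k l) {w : V}
    (hw : P.InW w) : P.InW (l ^ q • (k.1.1 *ᵥ w)) := (hk.inW hF hw).smul P _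

lemma Tor.conj_E (hF : Fintype.card F = q ^ 2) {k : G} {l : F} (hk : P.Tor k l) (w : V) (a : F)
    (hw : P.InW w) (ha : a + a ^ q + H w w = 0) :
    ∃ h3, k * P.E hF w a hw ha * k⁻¹
      = P.E hF (l ^ q • (k.1.1 *ᵥ w)) (l * l ^ q * a) (hk.kap_inW hF hw) h3 := by
  have h3 : l * l ^ q * a + (l * l ^ q * a) ^ q
      + H (l ^ q • (k.1.1 *ᵥ w)) (l ^ q • (k.1.1 *ᵥ w)) = 0 := by
    rw [hermForm_smul_left, hermForm_smul_right, SU_preserves]
    simp only [mul_pow, pow_q_pow_q hF]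
    linear_combination (l * l ^ q) * ha
  refine ⟨h3, ?_⟩
  apply SU_ext_mulVec
  intro x
  have e1 : H ((k⁻¹).1.1 *ᵥ x) P.u = l ^ q * H x P.u := by
    rw [← SU_preserves k, SU_mulVec_inv_mulVec, hk.2.1, hermForm_smul_right]
  have e2 : H ((k⁻¹).1.1 *ᵥ x) w = H x (k.1.1 *ᵥ w) := by
    rw [← SU_preserves k, SU_mulVec_inv_mulVec]
  rw [SU_mul_mulVec, SU_mul_mulVec, HypPair.E_mulVec, HypPair.E_mulVec, e1, e2]
  simp only [mulVec_add, mulVec_sub, mulVec_smul, SU_mulVec_inv_mulVec, hk.2.1,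
    hermForm_smul_right, pow_q_pow_q hF]
  module

lemma Tor.mul {k k' : G} {l l' : F} (hk : P.Tor k l) (hk' : P.Tor k' l') :
    P.Tor (k * k') (l * l') := by
  refine ⟨mul_ne_zero hk.1 hk'.1, ?_, ?_⟩
  · rw [SU_mul_mulVec, hk'.2.1, mulVec_smul, hk.2.1, smul_smul, mul_comm]
  · rw [SU_mul_mulVec, hk'.2.2, mulVec_smul, hk.2.2, smul_smul, mul_pow, _root_.mul_inv_rev]

lemma Tor.inv {k : G} {l : F} (hk : P.Tor k l) : P.Tor k⁻¹ l⁻¹ := by
  have hq : l ^ q ≠ 0 := pow_ne_zero _ hk.1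
  refine ⟨inv_ne_zero hk.1, ?_, ?_⟩
  · have := congrArg (fun x => (k⁻¹).1.1 *ᵥ x) hk.2.1
    simp only [SU_inv_mulVec_mulVec, mulVec_smul] at this
    nth_rewrite 2 [this]
    rw [smul_smul, inv_mul_cancel₀ hk.1, one_smul]
  · have := congrArg (fun x => (k⁻¹).1.1 *ᵥ x) hk.2.2
    simp only [SU_inv_mulVec_mulVec, mulVec_smul] at this
    rw [inv_pow, inv_inv]
    nth_rewrite 2 [this]
    rw [smul_smul, mul_inv_cancel₀ hq, one_smul]

variable (P)

/-- The special torus elements. -/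
def tor (hF : Fintype.card F = q ^ 2) (z : V) (l : F) (hl : l ≠ 0) (hz : P.InW z)
    (hzz : H z z ≠ 0) : G := torSU hF P.u P.v z l hl P.hu P.hv P.huv hz.1 hz.2 hzz

lemma tor_mulVec (hF : Fintype.card F = q ^ 2) (z : V) (l : F) (hl : l ≠ 0) (hz : P.InW z)
    (hzz : H z z ≠ 0) (x : V) :
    (P.tor hF z l hl hz hzz).1.1 *ᵥ x = x + ((l - 1) * H x P.v) • P.u
      + (((l ^ q)⁻¹ - 1) * H x P.u) • P.v + ((l ^ q * l⁻¹ - 1) / H z z * H x z) • z :=
  torMat_mulVec l P.hv hz.1 hz.2 x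

lemma tor_Tor (hF : Fintype.card F = q ^ 2) (z : V) (l : F) (hl : l ≠ 0) (hz : P.InW z)
    (hzz : H z z ≠ 0) : P.Tor (P.tor hF z l hl hz hzz) l := by
  refine ⟨hl, ?_, ?_⟩
  · rw [tor_mulVec, P.hu, P.huv, hz.u_left P hF]; module
  · rw [tor_mulVec, P.hv, P.hvu hF, hz.v_left P hF]; module

lemma tor_mulVec_inW (hF : Fintype.card F = q ^ 2) (z : V) (l : F) (hl : l ≠ 0) (hz : P.InW z)
    (hzz : H z z ≠ 0) {w : V} (hw : P.InW w) :
    (P.tor hF z l hl hz hzz).1.1 *ᵥ w = w + ((l ^ q * l⁻¹ - 1) / H z z * H w z) • z := by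
  rw [tor_mulVec, hw.1, hw.2]; module

end HypPair

/-- If two transvections agree modulo the centre, their centres are proportional. -/
lemma smul_of_pmk_tSU_eq (hF : Fintype.card F = q ^ 2) {u u' : V} (hu0 : u ≠ 0) (hu0' : u' ≠ 0)
    (hu : H u u = 0) (hu' : H u' u' = 0) {c c' : F} (hc : c + c ^ q = 0) (hc' : c' + c' ^ q = 0)
    (hc0 : c' ≠ 0) (h : pmk (tSU hF u c hu hc) = pmk (tSU hF u' c' hu' hc')) :
    ∃ l : F, u' = l • u := by
  obtain ⟨ζ, hζ⟩ := exists_smul_of_pmk_eq hF h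
  simp only [tSU_mulVec] at hζ
  have h1 := hζ u'
  rw [hu', mul_zero, zero_smul, add_zero] at h1
  have hζ1 : ζ = 1 := by
    by_cases h0 : H u' u = 0
    · rw [h0, mul_zero, zero_smul, add_zero] at h1
      by_contra hne
      apply hu0'
      have : (1 - ζ) • u' = 0 := by rw [sub_smul, one_smul, ← h1, sub_self]
      exact (smul_eq_zero.1 this).resolve_left (sub_ne_zero.2 (Ne.symm hne))
    · have h2 := congrArg (fun x => H x u) h1
      simp only [hermForm_smul_left, hermForm_add_left, hu, mul_zero, add_zero] at h2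
      have : (1 - ζ) * H u' u = 0 := by linear_combination h2
      have := (mul_eq_zero.1 this).resolve_right h0
      linear_combination -this
  obtain ⟨x, hx⟩ := exists_hermForm_ne_zero hF hu0'
  have h3 := hζ x
  rw [hζ1, one_smul] at h3
  have h4 : (c' * H x u') • u' = (c * H x u) • u := add_left_cancel h3
  refine ⟨(c' * H x u')⁻¹ * (c * H x u), ?_⟩
  rw [mul_smul, ← h4, smul_smul, inv_mul_cancel₀ (mul_ne_zero hc0 hx), one_smul]

end Cfsg.Agent.Lib.Helper5
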