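import Mathlib
import Cfsg.Agent.Lib.Helper5.PSUAut1
import Cfsg.Agent.Lib.Helper5.SUParabolic

set_option autoImplicit false

/-! # Automorphisms of `PSU_n(q)`, part 2: the commutant of the Levi factor on `W` -/

namespace Cfsg.Agent.Lib.Helper5

open Matrix Module Cfsg.Agent.Lib.Helper13 Cfsg.Agent.Lib.Helper94 Cfsg.Agent.Lib.Helper94.U
  Cfsg.Agent.Lib.Helper45.SUGen

variable {F : Type*} [Field F] [Fintype F] {q n : ℕ}

local notation "H" => Cfsg.hermForm n F q
local notation "V" => (Fin n → F)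
local notation "G" => Cfsg.SU n F q

lemma exists_anisotropic_perp (hF : Fintype.card F = q ^ 2) (U : Submodule F V)
    (hnd : ∀ x ∈ U, (∀ y ∈ U, H x y = 0) → x = 0) (hdim : finrank F U < n) :
    ∃ z : V, (∀ y ∈ U, H z y = 0) ∧ H z z ≠ 0 := by
  by_contra hcon
  push Not at hcon
  have hle : perp (hermB hF n) U ≤ U := by
    intro x hx
    rw [← perp_perp (hermH hF n) U]
    intro y hy
    exact (hermH hF n).eq_zero_of_forall_isotropic (perp (hermB hF n) U)
      (fun z hz => hcon z hz) hy hx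
  have hbot : perp (hermB hF n) U = ⊥ := by
    rw [eq_bot_iff]
    intro x hx
    exact hnd x (hle hx) hx
  have h0 := finrank_perp (hermH hF n) U
  rw [hbot, finrank_bot, Module.finrank_fin_fun] at h0
  omega

namespace HypPair

variable (P : HypPair n F q)

lemma exists_anisotropic_inW (hF : Fintype.card F = q ^ 2) (hn : 3 ≤ n) :
    ∃ z, P.InW z ∧ H z z ≠ 0 := by
  obtain ⟨z, hz, hzz⟩ := exists_anisotropic_perp hF (Submodule.span F {P.u, P.v}) (by
    intro x hx hxy
    obtain ⟨α, β, rfl⟩ := Submodule.mem_span_pair.1 hx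
    have e1 := hxy P.u (Submodule.subset_span (by simp))
    have e2 := hxy P.v (Submodule.subset_span (by simp))
    rw [hermForm_add_left, hermForm_smul_left, hermForm_smul_left, P.hu, P.hvu hF] at e1
    rw [hermForm_add_left, hermForm_smul_left, hermForm_smul_left, P.hv, P.huv] at e2
    have hβ : β = 0 := by simpa using e1
    have hα : α = 0 := by simpa using e2
    rw [hα, hβ]; simp) (by
    classical
    have h2 := finrank_span_finset_le_card (R := F) ({P.u, P.v} : Finset V)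
    have h3 : ({P.u, P.v} : Finset V).card ≤ 2 := Finset.card_le_two
    rw [Finset.coe_insert, Finset.coe_singleton, Set.finrank] at h2
    omega)
  exact ⟨z, ⟨hz _ (Submodule.subset_span (by simp)), hz _ (Submodule.subset_span (by simp))⟩, hzz⟩

lemma exists_anisotropic_inW_perp (hF : Fintype.card F = q ^ 2) (hn : 4 ≤ n) {z₁ : V}
    (hz₁ : P.InW z₁) (hzz₁ : H z₁ z₁ ≠ 0) :
    ∃ z, P.InW z ∧ H z z ≠ 0 ∧ H z z₁ = 0 := by
  obtain ⟨z, hz, hzz⟩ := exists_anisotropic_perp hF (Submodule.span F {P.u, P.v, z₁}) (by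
    intro x hx hxy
    obtain ⟨α, β, γ, rfl⟩ := Submodule.mem_span_triple.1 hx
    have e1 := hxy P.u (Submodule.subset_span (by simp))
    have e2 := hxy P.v (Submodule.subset_span (by simp))
    have e3 := hxy z₁ (Submodule.subset_span (by simp))
    simp only [hermForm_add_left, hermForm_smul_left, P.hu, P.hv, P.hvu hF, P.huv, hz₁.1, hz₁.2,
      hz₁.u_left P hF, hz₁.v_left P hF] at e1 e2 e3
    have hβ : β = 0 := by simpa using e1
    have hα : α = 0 := by simpa using e2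
    have hγ : γ = 0 := by simpa [hzz₁] using e3
    rw [hα, hβ, hγ]; simp) (by
    classical
    have h2 := finrank_span_finset_le_card (R := F) ({P.u, P.v, z₁} : Finset V)
    have h3 : ({P.u, P.v, z₁} : Finset V).card ≤ 3 := Finset.card_le_three
    rw [Finset.coe_insert, Finset.coe_insert, Finset.coe_singleton, Set.finrank] at h2
    omega)
  exact ⟨z, ⟨hz _ (Submodule.subset_span (by simp)), hz _ (Submodule.subset_span (by simp))⟩, hzz,
    hz _ (Submodule.subset_span (by simp))⟩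

lemma exists_inW_ne_zero (hF : Fintype.card F = q ^ 2) {y : V} (hy : P.InW y) (hy0 : y ≠ 0) :
    ∃ w, P.InW w ∧ H w y ≠ 0 := by
  obtain ⟨x, hx⟩ := exists_hermForm_ne_zero hF hy0
  refine ⟨P.pW x, P.inW_pW hF x, ?_⟩
  rw [pW, hermForm_sub_left, hermForm_sub_left, hermForm_smul_left, hermForm_smul_left,
    hy.u_left P hF, hy.v_left P hF]
  simpa using hx

/-- Additive endomorphisms of `W` commuting with the action of the Levi factor. -/
structure ComEnd (e : V → V) : Prop where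
  inW : ∀ w, P.InW w → P.InW (e w)
  add : ∀ w w', P.InW w → P.InW w' → e (w + w') = e w + e w'
  comm : ∀ (k : G) (l : F), P.Tor k l → ∀ w, P.InW w →
    e (l ^ q • (k.1.1 *ᵥ w)) = l ^ q • (k.1.1 *ᵥ e w)

variable {P}
omit [Fintype F] in
lemma ComEnd.zero {e : V → V} (he : P.ComEnd e) : e 0 = 0 := by
  have := he.add 0 0 P.inW_zero P.inW_zero
  rw [add_zero] at this
  exact left_eq_add.1 this

omit [Fintype F] in
lemma ComEnd.neg {e : V → V} (he : P.ComEnd e) {w : V} (hw : P.InW w) : e (-w) = -e w := by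
  have := he.add w (-w) hw (hw.neg P)
  rw [add_neg_cancel, he.zero] at this
  exact (neg_eq_of_add_eq_zero_right this.symm).symm

omit [Fintype F] in
lemma ComEnd.sub {e : V → V} (he : P.ComEnd e) {w w' : V} (hw : P.InW w) (hw' : P.InW w') :
    e (w - w') = e w - e w' := by
  rw [sub_eq_add_neg, he.add _ _ hw (hw'.neg P), he.neg hw', sub_eq_add_neg]

lemma ComEnd.smul_fix (hF : Fintype.card F = q ^ 2) (hn : 3 ≤ n) {e : V → V} (he : P.ComEnd e) {c : F}
    (hc : c ^ q = c) {w : V} (hw : P.InW w) : e (c • w) = c • e w := by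
  by_cases hc0 : c = 0
  · rw [hc0, zero_smul, zero_smul, he.zero]
  obtain ⟨z, hz, hzz⟩ := P.exists_anisotropic_inW hF hn
  have := he.comm _ c (P.tor_Tor hF z c hc0 hz hzz) w hw
  rw [P.tor_mulVec_inW hF z c hc0 hz hzz hw, P.tor_mulVec_inW hF z c hc0 hz hzz (he.inW w hw), hc,
    mul_inv_cancel₀ hc0] at this
  simpa using this

lemma ComEnd.lin_of_eta (hF : Fintype.card F = q ^ 2) (hn : 3 ≤ n) {e : V → V} (he : P.ComEnd e)
    (C : V → Prop) (hC : ∀ w, C w → P.InW w) {η : F} (hη : η ^ q ≠ η)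
    (h : ∀ w, C w → e (η • w) = η • e w) (ξ : F) {w : V} (hw : C w) : e (ξ • w) = ξ • e w := by
  have hd : η - η ^ q ≠ 0 := sub_ne_zero.2 (Ne.symm hη)
  have hd' : η ^ q - η ≠ 0 := sub_ne_zero.2 hη
  set c₁ := (ξ - ξ ^ q) / (η - η ^ q) with hc₁
  set c₀ := ξ - c₁ * η with hc₀
  have h1 : c₁ ^ q = c₁ := by
    rw [hc₁, div_pow, sub_pow_q hF, sub_pow_q hF, pow_q_pow_q hF, pow_q_pow_q hF]
    field_simp
    ring
  have h0 : c₀ ^ q = c₀ := by
    rw [hc₀, sub_pow_q hF, mul_pow, h1, hc₁]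
    field_simp
    ring
  have hW := hC w hw
  have e1 : ξ • w = c₀ • w + c₁ • (η • w) := by rw [hc₀]; module
  rw [e1, he.add _ _ (hW.smul P _) ((hW.smul P _).smul P _), he.smul_fix hF hn h0 hW,
    he.smul_fix hF hn h1 (hW.smul P _), h w hw, hc₀]
  module

lemma ComEnd.perp_step (hF : Fintype.card F = q ^ 2) (hn : 3 ≤ n) {e : V → V} (he : P.ComEnd e) {z : V}
    (hz : P.InW z) (hzz : H z z ≠ 0) {l : F} (hl : l ≠ 0) (hl1 : l ^ q ≠ l)
    (hl2 : (l ^ q) ^ 2 ≠ l ^ 2) {w : V} (hw : P.InW w) (hwz : H w z = 0) :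
    H (e w) z = 0 ∧ e (l ^ q • w) = l ^ q • e w := by
  set cz := (l ^ q * l⁻¹ - 1) / H z z with hcz
  have hz0 : z ≠ 0 := by rintro rfl; exact hzz (hermForm_zero_left _)
  have key : ∀ w', P.InW w' → H w' z = 0 →
      e (l ^ q • w') = l ^ q • e w' + (l ^ q * cz * H (e w') z) • z := by
    intro w' hw' hwz'
    have := he.comm _ l (P.tor_Tor hF z l hl hz hzz) w' hw'
    rw [P.tor_mulVec_inW hF z l hl hz hzz hw', P.tor_mulVec_inW hF z l hl hz hzz (he.inW w' hw'),
      hwz', mul_zero, zero_smul, add_zero] at this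
    rw [this, ← hcz]
    module
  have A := key w hw hwz
  have A1 := key (l ^ q • w) (hw.smul P _) (by rw [hermForm_smul_left, hwz, mul_zero])
  have ht : (l + l ^ q) ^ q = l + l ^ q := by rw [add_pow_q hF, pow_q_pow_q hF, add_comm]
  have hN : (l * l ^ q) ^ q = l * l ^ q := by rw [mul_pow, pow_q_pow_q hF, mul_comm]
  have B : l ^ q • l ^ q • w = (l + l ^ q) • (l ^ q • w) - (l * l ^ q) • w := by module
  have B1 : e (l ^ q • l ^ q • w) = (l + l ^ q) • e (l ^ q • w) - (l * l ^ q) • e w := by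
    rw [B, he.sub ((hw.smul P _).smul P _) (hw.smul P _), he.smul_fix hF hn ht (hw.smul P _),
      he.smul_fix hF hn hN hw]
  set h := H (e w) z with hh
  have hh1 : H (e (l ^ q • w)) z = l ^ q * h + l ^ q * cz * h * H z z := by
    rw [A, hermForm_add_left, hermForm_smul_left, hermForm_smul_left]
  rw [hh1, A] at A1
  rw [A] at B1
  have hvec : (l ^ q * (l ^ q * cz * h) + l ^ q * cz * (l ^ q * h + l ^ q * cz * h * H z z)
      - (l + l ^ q) * (l ^ q * cz * h)) • z = 0 := by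
    have := A1.symm.trans B1
    have h2 : (l ^ q * (l ^ q * cz * h) + l ^ q * cz * (l ^ q * h + l ^ q * cz * h * H z z)
      - (l + l ^ q) * (l ^ q * cz * h)) • z
      = (l ^ q • (l ^ q • e w + (l ^ q * cz * h) • z)
          + (l ^ q * cz * (l ^ q * h + l ^ q * cz * h * H z z)) • z)
        - ((l + l ^ q) • (l ^ q • e w + (l ^ q * cz * h) • z) - (l * l ^ q) • e w) := by
      module
    rw [h2, this, sub_self]
  have hcoef := (smul_eq_zero.1 hvec).resolve_right hz0
  have hh0 : h = 0 := by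
    have hq0 : l ^ q ≠ 0 := pow_ne_zero _ hl
    have e1 : (l ^ q * (l ^ q - l) * ((l ^ q) ^ 2 - l ^ 2)) * h = 0 := by
      rw [hcz] at hcoef
      field_simp at hcoef
      linear_combination hcoef
    exact (mul_eq_zero.1 e1).resolve_left
      (mul_ne_zero (mul_ne_zero hq0 (sub_ne_zero.2 hl1)) (sub_ne_zero.2 hl2))
  refine ⟨hh0, ?_⟩
  rw [A, hh0]; simp

end HypPair

lemma exists_unit_orderOf_q_add_one (hF : Fintype.card F = q ^ 2) :
    ∃ ζ : Fˣ, orderOf ζ = q + 1 := by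
  have hq := two_le_of_card_sq hF
  exact exists_unit_orderOf_eq (K := F) (q + 1) (by
    rw [hF]
    refine ⟨q - 1, ?_⟩
    obtain ⟨k, rfl⟩ : ∃ k, q = k + 1 := ⟨q - 1, by omega⟩
    simp
    ring_nf
    omega)

/-- an element `l` with `l^(q-1)` of order `q + 1`. -/
lemma exists_l_orderOf (hF : Fintype.card F = q ^ 2) :
    ∃ l : F, l ≠ 0 ∧ ∀ k, 0 < k → k < q + 1 → (l ^ q) ^ k ≠ l ^ k := by
  obtain ⟨ζ, hζ⟩ := exists_unit_orderOf_q_add_one hF
  have h1 : (ζ : F) ^ (q + 1) = 1 := by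
    have := pow_orderOf_eq_one ζ
    rw [hζ] at this
    simpa using congrArg Units.val this
  obtain ⟨a, ha, haζ⟩ := exists_div_pow_q hF (ζ : F) h1
  refine ⟨a, ha, fun k hk0 hk h => ?_⟩
  have haq : a ^ q ≠ 0 := pow_ne_zero _ ha
  have h2 : (ζ : F) ^ k = 1 := by
    rw [← haζ, mul_pow, inv_pow, h, mul_inv_cancel₀ (pow_ne_zero _ ha)]
  have h3 : ζ ^ k = 1 := Units.ext (by simpa using h2)
  have := orderOf_le_of_pow_eq_one hk0 h3
  omega

namespace HypPair

variable {P : HypPair n F q}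

/-- `F`-linearity for `n ≥ 4`. -/
lemma ComEnd.lin_four (hF : Fintype.card F = q ^ 2) (hn : 4 ≤ n) {e : V → V} (he : P.ComEnd e)
    (ξ : F) {w : V} (hw : P.InW w) : e (ξ • w) = ξ • e w := by
  have hq := two_le_of_card_sq hF
  obtain ⟨l, hl, hlk⟩ := exists_l_orderOf hF
  have hl1 : l ^ q ≠ l := by simpa using hlk 1 (by norm_num) (by omega)
  have hl2 : (l ^ q) ^ 2 ≠ l ^ 2 := hlk 2 (by norm_num) (by omega)
  have hη : (l ^ q) ^ q ≠ l ^ q := by rw [pow_q_pow_q hF]; exact Ne.symm hl1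
  obtain ⟨z₁, hz₁, hzz₁⟩ := P.exists_anisotropic_inW hF (by omega)
  obtain ⟨z₂, hz₂, hzz₂, hz21⟩ := P.exists_anisotropic_inW_perp hF hn hz₁ hzz₁
  have L : ∀ z, P.InW z → H z z ≠ 0 → ∀ w, P.InW w → H w z = 0 → e (ξ • w) = ξ • e w := by
    intro z hz hzz w hw hwz
    exact he.lin_of_eta hF (by omega) (fun w => P.InW w ∧ H w z = 0) (fun w h => h.1) hη
      (fun w h => (he.perp_step hF (by omega) hz hzz hl hl1 hl2 h.1 h.2).2) ξ ⟨hw, hwz⟩
  set c := H w z₁ / H z₁ z₁ with hc
  have e1 : w = c • z₁ + (w - c • z₁) := by abel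
  have h1 : P.InW (c • z₁) := hz₁.smul P _
  have h2 : P.InW (w - c • z₁) := hw.sub P h1
  have h3 : H (c • z₁) z₂ = 0 := by
    rw [hermForm_smul_left, hermForm_eq_zero_comm hF hz21, mul_zero]
  have h4 : H (w - c • z₁) z₁ = 0 := by
    rw [hermForm_sub_left, hermForm_smul_left, hc]; field_simp; ring
  have e2 : ξ • w = ξ • (c • z₁) + ξ • (w - c • z₁) := by rw [← smul_add, ← e1]
  rw [e2, he.add _ _ (h1.smul P _) (h2.smul P _), L z₂ hz₂ hzz₂ _ h1 h3, L z₁ hz₁ hzz₁ _ h2 h4,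
    ← smul_add, ← he.add _ _ h1 h2, ← e1]

/-- A linear map preserving all lines is a scalar. -/
lemma scalar_of_lines {e : V → V}
    (hadd : ∀ w w', P.InW w → P.InW w' → e (w + w') = e w + e w')
    (hsmul : ∀ (ξ : F) w, P.InW w → e (ξ • w) = ξ • e w)
    (hline : ∀ w, P.InW w → ∃ c : F, e w = c • w) : ∃ ν : F, ∀ w, P.InW w → e w = ν • w := by
  by_cases h0 : ∀ x, P.InW x → x = 0
  · refine ⟨0, fun w hw => ?_⟩
    obtain ⟨c, hc⟩ := hline w hw
    rw [hc, h0 w hw]; simp
  push Not at h0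
  obtain ⟨x₀, hx₀, hx₀0⟩ := h0
  obtain ⟨ν, hν⟩ := hline x₀ hx₀
  refine ⟨ν, fun x hx => ?_⟩
  obtain ⟨c, hc⟩ := hline x hx
  obtain ⟨c', hc'⟩ := hline (x + x₀) (hx.add P hx₀)
  rw [hadd _ _ hx hx₀, hc, hν] at hc'
  have h1 : (c - c') • x = (c' - ν) • x₀ := by
    have : (c - c') • x - (c' - ν) • x₀ = (c • x + ν • x₀) - c' • (x + x₀) := by module
    rw [← sub_eq_zero, this, hc', sub_self]
  by_cases hcc : c = c'
  · rw [hcc, sub_self, zero_smul] at h1
    have := (smul_eq_zero.1 h1.symm).resolve_right hx₀0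
    rw [hc, hcc, sub_eq_zero.1 this]
  · have h2 : x = ((c - c')⁻¹ * (c' - ν)) • x₀ := by
      rw [mul_smul, ← h1, smul_smul, inv_mul_cancel₀ (sub_ne_zero.2 hcc), one_smul]
    rw [h2, hsmul _ _ hx₀, hν]
    module

lemma tSU_Tor (hF : Fintype.card F = q ^ 2) {y : V} (hy : P.InW y) (hyy : H y y = 0) (c : F)
    (hc : c + c ^ q = 0) : P.Tor (tSU hF y c hyy hc) 1 := by
  refine ⟨one_ne_zero, ?_, ?_⟩
  · rw [tSU_mulVec, hy.u_left P hF]; simp
  · rw [tSU_mulVec, hy.v_left P hF]; simp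

lemma ComEnd.scalar_four (hF : Fintype.card F = q ^ 2) (hn : 4 ≤ n) {e : V → V}
    (he : P.ComEnd e) : ∃ ν : F, ∀ w, P.InW w → e w = ν • w := by
  have hq := two_le_of_card_sq hF
  apply scalar_of_lines he.add (fun ξ w hw => he.lin_four hF hn ξ hw)
  intro x hx
  by_cases hxx : H x x = 0
  · by_cases hx0 : x = 0
    · exact ⟨0, by rw [hx0, he.zero]; simp⟩
    obtain ⟨w, hw, hwx⟩ := P.exists_inW_ne_zero hF hx hx0
    obtain ⟨c, hc0, hc⟩ := exists_skew_q hF
    have := he.comm _ 1 (tSU_Tor hF hx hxx c hc) w hw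
    rw [tSU_mulVec, tSU_mulVec, one_pow, one_smul, one_smul, he.add _ _ hw (hx.smul P _),
      he.lin_four hF hn _ hx] at this
    have h2 := add_left_cancel this
    refine ⟨(c * H w x)⁻¹ * (c * H (e w) x), ?_⟩
    rw [mul_smul, ← h2, smul_smul, inv_mul_cancel₀ (mul_ne_zero hc0 hwx), one_smul]
  · obtain ⟨l, hl, hlk⟩ := exists_l_orderOf hF
    have hl1 : l ^ q ≠ l := by simpa using hlk 1 (by norm_num) (by omega)
    have hq0 : l ^ q ≠ 0 := pow_ne_zero _ hl
    have := he.comm _ l (P.tor_Tor hF x l hl hx hxx) x hx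
    rw [P.tor_mulVec_inW hF x l hl hx hxx hx, P.tor_mulVec_inW hF x l hl hx hxx (he.inW x hx),
      he.lin_four hF hn _ (hx.add P (hx.smul P _)), he.add _ _ hx (hx.smul P _),
      he.lin_four hF hn _ hx] at this
    have h2 := add_left_cancel (smul_right_injective V hq0 this)
    have hne : (l ^ q * l⁻¹ - 1) / H x x * H x x ≠ 0 := by
      rw [div_mul_cancel₀ _ hxx, sub_ne_zero]
      intro h
      apply hl1
      field_simp at h
      exact h
    refine ⟨((l ^ q * l⁻¹ - 1) / H x x * H x x)⁻¹ * ((l ^ q * l⁻¹ - 1) / H x x * H (e x) x), ?_⟩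
    rw [mul_smul, ← h2, smul_smul, inv_mul_cancel₀ hne, one_smul]

lemma eq_zero_of_lt_four (hF : Fintype.card F = q ^ 2) (hn : n < 4) {z x : V} (hz : P.InW z)
    (hzz : H z z ≠ 0) (hx : P.InW x) (hxz : H x z = 0) : x = 0 := by
  by_contra hx0
  have hli : LinearIndependent F ![P.u, P.v, z, x] := by
    rw [Fintype.linearIndependent_iff]
    intro g hg
    simp only [Fin.sum_univ_four, Matrix.cons_val_zero, Matrix.cons_val_one, Matrix.cons_val] at hg
    have e1 := congrArg (fun y => H y P.v) hg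
    have e2 := congrArg (fun y => H y P.u) hg
    have e3 := congrArg (fun y => H y z) hg
    simp only [hermForm_add_left, hermForm_smul_left, P.hu, P.hv, P.huv, P.hvu hF, hz.1, hz.2,
      hx.1, hx.2, hz.u_left P hF, hz.v_left P hF, hxz, hermForm_zero_left, mul_zero, mul_one,
      add_zero, zero_add] at e1 e2 e3
    have e3' : g 2 = 0 := (mul_eq_zero.1 e3).resolve_right hzz
    rw [e1, e2, e3'] at hg
    simp only [zero_smul, zero_add] at hg
    have e4 : g 3 = 0 := (smul_eq_zero.1 hg).resolve_right hx0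
    intro i
    fin_cases i
    · exact e1
    · exact e2
    · exact e3'
    · exact e4
  have := hli.fintype_card_le_finrank
  rw [Module.finrank_fin_fun, Fintype.card_fin] at this
  omega

lemma ComEnd.scalar_three (hF : Fintype.card F = q ^ 2) (hn : n = 3) (hq2 : q ≠ 2) {e : V → V}
    (he : P.ComEnd e) : ∃ ν : F, ∀ w, P.InW w → e w = ν • w := by
  have hq := two_le_of_card_sq hF
  obtain ⟨l, hl, hlk⟩ := exists_l_orderOf hF
  have hl3 : (l ^ q) ^ 3 ≠ l ^ 3 := hlk 3 (by norm_num) (by omega)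
  have hq0 : l ^ q ≠ 0 := pow_ne_zero _ hl
  obtain ⟨z, hz, hzz⟩ := P.exists_anisotropic_inW hF (by omega)
  have hW : ∀ w, P.InW w → w = (H w z / H z z) • z := by
    intro w hw
    have := eq_zero_of_lt_four hF (by omega) hz hzz (hw.sub P (hz.smul P (H w z / H z z))) (by
      rw [hermForm_sub_left, hermForm_smul_left]; field_simp; ring)
    exact sub_eq_zero.1 this
  have htor : ∀ w, P.InW w → (P.tor hF z l hl hz hzz).1.1 *ᵥ w = (l ^ q * l⁻¹) • w := by
    intro w hw
    rw [P.tor_mulVec_inW hF z l hl hz hzz hw]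
    nth_rewrite 1 [hW w hw]
    nth_rewrite 3 [hW w hw]
    rw [smul_smul, ← add_smul]
    congr 1
    field_simp
    ring
  have hη : (l ^ q * (l ^ q * l⁻¹)) ^ q ≠ l ^ q * (l ^ q * l⁻¹) := by
    simp only [mul_pow, inv_pow, pow_q_pow_q hF]
    intro h
    apply hl3
    field_simp at h
    linear_combination -h
  have hlin : ∀ (ξ : F) w, P.InW w → e (ξ • w) = ξ • e w := by
    intro ξ w hw
    refine he.lin_of_eta hF (by omega) P.InW (fun w h => h) hη (fun w hw => ?_) ξ hw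
    have := he.comm _ l (P.tor_Tor hF z l hl hz hzz) w hw
    rw [htor w hw, htor _ (he.inW w hw), smul_smul, smul_smul] at this
    exact this
  refine ⟨H (e z) z / H z z, fun w hw => ?_⟩
  have h1 := hW _ (he.inW z hz)
  calc e w = e ((H w z / H z z) • z) := by rw [← hW w hw]
    _ = (H w z / H z z) • ((H (e z) z / H z z) • z) := by rw [hlin _ _ hz, ← h1]
    _ = (H (e z) z / H z z) • ((H w z / H z z) • z) := by rw [smul_smul, smul_smul, mul_comm]
    _ = (H (e z) z / H z z) • w := by rw [← hW w hw]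

/-- **The commutant of the Levi factor on `W` consists of the scalars.** -/
theorem ComEnd.scalar (hF : Fintype.card F = q ^ 2) (hn : 3 ≤ n) (h32 : ¬ (n = 3 ∧ q = 2))
    {e : V → V} (he : P.ComEnd e) : ∃ ν : F, ∀ w, P.InW w → e w = ν • w := by
  rcases Nat.lt_or_ge n 4 with h | h
  · have hn3 : n = 3 := by omega
    exact he.scalar_three hF hn3 (fun h2 => h32 ⟨hn3, h2⟩)
  · exact he.scalar_four hF h

end HypPair

end Cfsg.Agent.Lib.Helper5
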