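import Mathlib
import Cfsg.Agent.Lib.Helper5.PSUAut2

set_option autoImplicit false

/-! # Automorphisms of `PSU_n(q)`, part 3: the semilinear map induced on `W = Q_u / X_u` -/

namespace Cfsg.Agent.Lib.Helper5

open Matrix Module Cfsg.Agent.Lib.Helper13 Cfsg.Agent.Lib.Helper94 Cfsg.Agent.Lib.Helper94.U
  Cfsg.Agent.Lib.Helper45.SUGen

variable {F : Type*} [Field F] [Fintype F] {q n : ℕ}

local notation "H" => Cfsg.hermForm n F q
local notation "V" => (Fin n → F)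
local notation "G" => Cfsg.SU n F q
local notation "PG" => Cfsg.PSU n F q

namespace HypPair

variable (P : HypPair n F q) (hF : Fintype.card F = q ^ 2)

/-- `β` maps `X_u`, `X_v`, `Q_u` (modulo the centre) into themselves. -/
structure Adm (β : PG ≃* PG) : Prop where
  hX : ∀ c hc, ∃ c' hc', β (pmk (tSU hF P.u c P.hu hc)) = pmk (tSU hF P.u c' P.hu hc')
  hXv : ∀ c hc, ∃ c' hc', β (pmk (tSU hF P.v c P.hv hc)) = pmk (tSU hF P.v c' P.hv hc')
  hQ : ∀ w a hw ha, ∃ w' a' hw' ha', β (pmk (P.E hF w a hw ha)) = pmk (P.E hF w' a' hw' ha')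

/-- The relation induced by `β` on `W`. -/
def Rel (β : PG ≃* PG) (w w' : V) : Prop :=
  ∃ (hw : P.InW w) (hw' : P.InW w') (a a' : F) (ha : a + a ^ q + H w w = 0)
    (ha' : a' + a' ^ q + H w' w' = 0), β (pmk (P.E hF w a hw ha)) = pmk (P.E hF w' a' hw' ha')

/-- The relation induced by `β` on the parameters of `X_u`. -/
def Relc (β : PG ≃* PG) (c c' : F) : Prop :=
  ∃ (hc : c + c ^ q = 0) (hc' : c' + c' ^ q = 0),
    β (pmk (tSU hF P.u c P.hu hc)) = pmk (tSU hF P.u c' P.hu hc')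

variable {P hF}

lemma E_mul_tSU (w : V) (a c : F) (hw : P.InW w) (ha : a + a ^ q + H w w = 0)
    (hc : c + c ^ q = 0) :
    ∃ h3, P.E hF w a hw ha * tSU hF P.u c P.hu hc = P.E hF w (a + c) hw h3 := by
  have h3 : (a + c) + (a + c) ^ q + H w w = 0 := by
    rw [add_pow_q hF]; linear_combination ha + hc
  refine ⟨h3, ?_⟩
  apply SU_ext_mulVec
  intro x
  rw [SU_mul_mulVec, tSU_mulVec, E_mulVec, E_mulVec]
  simp only [hermForm_add_left, hermForm_smul_left, P.hu, hw.u_left P hF]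
  module

include hF in
lemma exists_param (w : V) : ∃ a : F, a + a ^ q + H w w = 0 := by
  obtain ⟨a, ha⟩ := exists_tr hF (-H w w) (by rw [neg_pow_q hF, hermForm_self_pow hF])
  exact ⟨a, by rw [ha]; ring⟩

lemma Rel.all {β : PG ≃* PG} (hβ : P.Adm hF β) {w w' : V} (h : P.Rel hF β w w') (a : F)
    (ha : a + a ^ q + H w w = 0) :
    ∃ (a' : F) (ha' : a' + a' ^ q + H w' w' = 0),
      β (pmk (P.E hF w a h.1 ha)) = pmk (P.E hF w' a' h.2.1 ha') := by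
  obtain ⟨hw, hw', a₀, a₀', ha₀, ha₀', h0⟩ := h
  have hc : (a - a₀) + (a - a₀) ^ q = 0 := by rw [sub_pow_q hF]; linear_combination ha - ha₀
  obtain ⟨c', hc', h1⟩ := hβ.hX (a - a₀) hc
  obtain ⟨h3, e1⟩ := E_mul_tSU (hF := hF) w a₀ (a - a₀) hw ha₀ hc
  obtain ⟨h3', e2⟩ := E_mul_tSU (hF := hF) w' a₀' c' hw' ha₀' hc'
  refine ⟨a₀' + c', h3', ?_⟩
  rw [← e2, pmk_mul, ← h0, ← h1, ← map_mul, ← pmk_mul, e1]
  congr 2
  exact P.E_congr hF rfl (by ring) hw ha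

lemma Rel.unique {β : PG ≃* PG} (hβ : P.Adm hF β) {w w₁ w₂ : V} (h₁ : P.Rel hF β w w₁) (h₂ : P.Rel hF β w w₂) :
    w₁ = w₂ := by
  obtain ⟨hw, hw', a, a', ha, ha', h0⟩ := h₂
  obtain ⟨a₁, ha₁, h1⟩ := h₁.all hβ a ha
  exact (P.E_inj hF h₁.2.1 hw' ha₁ ha' (h1.symm.trans h0)).1

lemma Rel.total {β : PG ≃* PG} (hβ : P.Adm hF β) {w : V} (hw : P.InW w) : ∃ w', P.Rel hF β w w' := by
  obtain ⟨a, ha⟩ := exists_param (hF := hF) w
  obtain ⟨w', a', hw', ha', h⟩ := hβ.hQ w a hw ha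
  exact ⟨w', hw, hw', a, a', ha, ha', h⟩

lemma Rel.add {β : PG ≃* PG} {w₁ w₁' w₂ w₂' : V} (h₁ : P.Rel hF β w₁ w₁') (h₂ : P.Rel hF β w₂ w₂') :
    P.Rel hF β (w₁ + w₂) (w₁' + w₂') := by
  obtain ⟨hw₁, hw₁', a₁, a₁', ha₁, ha₁', e₁⟩ := h₁
  obtain ⟨hw₂, hw₂', a₂, a₂', ha₂, ha₂', e₂⟩ := h₂
  obtain ⟨h3, m⟩ := P.E_mul hF w₁ w₂ a₁ a₂ hw₁ hw₂ ha₁ ha₂
  obtain ⟨h3', m'⟩ := P.E_mul hF w₁' w₂' a₁' a₂' hw₁' hw₂' ha₁' ha₂'
  refine ⟨hw₁.add P hw₂, hw₁'.add P hw₂', _, _, h3, h3', ?_⟩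
  rw [← m, ← m', pmk_mul, pmk_mul, map_mul, e₁, e₂]

lemma Rel.symm {β : PG ≃* PG} {w w' : V} (h : P.Rel hF β w w') : P.Rel hF β.symm w' w := by
  obtain ⟨hw, hw', a, a', ha, ha', e⟩ := h
  exact ⟨hw', hw, a', a, ha', ha, by rw [← e, MulEquiv.symm_apply_apply]⟩

lemma Rel.tor {β : PG ≃* PG} {k k' : G} {l l' : F} (hk : P.Tor k l) (hk' : P.Tor k' l')
    (hkk : β (pmk k) = pmk k') {w w' : V} (h : P.Rel hF β w w') :
    P.Rel hF β (l ^ q • (k.1.1 *ᵥ w)) (l' ^ q • (k'.1.1 *ᵥ w')) := by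
  obtain ⟨hw, hw', a, a', ha, ha', e⟩ := h
  obtain ⟨h3, m⟩ := hk.conj_E hF w a hw ha
  obtain ⟨h3', m'⟩ := hk'.conj_E hF w' a' hw' ha'
  refine ⟨hk.kap_inW hF hw, hk'.kap_inW hF hw', _, _, h3, h3', ?_⟩
  rw [← m, ← m', pmk_mul, pmk_mul, pmk_mul, pmk_mul, pmk_inv, pmk_inv, map_mul, map_mul, map_inv,
    e, hkk]

/-- Lifting the Levi factor. -/
lemma exists_tor {β : PG ≃* PG} (hβ : P.Adm hF β) (hβ' : P.Adm hF β.symm) {k : G} {l : F} (hk : P.Tor k l) :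
    ∃ (k' : G) (l' : F), P.Tor k' l' ∧ β (pmk k) = pmk k' := by
  obtain ⟨k', hk'⟩ := pmk_surj (β (pmk k))
  obtain ⟨c, hc0, hc⟩ := exists_skew_q hF
  have hq0 : l ^ q ≠ 0 := pow_ne_zero _ hk.1
  -- the point `u`
  have hu : ∃ l' : F, k'.1.1 *ᵥ P.u = l' • P.u := by
    obtain ⟨c₁, hc₁, e₁⟩ := hβ'.hX c hc
    have e₂ : k * tSU hF P.u c₁ P.hu hc₁ * k⁻¹ = tSU hF P.u (l * l ^ q * c₁) P.hu (by
        simp only [mul_pow, pow_q_pow_q hF]; linear_combination (l * l ^ q) * hc₁) := by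
      rw [tSU_conj, ← tSU_smul hF P.u l c₁ P.hu hc₁]
      exact tSU_congr hF hk.2.1 rfl _ _
    obtain ⟨c₂, hc₂, e₃⟩ := hβ.hX (l * l ^ q * c₁) (by
        simp only [mul_pow, pow_q_pow_q hF]; linear_combination (l * l ^ q) * hc₁)
    have e₄ : pmk (tSU hF P.u c₂ P.hu hc₂)
        = pmk (tSU hF (k'.1.1 *ᵥ P.u) c (by rw [SU_preserves, P.hu]) hc) := by
      rw [← tSU_conj, ← e₃, ← e₂, pmk_mul, pmk_mul, pmk_mul, pmk_mul, pmk_inv, pmk_inv, map_mul,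
        map_mul, map_inv, hk', ← e₁, MulEquiv.apply_symm_apply]
    exact smul_of_pmk_tSU_eq hF P.u_ne (su_mulVec_ne_zero k' P.u_ne) _ _ _ _ hc0 e₄
  have hv : ∃ l' : F, k'.1.1 *ᵥ P.v = l' • P.v := by
    obtain ⟨c₁, hc₁, e₁⟩ := hβ'.hXv c hc
    have hs : (l ^ q)⁻¹ * ((l ^ q)⁻¹) ^ q * c₁ + ((l ^ q)⁻¹ * ((l ^ q)⁻¹) ^ q * c₁) ^ q = 0 := by
      simp only [mul_pow, inv_pow, pow_q_pow_q hF]
      linear_combination ((l ^ q)⁻¹ * l⁻¹) * hc₁
    have e₂ : k * tSU hF P.v c₁ P.hv hc₁ * k⁻¹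
        = tSU hF P.v ((l ^ q)⁻¹ * ((l ^ q)⁻¹) ^ q * c₁) P.hv hs := by
      rw [tSU_conj, ← tSU_smul hF P.v (l ^ q)⁻¹ c₁ P.hv hc₁]
      exact tSU_congr hF hk.2.2 rfl _ _
    obtain ⟨c₂, hc₂, e₃⟩ := hβ.hXv _ hs
    have e₄ : pmk (tSU hF P.v c₂ P.hv hc₂)
        = pmk (tSU hF (k'.1.1 *ᵥ P.v) c (by rw [SU_preserves, P.hv]) hc) := by
      rw [← tSU_conj, ← e₃, ← e₂, pmk_mul, pmk_mul, pmk_mul, pmk_mul, pmk_inv, pmk_inv, map_mul,
        map_mul, map_inv, hk', ← e₁, MulEquiv.apply_symm_apply]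
    exact smul_of_pmk_tSU_eq hF (P.v_ne hF) (su_mulVec_ne_zero k' (P.v_ne hF)) _ _ _ _ hc0 e₄
  obtain ⟨l₁, h₁⟩ := hu
  obtain ⟨l₂, h₂⟩ := hv
  exact ⟨k', l₁, P.tor_of_fix hF h₁ h₂, hk'.symm⟩

variable (P hF) in
/-- The map induced by `β` on `W`. -/
noncomputable def bmap (β : PG ≃* PG) (w : V) : V := by
  classical exact if h : ∃ w', P.Rel hF β w w' then h.choose else 0

lemma bmap_rel {β : PG ≃* PG} (hβ : P.Adm hF β) {w : V} (hw : P.InW w) :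
    P.Rel hF β w (P.bmap hF β w) := by
  have h := Rel.total hβ hw
  rw [bmap, dif_pos h]
  exact h.choose_spec

lemma bmap_eq {β : PG ≃* PG} (hβ : P.Adm hF β) {w w' : V} (h : P.Rel hF β w w') :
    P.bmap hF β w = w' := (bmap_rel hβ h.1).unique hβ h

lemma bmap_inW {β : PG ≃* PG} (hβ : P.Adm hF β) {w : V} (hw : P.InW w) :
    P.InW (P.bmap hF β w) := (bmap_rel hβ hw).2.1

lemma bmap_add {β : PG ≃* PG} (hβ : P.Adm hF β) {w w' : V} (hw : P.InW w) (hw' : P.InW w') :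
    P.bmap hF β (w + w') = P.bmap hF β w + P.bmap hF β w' :=
  bmap_eq hβ ((bmap_rel hβ hw).add (bmap_rel hβ hw'))

lemma bmap_symm_bmap {β : PG ≃* PG} (hβ : P.Adm hF β) (hβ' : P.Adm hF β.symm) {w : V}
    (hw : P.InW w) : P.bmap hF β.symm (P.bmap hF β w) = w :=
  bmap_eq hβ' (bmap_rel hβ hw).symm

lemma bmap_bmap_symm {β : PG ≃* PG} (hβ : P.Adm hF β) (hβ' : P.Adm hF β.symm) {w : V}
    (hw : P.InW w) : P.bmap hF β (P.bmap hF β.symm w) = w :=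
  bmap_eq hβ (bmap_rel hβ' hw).symm

lemma bmap_tor {β : PG ≃* PG} (hβ : P.Adm hF β) {k k' : G} {l l' : F} (hk : P.Tor k l)
    (hk' : P.Tor k' l') (hkk : β (pmk k) = pmk k') {w : V} (hw : P.InW w) :
    P.bmap hF β (l ^ q • (k.1.1 *ᵥ w)) = l' ^ q • (k'.1.1 *ᵥ P.bmap hF β w) :=
  bmap_eq hβ ((bmap_rel hβ hw).tor hk hk' hkk)

lemma comEnd_bmap {β : PG ≃* PG} (hβ : P.Adm hF β) (hβ' : P.Adm hF β.symm) (μ : F) :
    P.ComEnd (fun w => P.bmap hF β (μ • P.bmap hF β.symm w)) where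
  inW w hw := bmap_inW hβ ((bmap_inW hβ' hw).smul P _)
  add w w' hw hw' := by
    rw [bmap_add hβ' hw hw', smul_add,
      bmap_add hβ ((bmap_inW hβ' hw).smul P _) ((bmap_inW hβ' hw').smul P _)]
  comm k' l' hk' w hw := by
    obtain ⟨k, l, hk, hkk⟩ := exists_tor hβ' hβ hk'
    have hkk' : β (pmk k) = pmk k' := by rw [← hkk, MulEquiv.apply_symm_apply]
    rw [bmap_tor hβ' hk' hk hkk hw, smul_comm, ← mulVec_smul,
      bmap_tor hβ hk hk' hkk' ((bmap_inW hβ' hw).smul P _)]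

/-- Semilinearity. -/
lemma exists_sigma (hn : 3 ≤ n) (h32 : ¬ (n = 3 ∧ q = 2)) {β : PG ≃* PG} (hβ : P.Adm hF β)
    (hβ' : P.Adm hF β.symm) (μ : F) :
    ∃ ν : F, ∀ w, P.InW w → P.bmap hF β (μ • w) = ν • P.bmap hF β w := by
  obtain ⟨ν, hν⟩ := (comEnd_bmap hβ hβ' μ).scalar hF hn h32
  refine ⟨ν, fun w hw => ?_⟩
  have := hν _ (bmap_inW hβ hw)
  rwa [bmap_symm_bmap hβ hβ' hw] at this

lemma bmap_ne_zero {β : PG ≃* PG} (hβ : P.Adm hF β) (hβ' : P.Adm hF β.symm) {w : V}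
    (hw : P.InW w) (hw0 : w ≠ 0) : P.bmap hF β w ≠ 0 := by
  intro h
  apply hw0
  have h1 := bmap_symm_bmap hβ hβ' hw
  have h2 : P.bmap hF β.symm 0 = 0 := by
    have := bmap_add hβ' P.inW_zero P.inW_zero
    rw [add_zero] at this
    exact left_eq_add.1 this
  rw [← h1, h, h2]

/-- The field automorphism. -/
lemma exists_ringEquiv (hn : 3 ≤ n) (h32 : ¬ (n = 3 ∧ q = 2)) {β : PG ≃* PG} (hβ : P.Adm hF β)
    (hβ' : P.Adm hF β.symm) :
    ∃ σ : F ≃+* F, ∀ (μ : F) w, P.InW w → P.bmap hF β (μ • w) = σ μ • P.bmap hF β w := by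
  choose s hs using exists_sigma hn h32 hβ hβ'
  obtain ⟨z, hz, hzz⟩ := P.exists_anisotropic_inW hF hn
  have hz0 : z ≠ 0 := by rintro rfl; exact hzz (hermForm_zero_left _)
  have hb0 := bmap_ne_zero hβ hβ' hz hz0
  have hinj : ∀ a b : F, a • P.bmap hF β z = b • P.bmap hF β z → a = b := by
    intro a b h
    exact smul_left_injective F hb0 h
  let σ₀ : F →+* F :=
    { toFun := s
      map_one' := by
        apply hinj
        rw [← hs 1 z hz, one_smul, one_smul]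
      map_mul' := by
        intro a b
        apply hinj
        rw [← hs _ z hz, mul_smul, hs a _ (hz.smul P _), hs b z hz, smul_smul]
      map_zero' := by
        apply hinj
        have h0 : P.bmap hF β 0 = 0 := by
          have := bmap_add hβ P.inW_zero P.inW_zero
          rw [add_zero] at this
          exact left_eq_add.1 this
        rw [← hs _ z hz, zero_smul, zero_smul, h0]
      map_add' := by
        intro a b
        apply hinj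
        rw [← hs _ z hz, add_smul, bmap_add hβ (hz.smul P _) (hz.smul P _), hs a z hz, hs b z hz,
          add_smul] }
  have hbij : Function.Bijective σ₀ := Finite.injective_iff_bijective.1 σ₀.injective
  exact ⟨RingEquiv.ofBijective σ₀ hbij, fun μ w hw => hs μ w hw⟩

lemma Relc.unique {β : PG ≃* PG} {c c₁ c₂ : F} (h₁ : P.Relc hF β c c₁) (h₂ : P.Relc hF β c c₂) :
    c₁ = c₂ := by
  obtain ⟨hc, hc₁, e₁⟩ := h₁
  obtain ⟨_, hc₂, e₂⟩ := h₂
  have := e₁.symm.trans e₂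
  rw [P.tSU_eq_E hF, P.tSU_eq_E hF] at this
  exact (P.E_inj hF _ _ _ _ this).2

lemma E_comm (w w' : V) (a a' : F) (hw : P.InW w) (hw' : P.InW w')
    (ha : a + a ^ q + H w w = 0) (ha' : a' + a' ^ q + H w' w' = 0) :
    ∃ hs, tSU hF P.u (H w w' - H w' w) P.hu hs
      = (P.E hF w' a' hw' ha' * P.E hF w a hw ha)⁻¹ * (P.E hF w a hw ha * P.E hF w' a' hw' ha') := by
  have hs : (H w w' - H w' w) + (H w w' - H w' w) ^ q = 0 := by
    rw [sub_pow_q hF, hermForm_swap hF, hermForm_swap hF]; ring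
  refine ⟨hs, ?_⟩
  rw [eq_inv_mul_iff_mul_eq]
  apply SU_ext_mulVec
  intro x
  simp only [SU_mul_mulVec, tSU_mulVec, E_mulVec, hermForm_add_left, hermForm_sub_left,
    hermForm_smul_left, P.hu, hw.u_left P hF, hw'.u_left P hF, hw.1, hw'.1]
  module

lemma relc_comm {β : PG ≃* PG} (hβ : P.Adm hF β) {w w' : V} (hw : P.InW w) (hw' : P.InW w') :
    P.Relc hF β (H w w' - H w' w)
      (H (P.bmap hF β w) (P.bmap hF β w') - H (P.bmap hF β w') (P.bmap hF β w)) := by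
  obtain ⟨a, ha⟩ := exists_param (hF := hF) w
  obtain ⟨a', ha'⟩ := exists_param (hF := hF) w'
  obtain ⟨a₁, ha₁, e₁⟩ := (bmap_rel hβ hw).all hβ a ha
  obtain ⟨a₁', ha₁', e₁'⟩ := (bmap_rel hβ hw').all hβ a' ha'
  obtain ⟨hs, m⟩ := E_comm (hF := hF) w w' a a' hw hw' ha ha'
  obtain ⟨hs', m'⟩ := E_comm (hF := hF) _ _ a₁ a₁' (bmap_inW hβ hw) (bmap_inW hβ hw') ha₁ ha₁'
  refine ⟨hs, hs', ?_⟩
  rw [m, m']
  simp only [pmk_mul, pmk_inv, map_mul, map_inv, e₁, e₁']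

/-- The induced map is a semisimilarity. -/
theorem exists_kappa (hn : 3 ≤ n) {β : PG ≃* PG} (hβ : P.Adm hF β)
    (hβ' : P.Adm hF β.symm) (σ : F ≃+* F)
    (hσ : ∀ (μ : F) w, P.InW w → P.bmap hF β (μ • w) = σ μ • P.bmap hF β w) :
    ∃ κ : F, κ ≠ 0 ∧ κ ^ q = κ ∧ ∀ w w', P.InW w → P.InW w' →
      H (P.bmap hF β w) (P.bmap hF β w') = κ * σ (H w w') := by
  have hq := two_le_of_card_sq hF
  obtain ⟨z, hz, hzz⟩ := P.exists_anisotropic_inW hF hn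
  set b := P.bmap hF β with hb
  have hσ0 : σ (H z z) ≠ 0 := by simpa using hzz
  have T : ∀ w w', P.InW w → P.InW w' → ∀ ξ : F,
      P.Relc hF β (ξ * H w w' - (ξ * H w w') ^ q) (σ ξ * H (b w) (b w') - (σ ξ * H (b w) (b w')) ^ q) := by
    intro w w' hw hw' ξ
    have := relc_comm hβ (hw.smul P ξ) hw'
    rw [← hb, hσ ξ w hw] at this
    simp only [hermForm_smul_left, hermForm_smul_right] at this
    rw [mul_pow, mul_pow, hermForm_swap hF, hermForm_swap hF]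
    exact this
  have key : ∀ w w', P.InW w → P.InW w' →
      H (b w) (b w') = H (b z) (b z) / σ (H z z) * σ (H w w') := by
    intro w w' hw hw'
    by_contra hD
    have hD' : H (b w) (b w') - H (b z) (b z) / σ (H z z) * σ (H w w') ≠ 0 := sub_ne_zero.2 hD
    set D := H (b w) (b w') - H (b z) (b z) / σ (H z z) * σ (H w w') with hDdef
    obtain ⟨l, hl, hlk⟩ := exists_l_orderOf hF
    have hl1 : l ^ q ≠ l := by simpa using hlk 1 (by norm_num) (by omega)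
    set ξ := σ.symm (l / D) with hξ
    have hξ' : σ ξ = l / D := by rw [hξ, RingEquiv.apply_symm_apply]
    have t1 := T w w' hw hw' ξ
    have t2 := T z z hz hz (ξ * H w w' / H z z)
    rw [div_mul_cancel₀ _ hzz] at t2
    have := t1.unique t2
    rw [map_div₀, map_mul, hξ'] at this
    have e1 : l / D * D - (l / D * D) ^ q = 0 := by
      have e2 : l / D * D = l / D * H (b w) (b w') - l / D * σ (H w w') / σ (H z z) * H (b z) (b z) := by
        rw [hDdef]; field_simp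
      rw [e2, sub_pow_q hF]
      linear_combination this
    rw [div_mul_cancel₀ _ hD'] at e1
    exact hl1 (sub_eq_zero.1 e1).symm
  refine ⟨H (b z) (b z) / σ (H z z), ?_, ?_, key⟩
  · intro h0
    apply hzz
    have h1 := key _ _ (bmap_inW hβ' hz) (bmap_inW hβ' hz)
    rw [hb, bmap_bmap_symm hβ hβ' hz, h0, zero_mul] at h1
    exact h1
  · rw [div_pow, hermForm_self_pow hF, ← map_pow, hermForm_self_pow hF]

end HypPair

end Cfsg.Agent.Lib.Helper5
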