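import Mathlib
import Cfsg.Agent.Lib.Helper5.PSUAut3
import Cfsg.Prelude.Def_LieTypeDatum

set_option autoImplicit false

/-! # Automorphisms of `PSU_n(q)`, part 4: semilinear isometries and the matrices they define -/

namespace Cfsg.Agent.Lib.Helper5

open Matrix Module Cfsg.Agent.Lib.Helper13 Cfsg.Agent.Lib.Helper94 Cfsg.Agent.Lib.Helper94.U
  Cfsg.Agent.Lib.Helper45.SUGen

variable {F : Type*} [Field F] [Fintype F] {q n : ℕ}

local notation "H" => Cfsg.hermForm n F q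
local notation "V" => (Fin n → F)
local notation "G" => Cfsg.SU n F q
local notation "PG" => Cfsg.PSU n F q

/-- apply a field automorphism to all coordinates -/
def sv (σ : F ≃+* F) (x : Fin n → F) : Fin n → F := fun i => σ (x i)

omit [Fintype F] in
lemma hermForm_sv (σ : F ≃+* F) (x y : V) : H (sv σ x) (sv σ y) = σ (H x y) := by
  simp only [Cfsg.hermForm, sv, map_sum, map_mul, map_pow]

omit [Fintype F] in
lemma sv_symm_sv (σ : F ≃+* F) (x : V) : sv σ.symm (sv σ x) = x := by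
  ext i; simp [sv]

omit [Fintype F] in
lemma sv_sv_symm (σ : F ≃+* F) (x : V) : sv σ (sv σ.symm x) = x := by
  ext i; simp [sv]

omit [Fintype F] in
lemma sv_mulVec (σ : F ≃+* F) (M : Matrix (Fin n) (Fin n) F) (x : V) :
    M.map σ *ᵥ sv σ x = sv σ (M *ᵥ x) := by
  ext i
  simp only [mulVec, dotProduct, sv, map_sum, map_mul, Matrix.map_apply]

/-- Semilinear isometries. -/
structure SemiIso (n q : ℕ) (σ : F ≃+* F) (T : (Fin n → F) → (Fin n → F)) : Prop where
  add : ∀ x y, T (x + y) = T x + T y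
  smul : ∀ (c : F) x, T (c • x) = σ c • T x
  herm : ∀ x y, Cfsg.hermForm n F q (T x) (T y) = σ (Cfsg.hermForm n F q x y)

lemma SemiIso.exists_GU (hF : Fintype.card F = q ^ 2) {σ : F ≃+* F} {T : V → V}
    (hT : SemiIso n q σ T) :
    ∃ g : GL (Fin n) F, g ∈ Cfsg.GU n F q ∧ ∀ x, g.1 *ᵥ sv σ x = T x := by
  let L : V →ₗ[F] V :=
    { toFun := fun y => T (sv σ.symm y)
      map_add' := by
        intro x y
        rw [← hT.add]
        congr 1
        ext i; simp [sv]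
      map_smul' := by
        intro c x
        have : sv σ.symm (c • x) = σ.symm c • sv σ.symm x := by ext i; simp [sv]
        rw [this, hT.smul]; simp }
  have hL : ∀ y, LinearMap.toMatrix' L *ᵥ y = T (sv σ.symm y) := by
    intro y
    rw [LinearMap.toMatrix'_mulVec]; rfl
  have hpres : ∀ x y, H (LinearMap.toMatrix' L *ᵥ x) (LinearMap.toMatrix' L *ᵥ y) = H x y := by
    intro x y
    rw [hL, hL, hT.herm, hermForm_sv]; simp
  have hdet : (LinearMap.toMatrix' L).det ≠ 0 := by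
    intro h
    have := det_pow_eq_one_of_preserves hF _ hpres
    rw [h, zero_pow (by omega)] at this
    exact zero_ne_one this
  refine ⟨Matrix.GeneralLinearGroup.mkOfDetNeZero _ hdet, hpres, fun x => ?_⟩
  change LinearMap.toMatrix' L *ᵥ sv σ x = T x
  rw [hL, sv_symm_sv]

omit [Fintype F] in
/-- An intertwining relation gives the matrix identity of `IsInducedBySemilinearPSU`. -/
lemma matrix_eq_of_intertwine {σ : F ≃+* F} {T : V → V} {g : GL (Fin n) F}
    (hg : ∀ x, g.1 *ᵥ sv σ x = T x) {s s' : G} (h : ∀ x, s'.1.1 *ᵥ T x = T (s.1.1 *ᵥ x)) :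
    s'.1.1 = g.1 * s.1.1.map σ * (g⁻¹ : GL (Fin n) F).1 := by
  have h1 : s'.1.1 * g.1 = g.1 * s.1.1.map σ := by
    apply mat_ext_mulVec
    intro y
    rw [← mulVec_mulVec, ← mulVec_mulVec, ← sv_sv_symm σ y, hg, h, sv_mulVec, hg]
  have h2 : g.1 * (g⁻¹ : GL (Fin n) F).1 = 1 := by
    rw [← Units.val_mul, mul_inv_cancel]; rfl
  rw [← h1, Matrix.mul_assoc, h2, Matrix.mul_one]

omit [Fintype F] in
lemma induced_apply {σ : F ≃+* F} {T : V → V} {g : GL (Fin n) F}
    (hg : ∀ x, g.1 *ᵥ sv σ x = T x) {γ : PG ≃* PG} (hγ : Cfsg.IsInducedBySemilinearPSU g σ γ)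
    {s s' : G} (h : ∀ x, s'.1.1 *ᵥ T x = T (s.1.1 *ᵥ x)) : γ (pmk s) = pmk s' :=
  hγ s s' (matrix_eq_of_intertwine hg h)

namespace HypPair

variable {P : HypPair n F q} {hF : Fintype.card F = q ^ 2}

include hF in
lemma herm_decomp (x y : V) :
    H x y = H x P.v * (H y P.u) ^ q + H x P.u * (H y P.v) ^ q + H (P.pW x) (P.pW y) := by
  have hx := P.inW_pW hF x
  have hy := P.inW_pW hF y
  conv_lhs => rw [P.decomp x, P.decomp y]
  simp only [hermForm_add_left, hermForm_add_right hF, hermForm_smul_left, hermForm_smul_right,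
    P.hu, P.hv, P.huv, P.hvu hF, hx.1, hx.2, hy.u_left P hF, hy.v_left P hF]
  ring

/-- The semilinear map built from a semisimilarity `b` of `W`. -/
def Tmap (P : HypPair n F q) (σ : F ≃+* F) (b : V → V) (α α' : F) (x : V) : V :=
  (α * σ (H x P.v)) • P.u + (α' * σ (H x P.u)) • P.v + α' • b (P.pW x)

include hF in
lemma semiIso_Tmap {σ : F ≃+* F} {b : V → V} {α α' κ : F}
    (hbW : ∀ w, P.InW w → P.InW (b w))
    (hadd : ∀ w w', P.InW w → P.InW w' → b (w + w') = b w + b w')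
    (hsmul : ∀ (μ : F) w, P.InW w → b (μ • w) = σ μ • b w)
    (hherm : ∀ w w', P.InW w → P.InW w' → H (b w) (b w') = κ * σ (H w w'))
    (h1 : α * α' ^ q = 1) (h2 : α' * α' ^ q * κ = 1) : SemiIso n q σ (P.Tmap σ b α α') where
  add x y := by
    simp only [Tmap, hermForm_add_left, map_add, P.pW_add,
      hadd _ _ (P.inW_pW hF x) (P.inW_pW hF y)]
    module
  smul c x := by
    simp only [Tmap, hermForm_smul_left, map_mul, P.pW_smul, hsmul _ _ (P.inW_pW hF x)]
    module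
  herm x y := by
    have hx := hbW _ (P.inW_pW hF x)
    have hy := hbW _ (P.inW_pW hF y)
    have h1' : α' * α ^ q = 1 := by
      have := congrArg (· ^ q) h1
      simp only [mul_pow, pow_q_pow_q hF, one_pow] at this
      linear_combination this
    rw [herm_decomp (hF := hF) (P := P) x y]
    simp only [Tmap, hermForm_add_left, hermForm_add_right hF, hermForm_smul_left,
      hermForm_smul_right, P.hu, P.hv, P.huv, P.hvu hF, hx.1, hx.2, hy.u_left P hF,
      hy.v_left P hF, hherm _ _ (P.inW_pW hF x) (P.inW_pW hF y), map_add, map_mul, map_pow, mul_pow]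
    linear_combination (σ (H x P.v) * σ (H y P.u) ^ q) * h1 + (σ (H x P.u) * σ (H y P.v) ^ q) * h1'
      + σ (H (P.pW x) (P.pW y)) * h2

end HypPair

lemma eSU_smul_center (hF : Fintype.card F = q ^ 2) (v w : V) (l a : F) (hv : H v v = 0)
    (hwv : H w v = 0) (ha : a + a ^ q + H w w = 0) :
    ∃ h1 h2 h3 h4, eSU hF (l • v) w a h1 h2 ha = eSU hF v (l ^ q • w) (l * l ^ q * a) hv h3 h4 := by
  refine ⟨by rw [hermForm_smul_left, hermForm_smul_right, hv]; simp,
    by rw [hermForm_smul_right, hwv, mul_zero], by rw [hermForm_smul_left, hwv, mul_zero], by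
      rw [hermForm_smul_left, hermForm_smul_right]
      simp only [mul_pow, pow_q_pow_q hF]
      linear_combination (l * l ^ q) * ha, ?_⟩
  apply SU_ext_mulVec
  intro x
  rw [eSU_mulVec, eSU_mulVec]
  simp only [hermForm_smul_right, pow_q_pow_q hF]
  module

lemma SemiIso.intertwine_eSU (hF : Fintype.card F = q ^ 2) {σ : F ≃+* F} {T : V → V}
    (hT : SemiIso n q σ T) (v w : V) (a : F) (hv : H v v = 0)
    (hwv : H w v = 0) (ha : a + a ^ q + H w w = 0) :
    ∃ h1 h2 h3, ∀ x, (eSU hF (T v) (T w) (σ a) h1 h2 h3).1.1 *ᵥ T x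
      = T ((eSU hF v w a hv hwv ha).1.1 *ᵥ x) := by
  refine ⟨by rw [hT.herm, hv, map_zero], by rw [hT.herm, hwv, map_zero], by
    rw [hT.herm, ← map_pow, ← map_add, ← map_add, ha, map_zero], fun x => ?_⟩
  have hsub : ∀ x y, T (x - y) = T x - T y := by
    intro x y
    have := hT.add (x - y) y
    rw [sub_add_cancel] at this
    rw [this, add_sub_cancel_right]
  rw [eSU_mulVec, eSU_mulVec, hT.add, hsub, hT.add, hT.smul, hT.smul, hT.smul, hT.herm, hT.herm,
    map_mul]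

namespace HypPair

variable {P : HypPair n F q} {hF : Fintype.card F = q ^ 2}

/-- The data produced by parts D, E. -/
structure SData (P : HypPair n F q) (σ : F ≃+* F) (b : V → V) (α α' κ : F) : Prop where
  hbW : ∀ w, P.InW w → P.InW (b w)
  hadd : ∀ w w', P.InW w → P.InW w' → b (w + w') = b w + b w'
  hsmul : ∀ (μ : F) w, P.InW w → b (μ • w) = σ μ • b w
  hherm : ∀ w w', P.InW w → P.InW w' → H (b w) (b w') = κ * σ (H w w')
  hsurj : ∀ w', P.InW w' → ∃ w, P.InW w ∧ b w = w'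
  h1 : α * α' ^ q = 1
  h2 : α' * α' ^ q * κ = 1

omit [Fintype F] in
lemma SData.b_zero {σ : F ≃+* F} {b : V → V} {α α' κ : F} (D : SData P σ b α α' κ) : b 0 = 0 := by
  have := D.hadd 0 0 P.inW_zero P.inW_zero
  rw [add_zero] at this
  exact left_eq_add.1 this

include hF in
lemma SData.semiIso {σ : F ≃+* F} {b : V → V} {α α' κ : F} (D : SData P σ b α α' κ) :
    SemiIso n q σ (P.Tmap σ b α α') :=
  semiIso_Tmap (hF := hF) D.hbW D.hadd D.hsmul D.hherm D.h1 D.h2

omit [Fintype F] in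
lemma SData.T_u {σ : F ≃+* F} {b : V → V} {α α' κ : F} (D : SData P σ b α α' κ) :
    P.Tmap σ b α α' P.u = α • P.u := by
  have : P.pW P.u = 0 := by rw [pW, P.huv, P.hu]; simp
  rw [Tmap, this, D.b_zero, P.huv, P.hu]; simp

include hF in
lemma SData.T_v {σ : F ≃+* F} {b : V → V} {α α' κ : F} (D : SData P σ b α α' κ) :
    P.Tmap σ b α α' P.v = α' • P.v := by
  have : P.pW P.v = 0 := by rw [pW, P.hvu hF, P.hv]; simp
  rw [Tmap, this, D.b_zero, P.hvu hF, P.hv]; simp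

omit [Fintype F] in
lemma SData.T_w {σ : F ≃+* F} {b : V → V} {α α' κ : F} (D : SData P σ b α α' κ) {w : V}
    (hw : P.InW w) : P.Tmap σ b α α' w = α' • b w := by
  rw [Tmap, P.pW_of_inW hw, hw.1, hw.2]; simp

include hF in
lemma SData.alg {σ : F ≃+* F} {b : V → V} {α α' κ : F} (D : SData P σ b α α' κ) :
    α ^ q * α' = 1 ∧ α * α ^ q = κ ∧ α ≠ 0 ∧ α' ≠ 0 ∧ κ ≠ 0 := by
  have h1' : α ^ q * α' = 1 := by
    have := congrArg (· ^ q) D.h1
    simp only [mul_pow, pow_q_pow_q hF, one_pow] at this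
    exact this
  have hα : α ≠ 0 := by rintro rfl; simpa using D.h1
  have hα' : α' ≠ 0 := by rintro rfl; simpa using D.h2
  have hκ : κ ≠ 0 := by rintro rfl; simpa using D.h2
  refine ⟨h1', ?_, hα, hα', hκ⟩
  have h3 : (α' * α' ^ q) * (α * α ^ q) = 1 := by linear_combination α ^ q * α' * D.h1 + h1'
  have h4 : α' * α' ^ q ≠ 0 := mul_ne_zero hα' (pow_ne_zero _ hα')
  exact mul_left_cancel₀ h4 (h3.trans D.h2.symm)

/-- The automorphism induced by `T` on `Q_u`. -/
lemma SData.gamma_E {σ : F ≃+* F} {b : V → V} {α α' κ : F} (D : SData P σ b α α' κ)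
    {g : GL (Fin n) F} (hg : ∀ x, g.1 *ᵥ sv σ x = P.Tmap σ b α α' x) {γ : PG ≃* PG}
    (hγ : Cfsg.IsInducedBySemilinearPSU g σ γ) (w : V) (a : F) (hw : P.InW w)
    (ha : a + a ^ q + H w w = 0) :
    ∃ h3, γ (pmk (P.E hF w a hw ha)) = pmk (P.E hF (b w) (κ * σ a) (D.hbW w hw) h3) := by
  obtain ⟨e1, e2, -, -, -⟩ := D.alg (hF := hF)
  obtain ⟨h1, h2, h3, hI⟩ := (D.semiIso (hF := hF)).intertwine_eSU hF P.u w a P.hu hw.1 ha
  have h4 : κ * σ a + (κ * σ a) ^ q + H (b w) (b w) = 0 := by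
    have hκq : κ ^ q = κ := by rw [← e2, mul_pow, pow_q_pow_q hF, mul_comm]
    rw [D.hherm w w hw hw, mul_pow, hκq, ← map_pow, ← mul_add, ← mul_add, ← map_add, ← map_add, ha,
      map_zero, mul_zero]
  refine ⟨h4, ?_⟩
  rw [E, induced_apply hg hγ hI]
  congr 1
  apply SU_ext_mulVec
  intro x
  rw [eSU_mulVec, E_mulVec, D.T_u, D.T_w hw]
  simp only [hermForm_smul_right]
  have e3 : α' ^ q * α = 1 := by rw [mul_comm]; exact D.h1
  have c1 : (α ^ q * H x P.u) • α' • b w = H x P.u • b w := by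
    rw [smul_smul]; congr 1; linear_combination H x P.u * e1
  have c2 : (α' ^ q * H x (b w)) • α • P.u = H x (b w) • P.u := by
    rw [smul_smul]; congr 1; linear_combination H x (b w) * e3
  have c3 : (σ a * (α ^ q * H x P.u)) • α • P.u = (κ * σ a * H x P.u) • P.u := by
    rw [smul_smul, ← e2]; congr 1; ring
  rw [c1, c2, c3]

lemma SData.kappa_pow {σ : F ≃+* F} {b : V → V} {α α' κ : F} (D : SData P σ b α α' κ)
    (hF : Fintype.card F = q ^ 2) : κ ^ q = κ := by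
  obtain ⟨-, e2, -, -, -⟩ := D.alg (hF := hF)
  rw [← e2, mul_pow, pow_q_pow_q hF, mul_comm]

lemma SData.gamma_tu {σ : F ≃+* F} {b : V → V} {α α' κ : F} (D : SData P σ b α α' κ)
    {g : GL (Fin n) F} (hg : ∀ x, g.1 *ᵥ sv σ x = P.Tmap σ b α α' x) {γ : PG ≃* PG}
    (hγ : Cfsg.IsInducedBySemilinearPSU g σ γ) (c : F) (hc : c + c ^ q = 0) :
    ∃ hc', γ (pmk (tSU hF P.u c P.hu hc)) = pmk (tSU hF P.u (κ * σ c) P.hu hc') := by
  have hc' : κ * σ c + (κ * σ c) ^ q = 0 := by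
    rw [mul_pow, D.kappa_pow hF, ← map_pow, ← mul_add, ← map_add, hc, map_zero, mul_zero]
  refine ⟨hc', ?_⟩
  obtain ⟨h3, e⟩ := D.gamma_E (hF := hF) hg hγ 0 c P.inW_zero
    (by rw [hermForm_zero_left, hc, add_zero])
  rw [P.tSU_eq_E hF, e, P.tSU_eq_E hF]
  congr 1
  exact P.E_congr hF D.b_zero rfl _ _

lemma SData.gamma_tv {σ : F ≃+* F} {b : V → V} {α α' κ : F} (D : SData P σ b α α' κ)
    {g : GL (Fin n) F} (hg : ∀ x, g.1 *ᵥ sv σ x = P.Tmap σ b α α' x) {γ : PG ≃* PG}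
    (hγ : Cfsg.IsInducedBySemilinearPSU g σ γ) (c : F) (hc : c + c ^ q = 0) :
    ∃ hc', γ (pmk (tSU hF P.v c P.hv hc)) = pmk (tSU hF P.v (κ⁻¹ * σ c) P.hv hc') := by
  obtain ⟨e1, e2, hα, hα', hκ⟩ := D.alg (hF := hF)
  have hc' : κ⁻¹ * σ c + (κ⁻¹ * σ c) ^ q = 0 := by
    rw [mul_pow, inv_pow, D.kappa_pow hF, ← map_pow, ← mul_add, ← map_add, hc, map_zero, mul_zero]
  refine ⟨hc', ?_⟩
  obtain ⟨h1, h2, h3, hI⟩ := (D.semiIso (hF := hF)).intertwine_eSU hF P.v 0 c P.hv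
    (hermForm_zero_left _) (by rw [hermForm_zero_left, hc, add_zero])
  rw [tSU, induced_apply hg hγ hI]
  congr 1
  apply SU_ext_mulVec
  intro x
  have hT0 : P.Tmap σ b α α' 0 = 0 := by
    have := (D.semiIso (hF := hF)).smul 0 0
    simpa using this
  rw [eSU_mulVec, tSU_mulVec, D.T_v (hF := hF), hT0, hermForm_zero_right hF]
  have : κ⁻¹ = α' * α' ^ q := by
    field_simp
    linear_combination -D.h2
  simp only [hermForm_smul_right, this]
  module

/-- The automorphism induced by `T` is admissible and induces `b`. -/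
theorem SData.gamma_adm {σ : F ≃+* F} {b : V → V} {α α' κ : F} (D : SData P σ b α α' κ)
    {g : GL (Fin n) F} (hg : ∀ x, g.1 *ᵥ sv σ x = P.Tmap σ b α α' x) {γ : PG ≃* PG}
    (hγ : Cfsg.IsInducedBySemilinearPSU g σ γ) :
    P.Adm hF γ ∧ P.Adm hF γ.symm ∧ ∀ w, P.InW w → P.Rel hF γ w (b w) := by
  obtain ⟨e1, e2, hα, hα', hκ⟩ := D.alg (hF := hF)
  have hκq := D.kappa_pow hF
  refine ⟨⟨?_, ?_, ?_⟩, ⟨?_, ?_, ?_⟩, ?_⟩
  · intro c hc
    obtain ⟨hc', e⟩ := D.gamma_tu (hF := hF) hg hγ c hc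
    exact ⟨_, hc', e⟩
  · intro c hc
    obtain ⟨hc', e⟩ := D.gamma_tv (hF := hF) hg hγ c hc
    exact ⟨_, hc', e⟩
  · intro w a hw ha
    obtain ⟨h3, e⟩ := D.gamma_E (hF := hF) hg hγ w a hw ha
    exact ⟨_, _, D.hbW w hw, h3, e⟩
  · intro c hc
    have hc0 : σ.symm (κ⁻¹ * c) + (σ.symm (κ⁻¹ * c)) ^ q = 0 := by
      rw [← map_pow, ← map_add, mul_pow, inv_pow, hκq, ← mul_add, hc, mul_zero, map_zero]
    obtain ⟨hc', e⟩ := D.gamma_tu (hF := hF) hg hγ _ hc0
    refine ⟨_, hc0, ?_⟩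
    rw [MulEquiv.symm_apply_eq, e]
    congr 1
    exact tSU_congr hF rfl (by rw [RingEquiv.apply_symm_apply]; field_simp) _ _
  · intro c hc
    have hc0 : σ.symm (κ * c) + (σ.symm (κ * c)) ^ q = 0 := by
      rw [← map_pow, ← map_add, mul_pow, hκq, ← mul_add, hc, mul_zero, map_zero]
    obtain ⟨hc', e⟩ := D.gamma_tv (hF := hF) hg hγ _ hc0
    refine ⟨_, hc0, ?_⟩
    rw [MulEquiv.symm_apply_eq, e]
    congr 1
    exact tSU_congr hF rfl (by rw [RingEquiv.apply_symm_apply]; field_simp) _ _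
  · intro w' a' hw' ha'
    obtain ⟨w, hw, rfl⟩ := D.hsurj w' hw'
    have ha0 : σ.symm (κ⁻¹ * a') + (σ.symm (κ⁻¹ * a')) ^ q + H w w = 0 := by
      apply σ.injective
      rw [D.hherm w w hw hw] at ha'
      simp only [map_add, map_pow, RingEquiv.apply_symm_apply, map_zero, mul_pow, inv_pow, hκq]
      field_simp
      linear_combination ha'
    obtain ⟨h3, e⟩ := D.gamma_E (hF := hF) hg hγ w _ hw ha0
    refine ⟨w, _, hw, ha0, ?_⟩
    rw [MulEquiv.symm_apply_eq, e]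
    congr 1
    exact P.E_congr hF rfl (by rw [RingEquiv.apply_symm_apply]; field_simp) _ _
  · intro w hw
    obtain ⟨a, ha⟩ := exists_param (hF := hF) w
    obtain ⟨h3, e⟩ := D.gamma_E (hF := hF) hg hγ w a hw ha
    exact ⟨hw, D.hbW w hw, a, _, ha, h3, e⟩

end HypPair

end Cfsg.Agent.Lib.Helper5
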