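import Mathlib
import Cfsg.Agent.Lib.Helper5.PSUAut4

set_option autoImplicit false

/-! # Automorphisms of `PSU_n(q)`, part 5: rigidity -/

namespace Cfsg.Agent.Lib.Helper5

open Matrix Module Cfsg.Agent.Lib.Helper13 Cfsg.Agent.Lib.Helper94 Cfsg.Agent.Lib.Helper94.U
  Cfsg.Agent.Lib.Helper45.SUGen

variable {F : Type*} [Field F] [Fintype F] {q n : ℕ}

local notation "H" => Cfsg.hermForm n F q
local notation "V" => (Fin n → F)
local notation "G" => Cfsg.SU n F q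
local notation "PG" => Cfsg.PSU n F q

/-- The subgroup of elements whose class is fixed by `δ`. -/
def fixSub (δ : PG ≃* PG) : Subgroup G where
  carrier := {g | δ (pmk g) = pmk g}
  mul_mem' := by
    intro a b ha hb
    change δ (pmk (a * b)) = pmk (a * b)
    rw [pmk_mul, map_mul, ha, hb]
  one_mem' := by
    change δ (pmk 1) = pmk 1
    rw [pmk_one, map_one]
  inv_mem' := by
    intro a ha
    change δ (pmk a⁻¹) = pmk a⁻¹
    rw [pmk_inv, map_inv, ha]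

omit [Fintype F] in
lemma mem_fixSub {δ : PG ≃* PG} {g : G} : g ∈ fixSub δ ↔ δ (pmk g) = pmk g := Iff.rfl

namespace HypPair

variable {P : HypPair n F q} {hF : Fintype.card F = q ^ 2}

/-- `δ` is admissible and induces the identity on `W`. -/
structure Triv (P : HypPair n F q) (hF : Fintype.card F = q ^ 2) (δ : PG ≃* PG) : Prop where
  adm : P.Adm hF δ
  adm' : P.Adm hF δ.symm
  rel : ∀ w, P.InW w → P.Rel hF δ w w

lemma Triv.bmap {δ : PG ≃* PG} (h : P.Triv hF δ) {w : V} (hw : P.InW w) : P.bmap hF δ w = w :=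
  bmap_eq h.adm (h.rel w hw)

/-- R1: `δ` is trivial on `X_u`. -/
lemma Triv.tu_mem (hn : 3 ≤ n) {δ : PG ≃* PG} (h : P.Triv hF δ) (s : F) (hs : s + s ^ q = 0) :
    tSU hF P.u s P.hu hs ∈ fixSub δ := by
  obtain ⟨z, hz, hzz⟩ := P.exists_anisotropic_inW hF hn
  obtain ⟨η, hη⟩ := exists_tr hF 1 (one_pow q)
  have hzq : (H z z) ^ q = H z z := hermForm_self_pow hF z
  have := relc_comm h.adm (hz.smul P (s / H z z * η)) hz
  rw [h.bmap (hz.smul P _), h.bmap hz] at this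
  have e : H ((s / H z z * η) • z) z - H z ((s / H z z * η) • z) = s := by
    rw [hermForm_smul_left, hermForm_smul_right, mul_pow, div_pow, hzq]
    have hs' : s ^ q = -s := by linear_combination hs
    rw [hs']
    field_simp
    linear_combination s * hη
  rw [e] at this
  obtain ⟨_, _, e2⟩ := this
  exact e2

/-- R2: `δ` is trivial on the Levi factor. -/
lemma Triv.tor_mem (hn : 3 ≤ n) {δ : PG ≃* PG} (h : P.Triv hF δ) {k : G} {l : F}
    (hk : P.Tor k l) : k ∈ fixSub δ := by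
  obtain ⟨k', l', hk', hkk⟩ := exists_tor h.adm h.adm' hk
  rw [mem_fixSub, hkk]
  have hl := hk.1
  have hl' := hk'.1
  have hlq : l ^ q ≠ 0 := pow_ne_zero _ hl
  have hlq' : l' ^ q ≠ 0 := pow_ne_zero _ hl'
  -- norms agree
  obtain ⟨c, hc0, hc⟩ := exists_skew_q hF
  have hN : l * l ^ q = l' * l' ^ q := by
    have hs : ∀ m : F, m * m ^ q * c + (m * m ^ q * c) ^ q = 0 := by
      intro m
      simp only [mul_pow, pow_q_pow_q hF]; linear_combination (m * m ^ q) * hc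
    have e₁ : k * tSU hF P.u c P.hu hc * k⁻¹ = tSU hF P.u (l * l ^ q * c) P.hu (hs l) := by
      rw [tSU_conj, ← tSU_smul hF P.u l c P.hu hc]
      exact tSU_congr hF hk.2.1 rfl _ _
    have e₂ : k' * tSU hF P.u c P.hu hc * k'⁻¹ = tSU hF P.u (l' * l' ^ q * c) P.hu (hs l') := by
      rw [tSU_conj, ← tSU_smul hF P.u l' c P.hu hc]
      exact tSU_congr hF hk'.2.1 rfl _ _
    have e₃ : pmk (tSU hF P.u (l * l ^ q * c) P.hu (hs l))
        = pmk (tSU hF P.u (l' * l' ^ q * c) P.hu (hs l')) := by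
      rw [← mem_fixSub.1 (h.tu_mem hn _ (hs l)), ← e₁, ← e₂]
      simp only [pmk_mul, pmk_inv, map_mul, map_inv, hkk, mem_fixSub.1 (h.tu_mem hn c hc)]
    rw [P.tSU_eq_E hF, P.tSU_eq_E hF] at e₃
    exact mul_right_cancel₀ hc0 (P.E_inj hF _ _ _ _ e₃).2
  have hW : ∀ w, P.InW w → l ^ q • (k.1.1 *ᵥ w) = l' ^ q • (k'.1.1 *ᵥ w) := by
    intro w hw
    have := bmap_tor h.adm hk hk' hkk hw
    rwa [h.bmap hw, h.bmap (hk.kap_inW hF hw)] at this
  apply pmk_eq_of_smul (ζ := l' / l)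
  intro x
  have hz1 : l' / l = l ^ q / l' ^ q := by
    field_simp
    linear_combination -hN
  have hW' : ∀ w, P.InW w → k'.1.1 *ᵥ w = (l' / l) • (k.1.1 *ᵥ w) := by
    intro w hw
    rw [hz1, div_eq_inv_mul, mul_smul, hW w hw, smul_smul, inv_mul_cancel₀ hlq', one_smul]
  conv_lhs => rw [P.decomp x]
  conv_rhs => rw [P.decomp x]
  simp only [mulVec_add, mulVec_smul, hk.2.1, hk.2.2, hk'.2.1, hk'.2.2, hW' _ (P.inW_pW hF x),
    smul_add, smul_smul]
  congr 2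
  · congr 1; field_simp
  · congr 1
    rw [hz1]; field_simp

/-- `δ` fixes all `E w a`. -/
def WF (P : HypPair n F q) (hF : Fintype.card F = q ^ 2) (δ : PG ≃* PG) (w : V) : Prop :=
  ∃ hw : P.InW w, ∀ a ha, P.E hF w a hw ha ∈ fixSub δ

lemma Triv.WF_of_one (hn : 3 ≤ n) {δ : PG ≃* PG} (h : P.Triv hF δ) {w : V} (hw : P.InW w) (a₀ : F)
    (ha₀ : a₀ + a₀ ^ q + H w w = 0) (h0 : P.E hF w a₀ hw ha₀ ∈ fixSub δ) : P.WF hF δ w := by
  refine ⟨hw, fun a ha => ?_⟩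
  have hc : (a - a₀) + (a - a₀) ^ q = 0 := by rw [sub_pow_q hF]; linear_combination ha - ha₀
  obtain ⟨h3, e1⟩ := E_mul_tSU (hF := hF) w a₀ (a - a₀) hw ha₀ hc
  have : P.E hF w a hw ha = P.E hF w a₀ hw ha₀ * tSU hF P.u (a - a₀) P.hu hc := by
    rw [e1]; exact P.E_congr hF rfl (by ring) hw ha
  rw [this]
  exact (fixSub δ).mul_mem h0 (h.tu_mem hn _ hc)

lemma Triv.WF_add (hn : 3 ≤ n) {δ : PG ≃* PG} (h : P.Triv hF δ) {w w' : V} (h1 : P.WF hF δ w)
    (h2 : P.WF hF δ w') : P.WF hF δ (w + w') := by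
  obtain ⟨hw, H1⟩ := h1
  obtain ⟨hw', H2⟩ := h2
  obtain ⟨a, ha⟩ := exists_param (hF := hF) w
  obtain ⟨a', ha'⟩ := exists_param (hF := hF) w'
  obtain ⟨h3, m⟩ := P.E_mul hF w w' a a' hw hw' ha ha'
  refine h.WF_of_one hn (hw.add P hw') _ h3 ?_
  rw [← m]
  exact (fixSub δ).mul_mem (H1 a ha) (H2 a' ha')

lemma Triv.WF_comm (hn : 3 ≤ n) {δ : PG ≃* PG} (h : P.Triv hF δ) {k : G} {l : F}
    (hk : P.Tor k l) (hl : l * l ^ q = 1) {w : V} (hw : P.InW w) :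
    P.WF hF δ (l ^ q • (k.1.1 *ᵥ w) - w) := by
  obtain ⟨a, ha⟩ := exists_param (hF := hF) w
  obtain ⟨a', ha', e⟩ := (h.rel w hw).all h.adm a ha
  have hκ := hk.kap_inW hF hw
  set w₁ := l ^ q • (k.1.1 *ᵥ w) - w with hw₁
  have hw₁W : P.InW w₁ := hκ.sub P hw
  have hnorm : H (l ^ q • (k.1.1 *ᵥ w)) (l ^ q • (k.1.1 *ᵥ w)) = H w w := by
    rw [hermForm_smul_left, hermForm_smul_right, SU_preserves, pow_q_pow_q hF]
    linear_combination H w w * hl
  have ha₁ : H w w₁ + (H w w₁) ^ q + H w₁ w₁ = 0 := by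
    rw [hermForm_swap hF, hw₁]
    simp only [hermForm_sub_left, hermForm_sub_right hF, hnorm]
    ring
  -- the commutator
  have X : ∀ b (hb : b + b ^ q + H w w = 0),
      k * P.E hF w b hw hb * k⁻¹ * (P.E hF w b hw hb)⁻¹ = P.E hF w₁ (H w w₁) hw₁W ha₁ := by
    intro b hb
    rw [mul_inv_eq_iff_eq_mul]
    obtain ⟨h3, m⟩ := hk.conj_E hF w b hw hb
    obtain ⟨h4, m'⟩ := P.E_mul hF w₁ w (H w w₁) b hw₁W hw ha₁ hb
    rw [m, m']
    exact P.E_congr hF (by rw [hw₁]; abel) (by rw [hl]; ring) _ _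
  refine h.WF_of_one hn hw₁W _ ha₁ ?_
  rw [mem_fixSub, ← X a ha]
  simp only [pmk_mul, pmk_inv, map_mul, map_inv, mem_fixSub.1 (h.tor_mem hn hk), e]
  have := congrArg pmk ((X a' ha').trans (X a ha).symm)
  simpa only [pmk_mul, pmk_inv] using this

lemma exists_norm_one_orderOf (hF : Fintype.card F = q ^ 2) :
    ∃ l : F, l ≠ 0 ∧ l * l ^ q = 1 ∧ ∀ k, 0 < k → k < q + 1 → l ^ k ≠ 1 := by
  obtain ⟨ζ, hζ⟩ := exists_unit_orderOf_q_add_one hF
  refine ⟨ζ, ζ.ne_zero, ?_, fun k hk0 hk h => ?_⟩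
  · have := pow_orderOf_eq_one ζ
    rw [hζ] at this
    have h2 := congrArg Units.val this
    rw [pow_succ'] at h2
    simpa using h2
  · have h3 : ζ ^ k = 1 := Units.ext (by simpa using h)
    have := orderOf_le_of_pow_eq_one hk0 h3
    omega

lemma Triv.WF_perp (hn : 3 ≤ n) {δ : PG ≃* PG} (h : P.Triv hF δ) {z : V} (hz : P.InW z)
    (hzz : H z z ≠ 0) {w : V} (hw : P.InW w) (hwz : H w z = 0) : P.WF hF δ w := by
  have hq := two_le_of_card_sq hF
  obtain ⟨l, hl0, hl, hlk⟩ := exists_norm_one_orderOf hF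
  have hl1 : l ^ q - 1 ≠ 0 := by
    intro h1
    apply hlk 1 (by norm_num) (by omega)
    rw [sub_eq_zero.1 h1, mul_one] at hl
    rw [pow_one, hl]
  have hw' : P.InW ((l ^ q - 1)⁻¹ • w) := hw.smul P _
  have := h.WF_comm hn (P.tor_Tor hF z l hl0 hz hzz) hl hw'
  rw [P.tor_mulVec_inW hF z l hl0 hz hzz hw', hermForm_smul_left, hwz] at this
  have e : l ^ q • ((l ^ q - 1)⁻¹ • w + ((l ^ q * l⁻¹ - 1) / H z z * ((l ^ q - 1)⁻¹ * 0)) • z)
      - (l ^ q - 1)⁻¹ • w = w := by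
    have : l ^ q • ((l ^ q - 1)⁻¹ • w + ((l ^ q * l⁻¹ - 1) / H z z * ((l ^ q - 1)⁻¹ * 0)) • z)
      - (l ^ q - 1)⁻¹ • w = ((l ^ q - 1) * (l ^ q - 1)⁻¹) • w := by module
    rw [this, mul_inv_cancel₀ hl1, one_smul]
  rwa [e] at this

/-- R3: `δ` is trivial on `Q_u`. -/
lemma Triv.WF_all (hn : 3 ≤ n) (h32 : ¬ (n = 3 ∧ q = 2)) {δ : PG ≃* PG} (h : P.Triv hF δ) {w : V}
    (hw : P.InW w) : P.WF hF δ w := by
  have hq := two_le_of_card_sq hF
  obtain ⟨z₁, hz₁, hzz₁⟩ := P.exists_anisotropic_inW hF hn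
  set c := H w z₁ / H z₁ z₁ with hc
  have e1 : w = c • z₁ + (w - c • z₁) := by abel
  have h1 : P.InW (c • z₁) := hz₁.smul P _
  have h2 : P.InW (w - c • z₁) := hw.sub P h1
  have h4 : H (w - c • z₁) z₁ = 0 := by
    rw [hermForm_sub_left, hermForm_smul_left, hc]; field_simp; ring
  rw [e1]
  refine h.WF_add hn ?_ (h.WF_perp hn hz₁ hzz₁ h2 h4)
  rcases Nat.lt_or_ge n 4 with hn4 | hn4
  · have hq2 : q ≠ 2 := fun h2 => h32 ⟨by omega, h2⟩
    obtain ⟨l, hl0, hl, hlk⟩ := exists_norm_one_orderOf hF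
    have hl3 : l ^ 3 ≠ 1 := hlk 3 (by norm_num) (by omega)
    have hlq : l ^ q = l⁻¹ := by field_simp; linear_combination hl
    have hη : l ^ q * (l ^ q * l⁻¹) - 1 ≠ 0 := by
      rw [hlq]
      intro h0
      apply hl3
      field_simp at h0
      linear_combination -h0
    have hw' : P.InW ((l ^ q * (l ^ q * l⁻¹) - 1)⁻¹ • c • z₁) := h1.smul P _
    have := h.WF_comm hn (P.tor_Tor hF z₁ l hl0 hz₁ hzz₁) hl hw'
    rw [P.tor_mulVec_inW hF z₁ l hl0 hz₁ hzz₁ hw'] at this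
    simp only [hermForm_smul_left] at this
    set η := l ^ q * (l ^ q * l⁻¹) with hηdef
    have e : l ^ q • ((η - 1)⁻¹ • c • z₁
        + ((l ^ q * l⁻¹ - 1) / H z₁ z₁ * ((η - 1)⁻¹ * (c * H z₁ z₁))) • z₁) - (η - 1)⁻¹ • c • z₁
        = c • z₁ := by
      have e2 : (l ^ q * l⁻¹ - 1) / H z₁ z₁ * ((η - 1)⁻¹ * (c * H z₁ z₁))
          = (l ^ q * l⁻¹ - 1) * ((η - 1)⁻¹ * c) := by field_simp
      rw [e2]
      have : l ^ q • ((η - 1)⁻¹ • c • z₁ + ((l ^ q * l⁻¹ - 1) * ((η - 1)⁻¹ * c)) • z₁)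
          - (η - 1)⁻¹ • c • z₁ = ((η - 1) * (η - 1)⁻¹) • c • z₁ := by
        rw [hηdef]; module
      rw [this, mul_inv_cancel₀ hη, one_smul]
    rwa [e] at this
  · obtain ⟨z₂, hz₂, hzz₂, hz21⟩ := P.exists_anisotropic_inW_perp hF hn4 hz₁ hzz₁
    exact h.WF_perp hn hz₂ hzz₂ h1 (by
      rw [hermForm_smul_left, hermForm_eq_zero_comm hF hz21, mul_zero])

lemma pmk_tSU_ne_one {y : V} (hy0 : y ≠ 0) (hy : H y y = 0) {c : F} (hc0 : c ≠ 0)
    (hc : c + c ^ q = 0) : pmk (tSU hF y c hy hc) ≠ 1 := by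
  intro h
  rw [← pmk_one] at h
  obtain ⟨ζ, hζ⟩ := exists_smul_of_pmk_eq hF h
  simp only [SU_one_mulVec, tSU_mulVec] at hζ
  have h1 := hζ y
  rw [hy, mul_zero, zero_smul, add_zero] at h1
  have hζ1 : ζ = 1 := by
    have : (1 - ζ) • y = 0 := by rw [sub_smul, one_smul, ← h1, sub_self]
    have := (smul_eq_zero.1 this).resolve_right hy0
    linear_combination -this
  obtain ⟨x, hx⟩ := exists_hermForm_ne_zero hF hy0
  have h2 := hζ x
  rw [hζ1, one_smul] at h2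
  have h3 : (c * H x y) • y = 0 := by
    have := h2.symm
    rwa [add_eq_left] at this
  exact (mul_ne_zero hc0 hx) ((smul_eq_zero.1 h3).resolve_right hy0)

/-- R4: `δ` is trivial on `X_v`. -/
lemma Triv.tv_mem (hn : 3 ≤ n) {δ : PG ≃* PG} (h : P.Triv hF δ) (d : F) (hd : d + d ^ q = 0) :
    tSU hF P.v d P.hv hd ∈ fixSub δ := by
  by_cases hd0 : d = 0
  · subst hd0
    rw [tSU_zero]; exact (fixSub δ).one_mem
  have hdq : d ^ q = -d := by linear_combination hd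
  have ha : (-d⁻¹) + (-d⁻¹) ^ q = 0 := by
    rw [neg_pow_q hF, inv_pow, hdq]; field_simp; ring
  set a := -d⁻¹ with hadef
  have had : d * a = -1 := by rw [hadef]; field_simp
  obtain ⟨d', hd', e⟩ := h.adm.hXv d hd
  obtain ⟨c', hc', e'⟩ := h.adm.hXv d hd
  have hc0' : c' ≠ 0 := by
    rintro rfl
    rw [tSU_zero, pmk_one] at e'
    have : δ (pmk (tSU hF P.v d P.hv hd)) = δ 1 := by rw [e', map_one]
    exact pmk_tSU_ne_one (P.v_ne hF) P.hv hd0 hd (δ.injective this)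
  set tu := tSU hF P.u a P.hu ha with htu
  set g := tu * tSU hF P.v d P.hv hd * tu with hg
  set g' := tu * tSU hF P.v d' P.hv hd' * tu with hg'
  have hgg : δ (pmk g) = pmk g' := by
    have htu' : δ (pmk tu) = pmk tu := mem_fixSub.1 (h.tu_mem hn a ha)
    rw [hg, hg']
    simp only [pmk_mul, map_mul, htu', e]
  have hgen : ∀ (m : F) (hm : m + m ^ q = 0),
      (tu * tSU hF P.v m P.hv hm * tu).1.1 *ᵥ P.v = (1 + m * a) • P.v + (a + a * (1 + m * a)) • P.u := by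
    intro m hm
    rw [SU_mul_mulVec, SU_mul_mulVec, htu]
    simp only [tSU_mulVec, hermForm_add_left, hermForm_smul_left, P.hu, P.hv, P.huv, P.hvu hF]
    module
  have hgv : g.1.1 *ᵥ P.v = a • P.u := by
    rw [hg, hgen d hd, had]; module
  have hs : a * a ^ q * d + (a * a ^ q * d) ^ q = 0 := by
    simp only [mul_pow, pow_q_pow_q hF]; linear_combination (a * a ^ q) * hd
  have e₁ : g * tSU hF P.v d P.hv hd * g⁻¹ = tSU hF P.u (a * a ^ q * d) P.hu hs := by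
    rw [tSU_conj, ← tSU_smul hF P.u a d P.hu hd]
    exact tSU_congr hF hgv rfl _ _
  have e₂ : pmk (tSU hF P.u (a * a ^ q * d) P.hu hs)
      = pmk (tSU hF (g'.1.1 *ᵥ P.v) c' (by rw [SU_preserves, P.hv]) hc') := by
    rw [← mem_fixSub.1 (h.tu_mem hn _ hs), ← e₁, ← tSU_conj hF g' P.v c' P.hv hc']
    simp only [pmk_mul, pmk_inv, map_mul, map_inv, hgg, e']
  obtain ⟨l, hl⟩ := smul_of_pmk_tSU_eq hF P.u_ne (su_mulVec_ne_zero g' (P.v_ne hF)) _ _ _ _ hc0' e₂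
  rw [hg', hgen d' hd'] at hl
  have h1 := congrArg (fun x => H x P.u) hl
  simp only [hermForm_add_left, hermForm_smul_left, P.hu, P.hvu hF, mul_zero, add_zero,
    mul_one] at h1
  have ha0 : a ≠ 0 := by rw [hadef]; exact neg_ne_zero.2 (inv_ne_zero hd0)
  have hdd : d' = d := by
    apply mul_right_cancel₀ ha0
    linear_combination h1 - had
  rw [mem_fixSub, e]
  congr 1
  exact tSU_congr hF rfl hdd _ _

/-- The stabiliser of the point `u` is fixed. -/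
lemma Triv.stab_mem (hn : 3 ≤ n) (h32 : ¬ (n = 3 ∧ q = 2)) {δ : PG ≃* PG} (h : P.Triv hF δ) {g : G}
    {l : F} (hg : g.1.1 *ᵥ P.u = l • P.u) : g ∈ fixSub δ := by
  have hl : l ≠ 0 := by
    rintro rfl
    rw [zero_smul] at hg
    exact su_mulVec_ne_zero g P.u_ne hg
  have hlq : l ^ q ≠ 0 := pow_ne_zero _ hl
  set v₁ := l ^ q • (g.1.1 *ᵥ P.v) with hv₁
  have h1 : H v₁ P.u = 1 := by
    have : H (g.1.1 *ᵥ P.v) (g.1.1 *ᵥ P.u) = 1 := by rw [SU_preserves, P.hvu hF]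
    rw [hg, hermForm_smul_right] at this
    rw [hv₁, hermForm_smul_left, this]
  have h2 : H v₁ v₁ = 0 := by
    rw [hv₁, hermForm_smul_left, hermForm_smul_right, SU_preserves, P.hv]; simp
  have ha : H v₁ P.v + (H v₁ P.v) ^ q + H (P.pW v₁) (P.pW v₁) = 0 := by
    have := herm_decomp (hF := hF) (P := P) v₁ v₁
    rw [h2, h1] at this
    rw [this]; ring
  set x := P.E hF (P.pW v₁) (H v₁ P.v) (P.inW_pW hF v₁) ha with hx
  have hxv : x.1.1 *ᵥ P.v = v₁ := by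
    rw [hx, E_v]
    conv_rhs => rw [P.decomp v₁, h1]
    module
  have hxu : x.1.1 *ᵥ P.u = P.u := by rw [hx, E_u]
  have hk : P.Tor (x⁻¹ * g) l := by
    apply P.tor_of_fix hF (l' := (l ^ q)⁻¹)
    · rw [SU_mul_mulVec, hg, mulVec_smul]
      congr 1
      nth_rewrite 1 [← hxu]
      rw [SU_inv_mulVec_mulVec]
    · rw [SU_mul_mulVec]
      have : g.1.1 *ᵥ P.v = (l ^ q)⁻¹ • v₁ := by
        rw [hv₁, smul_smul, inv_mul_cancel₀ hlq, one_smul]
      rw [this, mulVec_smul, ← hxv, SU_inv_mulVec_mulVec]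
  have : g = x * (x⁻¹ * g) := by group
  rw [this]
  exact (fixSub δ).mul_mem ((h.WF_all hn h32 (P.inW_pW hF v₁)).2 _ _) (h.tor_mem hn hk)

/-- **Rigidity.** -/
theorem Triv.eq_refl (hn : 3 ≤ n) (h32 : ¬ (n = 3 ∧ q = 2)) {δ : PG ≃* PG} (h : P.Triv hF δ)
    (x : PG) : δ x = x := by
  have hprim := su_isPreprimitive (n := n) hF
  have hnt : Nontrivial (IsoPt n F q) := by
    refine ⟨IsoPt.mk P.u P.u_ne P.hu, IsoPt.mk P.v (P.v_ne hF) P.hv, ?_⟩
    rw [Ne, IsoPt.mk_eq_mk_iff]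
    rintro ⟨a, ha⟩
    have := P.huv
    rw [← ha, hermForm_smul_left, P.hv, mul_zero] at this
    exact zero_ne_one this
  have hco : IsCoatom (MulAction.stabilizer G (IsoPt.mk P.u P.u_ne P.hu)) :=
    MulAction.IsPreprimitive.isCoatom_stabilizer_of_isPreprimitive _ _
  have hle : MulAction.stabilizer G (IsoPt.mk P.u P.u_ne P.hu) ≤ fixSub δ := by
    intro g hg
    rw [MulAction.mem_stabilizer_iff, su_smul_mk, IsoPt.mk_eq_mk_iff] at hg
    obtain ⟨a, ha⟩ := hg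
    exact h.stab_mem hn h32 ha.symm
  obtain ⟨c, hc0, hc⟩ := exists_skew_q hF
  have hlt : MulAction.stabilizer G (IsoPt.mk P.u P.u_ne P.hu) < fixSub δ := by
    refine lt_of_le_of_ne hle (fun heq => ?_)
    have h1 := h.tv_mem hn c hc
    rw [← heq, MulAction.mem_stabilizer_iff, su_smul_mk, IsoPt.mk_eq_mk_iff] at h1
    obtain ⟨a, ha⟩ := h1
    rw [tSU_mulVec, P.huv, mul_one] at ha
    have h2 := congrArg (fun x => H x P.u) ha
    simp only [hermForm_add_left, hermForm_smul_left, P.hu, P.hvu hF, mul_zero, mul_one,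
      zero_add] at h2
    exact hc0 h2.symm
  have htop := hco.2 _ hlt
  obtain ⟨g, rfl⟩ := pmk_surj x
  have : g ∈ fixSub δ := by rw [htop]; trivial
  exact this

end HypPair

end Cfsg.Agent.Lib.Helper5
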