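import Mathlib
import Cfsg.Agent.Lib.Helper5.PSUAut5

set_option autoImplicit false

/-! # Automorphisms of `PSU_n(q)`, part 6: admissible automorphisms are semilinear -/

namespace Cfsg.Agent.Lib.Helper5

open Matrix Module Cfsg.Agent.Lib.Helper13 Cfsg.Agent.Lib.Helper94 Cfsg.Agent.Lib.Helper94.U
  Cfsg.Agent.Lib.Helper45.SUGen

variable {F : Type*} [Field F] [Fintype F] {q n : ℕ}

local notation "H" => Cfsg.hermForm n F q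
local notation "V" => (Fin n → F)
local notation "G" => Cfsg.SU n F q
local notation "PG" => Cfsg.PSU n F q

namespace HypPair

variable {P : HypPair n F q} {hF : Fintype.card F = q ^ 2}

lemma Adm.trans {β γ : PG ≃* PG} (hβ : P.Adm hF β) (hγ : P.Adm hF γ) : P.Adm hF (β.trans γ) where
  hX c hc := by
    obtain ⟨c₁, hc₁, e₁⟩ := hβ.hX c hc
    obtain ⟨c₂, hc₂, e₂⟩ := hγ.hX c₁ hc₁
    exact ⟨c₂, hc₂, by rw [MulEquiv.trans_apply, e₁, e₂]⟩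
  hXv c hc := by
    obtain ⟨c₁, hc₁, e₁⟩ := hβ.hXv c hc
    obtain ⟨c₂, hc₂, e₂⟩ := hγ.hXv c₁ hc₁
    exact ⟨c₂, hc₂, by rw [MulEquiv.trans_apply, e₁, e₂]⟩
  hQ w a hw ha := by
    obtain ⟨w₁, a₁, hw₁, ha₁, e₁⟩ := hβ.hQ w a hw ha
    obtain ⟨w₂, a₂, hw₂, ha₂, e₂⟩ := hγ.hQ w₁ a₁ hw₁ ha₁
    exact ⟨w₂, a₂, hw₂, ha₂, by rw [MulEquiv.trans_apply, e₁, e₂]⟩

lemma Rel.trans {β γ : PG ≃* PG} (hγ : P.Adm hF γ) {w w₁ w₂ : V} (h₁ : P.Rel hF β w w₁)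
    (h₂ : P.Rel hF γ w₁ w₂) : P.Rel hF (β.trans γ) w w₂ := by
  obtain ⟨hw, hw₁, a, a₁, ha, ha₁, e₁⟩ := h₁
  obtain ⟨a₂, ha₂, e₂⟩ := h₂.all hγ a₁ ha₁
  exact ⟨hw, h₂.2.1, a, a₂, ha, ha₂, by rw [MulEquiv.trans_apply, e₁, e₂]⟩

/-- **Admissible automorphisms are induced by semilinear isometries.** -/
theorem Adm.induced (hn : 3 ≤ n) (h32 : ¬ (n = 3 ∧ q = 2)) {β : PG ≃* PG} (hβ : P.Adm hF β)
    (hβ' : P.Adm hF β.symm)
    (hex : ∀ (g : GL (Fin n) F) (σ : F ≃+* F), g ∈ Cfsg.GU n F q →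
      ∃ γ : PG ≃* PG, Cfsg.IsInducedBySemilinearPSU g σ γ) :
    ∃ (g : GL (Fin n) F) (σ : F ≃+* F), g ∈ Cfsg.GU n F q ∧
      Cfsg.IsInducedBySemilinearPSU g σ β := by
  obtain ⟨σ, hσ⟩ := exists_ringEquiv hn h32 hβ hβ'
  obtain ⟨κ, hκ0, hκq, hκ⟩ := exists_kappa hn hβ hβ' σ hσ
  obtain ⟨l, hl0, hl⟩ := exists_norm_eq hF κ⁻¹ (inv_ne_zero hκ0) (by rw [inv_pow, hκq])
  have hlq : l ^ q ≠ 0 := pow_ne_zero _ hl0
  have D : SData P σ (P.bmap hF β) (l ^ q)⁻¹ l κ :=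
    { hbW := fun w hw => bmap_inW hβ hw
      hadd := fun w w' hw hw' => bmap_add hβ hw hw'
      hsmul := hσ
      hherm := hκ
      hsurj := fun w' hw' => ⟨_, bmap_inW hβ' hw', bmap_bmap_symm hβ hβ' hw'⟩
      h1 := inv_mul_cancel₀ hlq
      h2 := by rw [← pow_succ', hl, inv_mul_cancel₀ hκ0] }
  obtain ⟨g, hgU, hg⟩ := (D.semiIso (hF := hF)).exists_GU hF
  obtain ⟨γ, hγ⟩ := hex g σ hgU
  obtain ⟨A, A', R⟩ := D.gamma_adm (hF := hF) hg hγ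
  have hT : P.Triv hF (β.trans γ.symm) :=
    { adm := hβ.trans A'
      adm' := A.trans hβ'
      rel := fun w hw => (bmap_rel hβ hw).trans A' (R w hw).symm }
  refine ⟨g, σ, hgU, fun s s' hs => ?_⟩
  have := hT.eq_refl hn h32 (QuotientGroup.mk s)
  rw [MulEquiv.trans_apply, MulEquiv.symm_apply_eq] at this
  rw [this]
  exact hγ s s' hs

end HypPair

end Cfsg.Agent.Lib.Helper5
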