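import Mathlib
import Cfsg.Agent.Lib.Helper5.PSUAut6

set_option autoImplicit false

/-! # Automorphisms of `PSU_n(q)`, part 7: the unipotent radical `Q_u` is characteristic in the
stabiliser of the point `u` -/

namespace Cfsg.Agent.Lib.Helper5

open Matrix Module Cfsg.Agent.Lib.Helper13 Cfsg.Agent.Lib.Helper94 Cfsg.Agent.Lib.Helper94.U
  Cfsg.Agent.Lib.Helper45.SUGen

variable {F : Type*} [Field F] [Fintype F] {q n : ℕ}

local notation "H" => Cfsg.hermForm n F q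
local notation "V" => (Fin n → F)
local notation "G" => Cfsg.SU n F q
local notation "PG" => Cfsg.PSU n F q

namespace HypPair

variable {P : HypPair n F q} {hF : Fintype.card F = q ^ 2}

include hF in
lemma exists_inW_two {x y : V} (hx : P.InW x) (hx0 : x ≠ 0) (hy : P.InW y) (hy0 : y ≠ 0) :
    ∃ a, P.InW a ∧ H a x ≠ 0 ∧ H a y ≠ 0 := by
  obtain ⟨b, hb, hbx⟩ := P.exists_inW_ne_zero hF hx hx0
  obtain ⟨b', hb', hby⟩ := P.exists_inW_ne_zero hF hy hy0
  by_cases h1 : H b y = 0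
  · by_cases h2 : H b' x = 0
    · refine ⟨b + b', hb.add P hb', ?_, ?_⟩
      · rw [hermForm_add_left, h2, add_zero]; exact hbx
      · rw [hermForm_add_left, h1, zero_add]; exact hby
    · exact ⟨b', hb', h2, hby⟩
  · exact ⟨b, hb, hbx, h1⟩

include hF in
lemma exists_isotropic_inW (hn : 4 ≤ n) : ∃ y, P.InW y ∧ y ≠ 0 ∧ H y y = 0 := by
  obtain ⟨z₁, hz₁, hzz₁⟩ := P.exists_anisotropic_inW hF (by omega)
  obtain ⟨z₂, hz₂, hzz₂, hz21⟩ := P.exists_anisotropic_inW_perp hF hn hz₁ hzz₁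
  obtain ⟨l, -, hl⟩ := exists_norm_eq hF (-H z₁ z₁ / H z₂ z₂)
    (div_ne_zero (neg_ne_zero.mpr hzz₁) hzz₂)
    (by rw [div_pow, neg_pow_q hF, hermForm_self_pow hF, hermForm_self_pow hF])
  have hz12 : H z₁ z₂ = 0 := hermForm_eq_zero_comm hF hz21
  refine ⟨z₁ + l • z₂, hz₁.add P (hz₂.smul P l), ?_, ?_⟩
  · intro h
    have := congrArg (fun x => H x z₁) h
    simp only [hermForm_add_left, hermForm_smul_left, hz21, hermForm_zero_left, mul_zero,
      add_zero] at this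
    exact hzz₁ this
  · have hlz : H (l • z₂) (l • z₂) = -H z₁ z₁ := by
      rw [hermForm_smul_left, hermForm_smul_right, ← mul_assoc, ← pow_succ', hl,
        div_mul_cancel₀ _ hzz₂]
    rw [hermForm_add_left, hermForm_add_right hF, hermForm_add_right hF, hlz,
      hermForm_smul_right, hermForm_smul_left, hz12, hz21]; ring

include hF in
/-- `W` is irreducible under the Levi factor. -/
theorem irred (hn : 3 ≤ n) (U : Submodule F V)
    (hinv : ∀ (k : G) (l : F), P.Tor k l → ∀ x, P.InW x → x ∈ U → k.1.1 *ᵥ x ∈ U)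
    {x₀ : V} (hx₀ : P.InW x₀) (hx₀0 : x₀ ≠ 0) (hUx₀ : x₀ ∈ U) : ∀ w, P.InW w → w ∈ U := by
  by_cases hn4 : n < 4
  · obtain ⟨z, hz, hzz⟩ := P.exists_anisotropic_inW hF hn
    have key : ∀ w, P.InW w → w = (H w z / H z z) • z := by
      intro w hw
      have : w - (H w z / H z z) • z = 0 := by
        apply eq_zero_of_lt_four hF hn4 hz hzz (hw.sub P (hz.smul P _))
        rw [hermForm_sub_left, hermForm_smul_left, div_mul_cancel₀ _ hzz, sub_self]
      exact sub_eq_zero.1 this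
    have hc : H x₀ z / H z z ≠ 0 := by
      intro h
      apply hx₀0
      rw [key x₀ hx₀, h, zero_smul]
    have hzU : z ∈ U := by
      have := U.smul_mem (H x₀ z / H z z)⁻¹ hUx₀
      nth_rewrite 2 [key x₀ hx₀] at this
      rw [smul_smul, inv_mul_cancel₀ hc, one_smul] at this
      exact this
    intro w hw
    rw [key w hw]
    exact U.smul_mem _ hzU
  · have hn4' : 4 ≤ n := by omega
    obtain ⟨c, hc0, hc⟩ := exists_skew_q hF
    -- transvection step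
    have stepA : ∀ x y, P.InW x → x ∈ U → P.InW y → H y y = 0 → H x y ≠ 0 → y ∈ U := by
      intro x y hx hxU hy hyy hxy
      have h1 := hinv _ 1 (tSU_Tor hF hy hyy c hc) x hx hxU
      rw [tSU_mulVec] at h1
      have h2 : (c * H x y) • y ∈ U := by
        have := U.sub_mem h1 hxU
        rwa [add_sub_cancel_left] at this
      have := U.smul_mem (c * H x y)⁻¹ h2
      rwa [smul_smul, inv_mul_cancel₀ (mul_ne_zero hc0 hxy), one_smul] at this
    -- an isotropic vector in `U`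
    obtain ⟨y₀, hy₀, hy₀0, hyy₀, hy₀U⟩ : ∃ y₀, P.InW y₀ ∧ y₀ ≠ 0 ∧ H y₀ y₀ = 0 ∧ y₀ ∈ U := by
      obtain ⟨y, hy, hy0, hyy⟩ := exists_isotropic_inW (P := P) (hF := hF) hn4'
      by_cases hxy : H x₀ y = 0
      · obtain ⟨a, ha, hax, hay⟩ := exists_inW_two (hF := hF) hx₀ hx₀0 hy hy0
        obtain ⟨l, hl⟩ := exists_isotropic_add_smul hF hyy hay
        have h1 : H (a + l • y) x₀ ≠ 0 := by
          rw [hermForm_add_left, hermForm_smul_left, hermForm_eq_zero_comm hF hxy, mul_zero,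
            add_zero]
          exact hax
        have h2 : H x₀ (a + l • y) ≠ 0 := fun h => h1 (hermForm_eq_zero_comm hF h)
        refine ⟨a + l • y, ha.add P (hy.smul P l), ?_, hl,
          stepA x₀ _ hx₀ hUx₀ (ha.add P (hy.smul P l)) hl h2⟩
        intro h
        rw [h, hermForm_zero_left] at h1
        exact h1 rfl
      · exact ⟨y, hy, hy0, hyy, stepA x₀ y hx₀ hUx₀ hy hyy hxy⟩
    have stepC : ∀ a, P.InW a → H a y₀ ≠ 0 → a ∈ U := by
      intro a ha hay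
      obtain ⟨l, hl⟩ := exists_isotropic_add_smul hF hyy₀ hay
      have h1 : H (a + l • y₀) y₀ ≠ 0 := by
        rw [hermForm_add_left, hermForm_smul_left, hyy₀, mul_zero, add_zero]
        exact hay
      have h2 : H y₀ (a + l • y₀) ≠ 0 := fun h => h1 (hermForm_eq_zero_comm hF h)
      have h3 := stepA y₀ _ hy₀ hy₀U (ha.add P (hy₀.smul P l)) hl h2
      have := U.sub_mem h3 (U.smul_mem l hy₀U)
      rwa [add_sub_cancel_right] at this
    intro w hw
    by_cases hwy : H w y₀ = 0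
    · obtain ⟨b, hb, hby⟩ := P.exists_inW_ne_zero hF hy₀ hy₀0
      have h1 := stepC b hb hby
      have h2 := stepC (w + b) (hw.add P hb) (by rw [hermForm_add_left, hwy, zero_add]; exact hby)
      have := U.sub_mem h2 h1
      rwa [add_sub_cancel_right] at this
    · exact stepC w hw hwy


/-! ### generalities -/

omit [Fintype F] in
lemma pW_u : P.pW P.u = 0 := by
  rw [pW, P.hu, P.huv]; simp

omit [Fintype F] in
lemma pW_add_smul_u (x : V) (c : F) : P.pW (x + c • P.u) = P.pW x := by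
  rw [pW_add, pW_smul, pW_u, smul_zero, add_zero]

omit [Fintype F] in
lemma eq_of_perp_u {x : V} (hx : H x P.u = 0) : x = P.pW x + H x P.v • P.u := by
  conv_lhs => rw [P.decomp x, hx]
  module

omit [Fintype F] in
lemma perp_u_of_fix {g : G} {l : F} (hl : l ≠ 0) (hg : g.1.1 *ᵥ P.u = l • P.u) {x : V}
    (hx : H x P.u = 0) : H (g.1.1 *ᵥ x) P.u = 0 := by
  have : H (g.1.1 *ᵥ x) (g.1.1 *ᵥ P.u) = 0 := by rw [SU_preserves, hx]
  rw [hg, hermForm_smul_right] at this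
  exact (mul_eq_zero.1 this).resolve_left (pow_ne_zero _ hl)

omit [Fintype F] in
lemma pW_fix {g : G} {l : F} (hg : g.1.1 *ᵥ P.u = l • P.u) {x : V} (hx : H x P.u = 0) :
    P.pW (g.1.1 *ᵥ P.pW x) = P.pW (g.1.1 *ᵥ x) := by
  conv_rhs => rw [eq_of_perp_u hx, mulVec_add, mulVec_smul, hg, smul_smul, pW_add_smul_u]

end HypPair

omit [Fintype F] in
lemma SU_pow_eigen {g : G} {x : V} {l : F} (hg : g.1.1 *ᵥ x = l • x) (m : ℕ) :
    (g ^ m).1.1 *ᵥ x = l ^ m • x := by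
  induction m with
  | zero => rw [pow_zero, pow_zero, SU_one_mulVec, one_smul]
  | succ m ih => rw [pow_succ, SU_mul_mulVec, hg, mulVec_smul, ih, smul_smul, pow_succ, mul_comm]

omit [Fintype F] in
lemma pmk_pow (g : G) (m : ℕ) : pmk (g ^ m) = pmk g ^ m := rfl

lemma eq_of_pmk_eq_of_fix (hF : Fintype.card F = q ^ 2) {s t : G} (h : pmk s = pmk t) {x : V}
    (hx : x ≠ 0) (hs : s.1.1 *ᵥ x = x) (ht : t.1.1 *ᵥ x = x) : s = t := by
  obtain ⟨a, ha⟩ := exists_smul_of_pmk_eq hF h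
  have h1 := ha x
  rw [hs, ht] at h1
  have h2 : (1 - a) • x = 0 := by rw [sub_smul, one_smul, ← h1, sub_self]
  have h3 : a = 1 := by
    rcases smul_eq_zero.mp h2 with h | h
    · exact (sub_eq_zero.mp h).symm
    · exact absurd h hx
  apply SU_ext_mulVec
  intro y
  rw [ha y, h3, one_smul]

namespace HypPair

variable {P : HypPair n F q} {hF : Fintype.card F = q ^ 2}

/-- `W` as a submodule. -/
def Wsub (P : HypPair n F q) : Submodule F V where
  carrier := {w | P.InW w}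
  add_mem' := fun h h' => h.add P h'
  zero_mem' := P.inW_zero
  smul_mem' := fun c _ h => h.smul P c

/-- The elements of `SU_n(q)` fixing the vector `u` whose class lies in `R`. -/
def lift (P : HypPair n F q) (R : Subgroup PG) : Subgroup G where
  carrier := {g | g.1.1 *ᵥ P.u = P.u ∧ pmk g ∈ R}
  mul_mem' := by
    rintro a b ⟨ha, ha'⟩ ⟨hb, hb'⟩
    exact ⟨by rw [SU_mul_mulVec, hb, ha], by rw [pmk_mul]; exact R.mul_mem ha' hb'⟩
  one_mem' := ⟨SU_one_mulVec _, by rw [pmk_one]; exact R.one_mem⟩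
  inv_mem' := by
    rintro a ⟨ha, ha'⟩
    exact ⟨by nth_rewrite 1 [← ha]; rw [SU_inv_mulVec_mulVec],
      by rw [pmk_inv]; exact R.inv_mem ha'⟩

/-- The action on `W = u^⊥ / u`. -/
@[instance_reducible]
def actW (P : HypPair n F q) (hF : Fintype.card F = q ^ 2) (R : Subgroup PG) :
    MulAction ↥(P.lift R) ↥P.Wsub where
  smul g w := ⟨P.pW (g.1.1.1 *ᵥ w.1), P.inW_pW hF _⟩
  one_smul w := Subtype.ext (by
    show P.pW ((1 : G).1.1 *ᵥ w.1) = w.1
    rw [SU_one_mulVec, P.pW_of_inW w.2])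
  mul_smul a b w := Subtype.ext (by
    show P.pW ((a.1 * b.1).1.1 *ᵥ w.1) = P.pW (a.1.1.1 *ᵥ P.pW (b.1.1.1 *ᵥ w.1))
    have ha : a.1.1.1 *ᵥ P.u = (1 : F) • P.u := by rw [one_smul]; exact a.2.1
    have hb : b.1.1.1 *ᵥ P.u = (1 : F) • P.u := by rw [one_smul]; exact b.2.1
    rw [pW_fix ha (perp_u_of_fix one_ne_zero hb w.2.1), SU_mul_mulVec])

include hF in
lemma exists_fixed {p : ℕ} [Fact p.Prime] [CharP F p] (hn : 3 ≤ n) (R : Subgroup PG)
    (hR : ∀ x ∈ R, ∃ k : ℕ, x ^ p ^ k = 1) :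
    ∃ w, P.InW w ∧ w ≠ 0 ∧
      ∀ g : G, g.1.1 *ᵥ P.u = P.u → pmk g ∈ R → P.pW (g.1.1 *ᵥ w) = w := by
  let _ := P.actW hF R
  have hp : IsPGroup p ↥(P.lift R) := by
    intro g
    obtain ⟨k, hk⟩ := hR (pmk g.1) g.2.2
    refine ⟨k, Subtype.ext ?_⟩
    show g.1 ^ p ^ k = 1
    have hg : g.1.1.1 *ᵥ P.u = (1 : F) • P.u := by rw [one_smul]; exact g.2.1
    apply eq_of_pmk_eq_of_fix hF (by rw [pmk_pow, hk, pmk_one]) P.u_ne
    · rw [SU_pow_eigen hg, one_pow, one_smul]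
    · exact SU_one_mulVec _
  have hdvd : p ∣ Nat.card ↥P.Wsub := by
    obtain ⟨z, hz, hzz⟩ := P.exists_anisotropic_inW hF hn
    have hz0 : (⟨z, hz⟩ : ↥P.Wsub) ≠ 0 := by
      intro h
      have : z = 0 := congrArg Subtype.val h
      rw [this, hermForm_zero_left] at hzz
      exact hzz rfl
    have h1 : addOrderOf (⟨z, hz⟩ : ↥P.Wsub) = p := by
      apply addOrderOf_eq_prime _ hz0
      apply Subtype.ext
      show p • z = 0
      rw [← Nat.cast_smul_eq_nsmul F, CharP.cast_eq_zero, zero_smul]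
    rw [← h1]
    exact addOrderOf_dvd_natCard _
  have h0 : (0 : ↥P.Wsub) ∈ MulAction.fixedPoints ↥(P.lift R) ↥P.Wsub := by
    intro g
    apply Subtype.ext
    show P.pW (g.1.1.1 *ᵥ (0 : V)) = 0
    rw [mulVec_zero, P.pW_of_inW P.inW_zero]
  obtain ⟨b, hb, hb0⟩ := hp.exists_fixed_point_of_prime_dvd_card_of_fixed_point _ hdvd h0
  refine ⟨b.1, b.2, fun h => hb0 (Subtype.ext h.symm), fun g hg hgR => ?_⟩
  exact congrArg Subtype.val (hb ⟨g, hg, hgR⟩)

lemma pW_E_mulVec (w : V) (a : F) (hw : P.InW w) (ha : a + a ^ q + H w w = 0) {x : V}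
    (hx : P.InW x) : P.pW ((P.E hF w a hw ha).1.1 *ᵥ x) = x := by
  rw [E_mulVec, hx.1]
  have : x + (0 : F) • w - H x w • P.u + (a * 0) • P.u = x + (- H x w) • P.u := by module
  rw [this, pW_add_smul_u, P.pW_of_inW hx]

/-- Elements fixing `u` and acting trivially on `u^⊥/u` lie in `Q_u`. -/
theorem eq_E_of_trivial {g : G} (hg : g.1.1 *ᵥ P.u = P.u)
    (hW : ∀ w, P.InW w → P.pW (g.1.1 *ᵥ w) = w) :
    ∃ w a hw ha, g = P.E hF w a hw ha := by
  set v₁ := g.1.1 *ᵥ P.v with hv₁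
  have h1 : H v₁ P.u = 1 := by
    have : H (g.1.1 *ᵥ P.v) (g.1.1 *ᵥ P.u) = 1 := by rw [SU_preserves, P.hvu hF]
    rwa [hg] at this
  have h2 : H v₁ v₁ = 0 := by rw [hv₁, SU_preserves, P.hv]
  have ha : H v₁ P.v + (H v₁ P.v) ^ q + H (P.pW v₁) (P.pW v₁) = 0 := by
    have := herm_decomp (hF := hF) (P := P) v₁ v₁
    rw [h2, h1] at this
    rw [this]; ring
  set x := P.E hF (P.pW v₁) (H v₁ P.v) (P.inW_pW hF v₁) ha with hx
  have hxv : x.1.1 *ᵥ P.v = v₁ := by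
    rw [hx, E_v]
    conv_rhs => rw [P.decomp v₁, h1]
    module
  have hxu : x.1.1 *ᵥ P.u = P.u := by rw [hx, E_u]
  have hxu' : (x⁻¹).1.1 *ᵥ P.u = (1 : F) • P.u := by
    rw [one_smul]
    nth_rewrite 1 [← hxu]
    rw [SU_inv_mulVec_mulVec]
  have hg1 : g.1.1 *ᵥ P.u = (1 : F) • P.u := by rw [one_smul]; exact hg
  have hku : (x⁻¹ * g).1.1 *ᵥ P.u = (1 : F) • P.u := by rw [SU_mul_mulVec, hg, hxu']
  have hkv : (x⁻¹ * g).1.1 *ᵥ P.v = (1 : F) • P.v := by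
    rw [SU_mul_mulVec, ← hv₁, ← hxv, SU_inv_mulVec_mulVec, one_smul]
  have hk : P.Tor (x⁻¹ * g) 1 := P.tor_of_fix hF hku hkv
  have hkw : ∀ w, P.InW w → (x⁻¹ * g).1.1 *ᵥ w = w := by
    intro w hw
    rw [← P.pW_of_inW (hk.inW hF hw), SU_mul_mulVec,
      ← pW_fix hxu' (perp_u_of_fix one_ne_zero hg1 hw.1), hW w hw]
    have e1 : P.pW (x.1.1 *ᵥ w) = w := pW_E_mulVec _ _ _ _ hw
    have hxu1 : x.1.1 *ᵥ P.u = (1 : F) • P.u := by rw [one_smul]; exact hxu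
    nth_rewrite 1 [← e1]
    rw [pW_fix hxu' (perp_u_of_fix one_ne_zero hxu1 hw.1), SU_inv_mulVec_mulVec, P.pW_of_inW hw]
  have hone : x⁻¹ * g = 1 := by
    apply SU_ext_mulVec
    intro y
    rw [SU_one_mulVec]
    conv_lhs => rw [P.decomp y]
    rw [mulVec_add, mulVec_add, mulVec_smul, mulVec_smul, hku, hkv, hkw _ (P.inW_pW hF y),
      one_smul, one_smul]
    exact (P.decomp y).symm
  refine ⟨P.pW v₁, H v₁ P.v, P.inW_pW hF v₁, ha, ?_⟩
  rw [← hx]
  exact (inv_mul_eq_one.1 hone).symm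

lemma exists_fix_rep {p : ℕ} [Fact p.Prime] [CharP F p] {g : G} {l : F}
    (hg : g.1.1 *ᵥ P.u = l • P.u) {k : ℕ} (hk : pmk g ^ p ^ k = 1) :
    ∃ g' : G, pmk g' = pmk g ∧ g'.1.1 *ᵥ P.u = P.u := by
  have hp : p ∣ Fintype.card F := by
    rw [← CharP.cast_eq_zero_iff F p]
    exact Nat.cast_card_eq_zero F
  refine ⟨(g ^ (Fintype.card F) ^ k)⁻¹ * g, ?_, ?_⟩
  · have h1 : pmk g ^ (Fintype.card F) ^ k = 1 := by
      obtain ⟨m, hm⟩ := pow_dvd_pow_of_dvd hp k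
      rw [hm, pow_mul, hk, one_pow]
    rw [pmk_mul, pmk_inv, pmk_pow, h1, inv_one, one_mul]
  · have h1 := SU_pow_eigen hg ((Fintype.card F) ^ k)
    rw [FiniteField.pow_card_pow] at h1
    rw [SU_mul_mulVec, hg, ← h1, SU_inv_mulVec_mulVec]

/-- A `p`-subgroup of the stabiliser of the point `u` normalised by the Levi factor lies in
`Q_u`. -/
theorem mem_Q_of_normal {p : ℕ} [Fact p.Prime] [CharP F p] (hn : 3 ≤ n) (R : Subgroup PG)
    (hR : ∀ x ∈ R, ∃ k : ℕ, x ^ p ^ k = 1)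
    (hst : ∀ g : G, pmk g ∈ R → ∃ l : F, g.1.1 *ᵥ P.u = l • P.u)
    (hnorm : ∀ (k : G) (l : F), P.Tor k l → ∀ x ∈ R, pmk k * x * (pmk k)⁻¹ ∈ R) :
    ∀ x ∈ R, ∃ w a hw ha, x = pmk (P.E hF w a hw ha) := by
  let U : Submodule F V :=
    { carrier := {x | ∀ g : G, g.1.1 *ᵥ P.u = P.u → pmk g ∈ R → ∃ c : F, g.1.1 *ᵥ x = x + c • P.u}
      add_mem' := by
        intro x y hx hy g hg hgR
        obtain ⟨c, hc⟩ := hx g hg hgR
        obtain ⟨c', hc'⟩ := hy g hg hgR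
        exact ⟨c + c', by rw [mulVec_add, hc, hc']; module⟩
      zero_mem' := by
        intro g _ _
        exact ⟨0, by rw [mulVec_zero]; simp⟩
      smul_mem' := by
        intro a x hx g hg hgR
        obtain ⟨c, hc⟩ := hx g hg hgR
        exact ⟨a * c, by rw [mulVec_smul, hc]; module⟩ }
  have hinv : ∀ (k : G) (l : F), P.Tor k l → ∀ x, P.InW x → x ∈ U → k.1.1 *ᵥ x ∈ U := by
    intro k l hk x _ hxU g hg hgR
    have h1 : (k⁻¹ * g * k).1.1 *ᵥ P.u = P.u := by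
      rw [SU_mul_mulVec, SU_mul_mulVec, hk.2.1, mulVec_smul, hg, ← hk.2.1, SU_inv_mulVec_mulVec]
    have h2 : pmk (k⁻¹ * g * k) ∈ R := by
      have := hnorm _ _ hk.inv _ hgR
      rwa [pmk_inv, inv_inv] at this
    obtain ⟨c, hc⟩ := hxU _ h1 h2
    refine ⟨c * l, ?_⟩
    have h3 := congrArg (fun y => k.1.1 *ᵥ y) hc
    simp only [SU_mul_mulVec, SU_mulVec_inv_mulVec, mulVec_add, mulVec_smul, hk.2.1] at h3
    rw [h3, smul_smul]
  obtain ⟨x₀, hx₀, hx₀0, hfix⟩ := exists_fixed (P := P) (hF := hF) (p := p) hn R hR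
  have hx₀U : x₀ ∈ U := by
    intro g hg hgR
    have hg1 : g.1.1 *ᵥ P.u = (1 : F) • P.u := by rw [one_smul]; exact hg
    refine ⟨H (g.1.1 *ᵥ x₀) P.v, ?_⟩
    conv_lhs => rw [eq_of_perp_u (perp_u_of_fix one_ne_zero hg1 hx₀.1), hfix g hg hgR]
  have hall := irred (hF := hF) hn U hinv hx₀ hx₀0 hx₀U
  intro x hx
  obtain ⟨g, rfl⟩ := pmk_surj x
  obtain ⟨l, hl⟩ := hst g hx
  obtain ⟨k, hk⟩ := hR _ hx
  obtain ⟨g', hg', hgu⟩ := exists_fix_rep (p := p) hl hk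
  obtain ⟨w, a, hw, ha, e⟩ := eq_E_of_trivial (hF := hF) hgu (by
    intro w hw
    obtain ⟨c, hc⟩ := hall w hw g' hgu (by rw [hg']; exact hx)
    rw [hc, pW_add_smul_u, P.pW_of_inW hw])
  exact ⟨w, a, hw, ha, by rw [← hg', e]⟩


/-! ### `Q_u` modulo the centre -/

lemma E_zero_zero (h0 : (0 : F) + 0 ^ q + H (0 : V) 0 = 0) : P.E hF 0 0 P.inW_zero h0 = 1 := by
  apply SU_ext_mulVec
  intro x
  rw [E_mulVec, SU_one_mulVec, hermForm_zero_right hF]; simp

lemma E_inv (w : V) (a : F) (hw : P.InW w) (ha : a + a ^ q + H w w = 0) :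
    ∃ h3, (P.E hF w a hw ha)⁻¹ = P.E hF (-w) (a ^ q) (hw.neg P) h3 := by
  have h3 : a ^ q + (a ^ q) ^ q + H (-w) (-w) = 0 := by
    rw [pow_q_pow_q hF, hermForm_neg_left, hermForm_neg_right hF]; linear_combination ha
  refine ⟨h3, ?_⟩
  apply inv_eq_of_mul_eq_one_right
  obtain ⟨h4, e⟩ := P.E_mul hF w (-w) a (a ^ q) hw (hw.neg P) ha h3
  rw [e, P.E_congr hF (add_neg_cancel w) (a' := 0) (by
    rw [hermForm_neg_left]; linear_combination ha), E_zero_zero]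

/-- `Q_u` modulo the centre. -/
def Qbar (P : HypPair n F q) (hF : Fintype.card F = q ^ 2) : Subgroup PG where
  carrier := {x | ∃ w a hw ha, x = pmk (P.E hF w a hw ha)}
  mul_mem' := by
    rintro _ _ ⟨w, a, hw, ha, rfl⟩ ⟨w', a', hw', ha', rfl⟩
    obtain ⟨h3, e⟩ := P.E_mul hF w w' a a' hw hw' ha ha'
    exact ⟨_, _, _, h3, by rw [← pmk_mul, e]⟩
  one_mem' := ⟨0, 0, P.inW_zero, by
    have := two_le_of_card_sq hF
    rw [hermForm_zero_left, zero_pow (by omega)]; simp, by rw [E_zero_zero, pmk_one]⟩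
  inv_mem' := by
    rintro _ ⟨w, a, hw, ha, rfl⟩
    obtain ⟨h3, e⟩ := E_inv (hF := hF) w a hw ha
    exact ⟨_, _, _, h3, by rw [← pmk_inv, e]⟩

lemma E_pow (w : V) (a : F) (hw : P.InW w) (ha : a + a ^ q + H w w = 0) (m : ℕ) :
    ∃ a' h3, (P.E hF w a hw ha) ^ m = P.E hF ((m : F) • w) a' (hw.smul P _) h3 := by
  induction m with
  | zero =>
    have h0 : (0 : F) + 0 ^ q + H (0 : V) 0 = 0 := by
      have := two_le_of_card_sq hF
      rw [hermForm_zero_left, zero_pow (by omega)]; simp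
    have e0 : (0 : V) = ((0 : ℕ) : F) • w := by simp
    refine ⟨0, by rw [← e0]; exact h0, ?_⟩
    rw [pow_zero, ← E_zero_zero (P := P) (hF := hF) h0]
    exact P.E_congr hF e0 rfl _ _
  | succ m ih =>
    obtain ⟨a', h3, e⟩ := ih
    obtain ⟨h4, e'⟩ := P.E_mul hF _ w a' a (hw.smul P _) hw h3 ha
    have e1 : (m : F) • w + w = ((m + 1 : ℕ) : F) • w := by push_cast; module
    refine ⟨a' + a - H w ((m : F) • w), by rw [← e1]; exact h4, ?_⟩
    rw [pow_succ, e, e']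
    exact P.E_congr hF e1 rfl _ _

lemma tSU_pow (y : V) (hy : H y y = 0) (c : F) (hc : c + c ^ q = 0) (m : ℕ) :
    ∃ h3, (tSU hF y c hy hc) ^ m = tSU hF y ((m : F) * c) hy h3 := by
  induction m with
  | zero =>
    have e0 : (0 : F) = ((0 : ℕ) : F) * c := by simp
    refine ⟨by rw [← e0]; exact zero_skew hF, ?_⟩
    rw [pow_zero, ← tSU_zero hF y hy (zero_skew hF)]
    exact tSU_congr hF rfl e0 _ _
  | succ m ih =>
    obtain ⟨h3, e⟩ := ih
    have e1 : (m : F) * c + c = ((m + 1 : ℕ) : F) * c := by push_cast; ring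
    refine ⟨by rw [← e1, add_pow_q hF]; linear_combination h3 + hc, ?_⟩
    rw [pow_succ, e, tSU_mul]
    exact tSU_congr hF rfl e1 _ _

lemma E_pow_p_sq {p : ℕ} [CharP F p] (w : V) (a : F) (hw : P.InW w)
    (ha : a + a ^ q + H w w = 0) : (P.E hF w a hw ha) ^ p ^ 2 = 1 := by
  obtain ⟨a', h3, e⟩ := E_pow (hF := hF) w a hw ha p
  have e0 : ((p : ℕ) : F) • w = 0 := by rw [CharP.cast_eq_zero, zero_smul]
  have hc : a' + a' ^ q = 0 := by
    rw [e0, hermForm_zero_left, add_zero] at h3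
    exact h3
  have e1 : (P.E hF w a hw ha) ^ p = tSU hF P.u a' P.hu hc := by
    rw [e, tSU_eq_E]
    exact P.E_congr hF e0 rfl _ _
  obtain ⟨h4, e2⟩ := tSU_pow (hF := hF) P.u P.hu a' hc p
  rw [pow_two, pow_mul, e1, e2, ← tSU_zero hF P.u P.hu (zero_skew hF)]
  exact tSU_congr hF rfl (by rw [CharP.cast_eq_zero, zero_mul]) _ _

lemma E_comm_tSU (w : V) (a c : F) (hw : P.InW w) (ha : a + a ^ q + H w w = 0)
    (hc : c + c ^ q = 0) :
    P.E hF w a hw ha * tSU hF P.u c P.hu hc = tSU hF P.u c P.hu hc * P.E hF w a hw ha := by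
  apply SU_ext_mulVec
  intro x
  rw [SU_mul_mulVec, SU_mul_mulVec, tSU_mulVec, tSU_mulVec, E_mulVec, E_mulVec]
  simp only [hermForm_add_left, hermForm_sub_left, hermForm_smul_left, P.hu, hw.u_left P hF, hw.1]
  module

/-- Elements of the stabiliser of the point `u` normalise `Q_u`. -/
lemma conj_E_of_stab {g : G} {l : F} (hg : g.1.1 *ᵥ P.u = l • P.u) (w : V) (a : F)
    (hw : P.InW w) (ha : a + a ^ q + H w w = 0) :
    ∃ w' a' hw' ha', g * P.E hF w a hw ha * g⁻¹ = P.E hF w' a' hw' ha' := by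
  have hl : l ≠ 0 := by
    rintro rfl
    rw [zero_smul] at hg
    exact su_mulVec_ne_zero g P.u_ne hg
  have hg' : (g⁻¹).1.1 *ᵥ P.u = l⁻¹ • P.u := by
    have := congrArg (fun x => (g⁻¹).1.1 *ᵥ x) hg
    simp only [SU_inv_mulVec_mulVec, mulVec_smul] at this
    nth_rewrite 2 [this]
    rw [smul_smul, inv_mul_cancel₀ hl, one_smul]
  apply eq_E_of_trivial
  · rw [SU_mul_mulVec, SU_mul_mulVec, hg', mulVec_smul, E_u, mulVec_smul, hg, smul_smul,
      inv_mul_cancel₀ hl, one_smul]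
  · intro x hx
    have h1 : H ((g⁻¹).1.1 *ᵥ x) P.u = 0 := perp_u_of_fix (inv_ne_zero hl) hg' hx.1
    rw [SU_mul_mulVec, SU_mul_mulVec, E_mulVec, h1]
    have : (g⁻¹).1.1 *ᵥ x + (0 : F) • w - H ((g⁻¹).1.1 *ᵥ x) w • P.u + (a * 0) • P.u
        = (g⁻¹).1.1 *ᵥ x + (- H ((g⁻¹).1.1 *ᵥ x) w) • P.u := by module
    rw [this, mulVec_add, mulVec_smul, SU_mulVec_inv_mulVec, hg, smul_smul, pW_add_smul_u,
      P.pW_of_inW hx]

/-- An element normalising `X_u` modulo the centre fixes the point `u`. -/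
lemma stab_of_normalizes {g : G} {c c' : F} (hc : c + c ^ q = 0) (hc' : c' + c' ^ q = 0)
    (hc0 : c ≠ 0)
    (h : pmk g * pmk (tSU hF P.u c P.hu hc) * (pmk g)⁻¹ = pmk (tSU hF P.u c' P.hu hc')) :
    ∃ l : F, g.1.1 *ᵥ P.u = l • P.u := by
  rw [← pmk_inv, ← pmk_mul, ← pmk_mul, tSU_conj] at h
  exact smul_of_pmk_tSU_eq hF P.u_ne (su_mulVec_ne_zero g P.u_ne) _ _ _ _ hc0 h.symm

/-- **P3.** An automorphism preserving `X_u` preserves `Q_u`. -/
theorem hQ_of_hX {p : ℕ} [Fact p.Prime] [CharP F p] (hn : 3 ≤ n) {β : PG ≃* PG}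
    (hX : ∀ c hc, ∃ c' hc', β (pmk (tSU hF P.u c P.hu hc)) = pmk (tSU hF P.u c' P.hu hc'))
    (hX' : ∀ c hc, ∃ c' hc',
      β.symm (pmk (tSU hF P.u c P.hu hc)) = pmk (tSU hF P.u c' P.hu hc')) :
    ∀ w a hw ha, ∃ w' a' hw' ha', β (pmk (P.E hF w a hw ha)) = pmk (P.E hF w' a' hw' ha') := by
  obtain ⟨c, hc0, hc⟩ := exists_skew_q hF
  have key := mem_Q_of_normal (P := P) (hF := hF) (p := p) hn ((P.Qbar hF).map β.toMonoidHom) ?_ ?_ ?_
  · intro w a hw ha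
    exact key _ (Subgroup.mem_map_of_mem _ ⟨w, a, hw, ha, rfl⟩)
  · rintro _ ⟨_, ⟨w, a, hw, ha, rfl⟩, rfl⟩
    refine ⟨2, ?_⟩
    show (β (pmk (P.E hF w a hw ha))) ^ p ^ 2 = 1
    rw [← map_pow, ← pmk_pow, E_pow_p_sq, pmk_one, map_one]
  · rintro g ⟨_, ⟨w, a, hw, ha, rfl⟩, e⟩
    have e' : β (pmk (P.E hF w a hw ha)) = pmk g := e
    obtain ⟨c₀, hc₀, e₀⟩ := hX' c hc
    have e₁ : β (pmk (tSU hF P.u c₀ P.hu hc₀)) = pmk (tSU hF P.u c P.hu hc) := by
      rw [← e₀, MulEquiv.apply_symm_apply]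
    apply stab_of_normalizes (hF := hF) hc hc hc0
    rw [← e', ← e₁, ← map_mul, ← pmk_mul, E_comm_tSU, pmk_mul, map_mul, mul_inv_cancel_right]
  · rintro k l hk _ ⟨_, ⟨w, a, hw, ha, rfl⟩, rfl⟩
    obtain ⟨k', hk'⟩ := pmk_surj (β.symm (pmk k))
    have hk'' : β (pmk k') = pmk k := by rw [hk', MulEquiv.apply_symm_apply]
    obtain ⟨l', hl'⟩ : ∃ l' : F, k'.1.1 *ᵥ P.u = l' • P.u := by
      obtain ⟨c₁, hc₁, e₁⟩ := hX c hc
      have hs : l * l ^ q * c₁ + (l * l ^ q * c₁) ^ q = 0 := by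
        simp only [mul_pow, pow_q_pow_q hF]; linear_combination (l * l ^ q) * hc₁
      obtain ⟨c₂, hc₂, e₂⟩ := hX' _ hs
      apply stab_of_normalizes (hF := hF) hc hc₂ hc0
      rw [← e₂, hk']
      apply β.injective
      rw [map_mul, map_mul, map_inv, MulEquiv.apply_symm_apply, MulEquiv.apply_symm_apply, e₁,
        ← pmk_inv, ← pmk_mul, ← pmk_mul, tSU_conj, ← tSU_smul hF P.u l c₁ P.hu hc₁]
      congr 1
      exact tSU_congr hF hk.2.1 rfl _ _
    obtain ⟨w', a', hw', ha', e⟩ := conj_E_of_stab (hF := hF) hl' w a hw ha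
    refine ⟨pmk (P.E hF w' a' hw' ha'), ⟨w', a', hw', ha', rfl⟩, ?_⟩
    show β (pmk (P.E hF w' a' hw' ha')) = pmk k * β (pmk (P.E hF w a hw ha)) * (pmk k)⁻¹
    rw [← e, pmk_mul, pmk_mul, pmk_inv, map_mul, map_mul, map_inv, hk'']

end HypPair

end Cfsg.Agent.Lib.Helper5
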