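import Mathlib
import Cfsg.Agent.Lib.Helper5.PSUAut7
import Cfsg.Agent.Lib.Helper43.PU.Rows

set_option autoImplicit false

/-! # Automorphisms of `PSU_n(q)`, part 8: assembly.  If every automorphism permutes the
transvection groups, then every automorphism is induced by a semilinear unitary map. -/

namespace Cfsg.Agent.Lib.Helper5

open Matrix Module Cfsg.Agent.Lib.Helper13 Cfsg.Agent.Lib.Helper94 Cfsg.Agent.Lib.Helper94.U
  Cfsg.Agent.Lib.Helper45.SUGen Cfsg.Agent.Lib.Helper43.PU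

variable {F : Type*} [Field F] [Fintype F] {q n : ℕ}

local notation "H" => Cfsg.hermForm n F q
local notation "V" => (Fin n → F)
local notation "G" => Cfsg.SU n F q
local notation "PG" => Cfsg.PSU n F q

/-- Every automorphism maps each transvection group (modulo the centre) into a transvection
group. -/
def PermX (n : ℕ) (F : Type*) [Field F] [Fintype F] (q : ℕ) (hF : Fintype.card F = q ^ 2) : Prop :=
  ∀ (β : Cfsg.PSU n F q ≃* Cfsg.PSU n F q) (u : Fin n → F), u ≠ 0 →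
    ∀ hu : Cfsg.hermForm n F q u u = 0,
    ∃ (u' : Fin n → F) (_ : u' ≠ 0) (hu' : Cfsg.hermForm n F q u' u' = 0), ∀ c hc, ∃ c' hc',
      β (pmk (tSU hF u c hu hc)) = pmk (tSU hF u' c' hu' hc')

variable {hF : Fintype.card F = q ^ 2}

/-- If `γ` maps `X_y` into itself then so does its inverse. -/
lemma PermX.symm (hA : PermX n F q hF) {γ : PG ≃* PG} {y : V} (hy0 : y ≠ 0) (hy : H y y = 0)
    (h : ∀ c hc, ∃ c' hc', γ (pmk (tSU hF y c hy hc)) = pmk (tSU hF y c' hy hc')) :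
    ∀ c hc, ∃ c' hc', γ.symm (pmk (tSU hF y c hy hc)) = pmk (tSU hF y c' hy hc') := by
  obtain ⟨y', hy0', hy', h'⟩ := hA γ.symm y hy0 hy
  obtain ⟨c, hc0, hc⟩ := exists_skew_q hF
  obtain ⟨c₁, hc₁, e₁⟩ := h c hc
  obtain ⟨c₂, hc₂, e₂⟩ := h' c₁ hc₁
  rw [← e₁, MulEquiv.symm_apply_apply] at e₂
  have hc20 : c₂ ≠ 0 := by
    rintro rfl
    rw [tSU_zero, pmk_one] at e₂
    exact HypPair.pmk_tSU_ne_one hy0 hy hc0 hc e₂
  obtain ⟨l, hl⟩ := smul_of_pmk_tSU_eq hF hy0 hy0' hy hy' hc hc₂ hc20 e₂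
  intro d hd
  obtain ⟨d', hd', e⟩ := h' d hd
  refine ⟨l * l ^ q * d', by
    simp only [mul_pow, pow_q_pow_q hF]; linear_combination (l * l ^ q) * hd', ?_⟩
  rw [e, ← tSU_smul hF y l d' hy hd']
  congr 1
  exact tSU_congr hF hl rfl _ _

lemma tSU_comm_of_perp {y z : V} (hy : H y y = 0) (hz : H z z = 0) (hyz : H y z = 0) (c d : F)
    (hc : c + c ^ q = 0) (hd : d + d ^ q = 0) :
    tSU hF y c hy hc * tSU hF z d hz hd = tSU hF z d hz hd * tSU hF y c hy hc := by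
  have hzy : H z y = 0 := hermForm_eq_zero_comm hF hyz
  apply SU_ext_mulVec
  intro x
  rw [SU_mul_mulVec, SU_mul_mulVec, tSU_mulVec, tSU_mulVec, tSU_mulVec, tSU_mulVec]
  simp only [hermForm_add_left, hermForm_smul_left, hyz, hzy]
  module

include hF in
/-- `SU` is transitive on pairs of non-perpendicular isotropic points. -/
lemma exists_SU_map_pair (P : HypPair n F q) {u' v' : V} (hu0' : u' ≠ 0) (hu' : H u' u' = 0)
    (hv' : H v' v' = 0) (huv' : H v' u' ≠ 0) :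
    ∃ (g : G) (a b : F), g.1.1 *ᵥ u' = a • P.u ∧ g.1.1 *ᵥ v' = b • P.v := by
  obtain ⟨g₁, hg₁⟩ := (su_isPretransitive (n := n) hF).exists_smul_eq (IsoPt.mk u' hu0' hu')
    (IsoPt.mk P.u P.u_ne P.hu)
  rw [su_smul_mk, IsoPt.mk_eq_mk_iff] at hg₁
  obtain ⟨a, ha⟩ := hg₁
  set v₁ := g₁.1.1 *ᵥ v' with hv₁
  have h1 : H v₁ P.u ≠ 0 := by
    intro h
    apply huv'
    rw [← SU_preserves g₁, ← ha, hermForm_smul_right, ← hv₁, h, mul_zero]
  obtain ⟨g₂, hg₂u, hg₂v⟩ := exists_eSU_map hF (u := P.u) (w := (H v₁ P.u)⁻¹ • v₁) (z := P.v) P.hu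
    (by rw [hermForm_smul_left, hermForm_smul_right, hv₁, SU_preserves, hv']; simp) P.hv
    (by rw [hermForm_smul_left, inv_mul_cancel₀ h1]) (P.hvu hF)
  refine ⟨g₂ * g₁, a, H v₁ P.u, ?_, ?_⟩
  · rw [SU_mul_mulVec, ← ha, mulVec_smul, hg₂u]
  · rw [SU_mul_mulVec, ← hv₁, ← hg₂v, mulVec_smul, smul_smul, mul_inv_cancel₀ h1, one_smul]

omit [Fintype F] in
/-- An automorphism induced by `(g, σ)` is `cGU g * fAU σ`. -/
lemma eq_of_induced {g : GL (Fin n) F} (hg : g ∈ Cfsg.GU n F q) {σ : F ≃+* F} {β : PG ≃* PG}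
    (h : Cfsg.IsInducedBySemilinearPSU g σ β) : β = cGU ⟨g, hg⟩ * fAU σ := by
  apply mulAut_psu_ext
  intro s
  rw [MulAut.mul_apply, fAU_mk', cGU_mk']
  exact h s _ rfl

/-- **Assembly.** -/
theorem fac_of_permX {p : ℕ} [Fact p.Prime] [CharP F p] (hn : 3 ≤ n) (h32 : ¬ (n = 3 ∧ q = 2))
    (hA : PermX n F q hF) : Fac n F q := by
  intro β
  obtain ⟨e, f, he0, he, hf, hef, hfe⟩ := exists_hyp_pair (n := n) hF hn
  let P : HypPair n F q := ⟨e, f, he, hf, hef⟩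
  obtain ⟨u', hu0', hu', hβu⟩ := hA β P.u P.u_ne P.hu
  obtain ⟨v', hv0', hv', hβv⟩ := hA β P.v (P.v_ne hF) P.hv
  obtain ⟨c, hc0, hc⟩ := exists_skew_q hF
  have huv' : H v' u' ≠ 0 := by
    intro h0
    obtain ⟨c₁, hc₁, e₁⟩ := hβu c hc
    obtain ⟨c₂, hc₂, e₂⟩ := hβv c hc
    have hcomm : pmk (tSU hF P.v c P.hv hc) * pmk (tSU hF P.u c P.hu hc)
        = pmk (tSU hF P.u c P.hu hc) * pmk (tSU hF P.v c P.hv hc) := by
      apply β.injective
      rw [map_mul, map_mul, e₁, e₂, ← pmk_mul, ← pmk_mul, tSU_comm_of_perp hv' hu' h0]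
    obtain ⟨l, hl⟩ := HypPair.stab_of_normalizes (P := P) (hF := hF) (g := tSU hF P.v c P.hv hc)
      hc hc hc0 (by rw [hcomm, mul_inv_cancel_right])
    rw [tSU_mulVec, P.huv, mul_one] at hl
    have h2 := congrArg (fun x => H x P.u) hl
    simp only [hermForm_add_left, hermForm_smul_left, P.hu, P.hvu hF, mul_zero, mul_one,
      zero_add] at h2
    exact hc0 h2
  obtain ⟨g, a, b, hga, hgb⟩ := exists_SU_map_pair (hF := hF) P hu0' hu' hv' huv'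
  set β₁ : PG ≃* PG := MulAut.conj (pmk g) * β with hβ₁
  have hβ₁a : ∀ x, β₁ x = pmk g * β x * (pmk g)⁻¹ := fun x => rfl
  have hX : ∀ c hc, ∃ c' hc', β₁ (pmk (tSU hF P.u c P.hu hc)) = pmk (tSU hF P.u c' P.hu hc') := by
    intro d hd
    obtain ⟨d', hd', e'⟩ := hβu d hd
    refine ⟨a * a ^ q * d', by
      simp only [mul_pow, pow_q_pow_q hF]; linear_combination (a * a ^ q) * hd', ?_⟩
    rw [hβ₁a, e', ← pmk_inv, ← pmk_mul, ← pmk_mul, tSU_conj, ← tSU_smul hF P.u a d' P.hu hd']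
    congr 1
    exact tSU_congr hF hga rfl _ _
  have hXv : ∀ c hc, ∃ c' hc', β₁ (pmk (tSU hF P.v c P.hv hc)) = pmk (tSU hF P.v c' P.hv hc') := by
    intro d hd
    obtain ⟨d', hd', e'⟩ := hβv d hd
    refine ⟨b * b ^ q * d', by
      simp only [mul_pow, pow_q_pow_q hF]; linear_combination (b * b ^ q) * hd', ?_⟩
    rw [hβ₁a, e', ← pmk_inv, ← pmk_mul, ← pmk_mul, tSU_conj, ← tSU_smul hF P.v b d' P.hv hd']
    congr 1
    exact tSU_congr hF hgb rfl _ _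
  have hX' := hA.symm P.u_ne P.hu hX
  have hXv' := hA.symm (P.v_ne hF) P.hv hXv
  have A : P.Adm hF β₁ := ⟨hX, hXv, HypPair.hQ_of_hX (p := p) hn hX hX'⟩
  have A' : P.Adm hF β₁.symm := ⟨hX', hXv', HypPair.hQ_of_hX (p := p) hn hX' (by
    rw [MulEquiv.symm_symm]; exact hX)⟩
  obtain ⟨g₀, σ, hg₀, hind⟩ := A.induced hn h32 A' (fun g σ hg =>
    ⟨cGU ⟨g, hg⟩ * fAU σ, isInduced_cGU_fAU ⟨g, hg⟩ σ⟩)
  have e₁ := eq_of_induced hg₀ hind
  refine ⟨(suToGU n F q g)⁻¹ * ⟨g₀, hg₀⟩, σ, ?_⟩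
  rw [map_mul, map_inv, ← conj_mk_eq_cGU, mul_assoc, ← e₁, hβ₁]
  show β = (MulAut.conj (pmk g))⁻¹ * (MulAut.conj (pmk g) * β)
  rw [inv_mul_cancel_left]

end Cfsg.Agent.Lib.Helper5
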