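import Mathlib
import Cfsg.Agent.Lib.Helper5.SUParabolic
import Cfsg.Agent.S0755

set_option autoImplicit false

namespace Cfsg.Agent.Lib.Helper5

open Matrix Module Cfsg.Agent.Lib.Helper13 Cfsg.Agent.Lib.Helper94 Cfsg.Agent.Lib.Helper94.U
  Cfsg.Agent.Lib.Helper45.SUGen

variable {F : Type*} [Field F] [Fintype F] {q n : ℕ}

local notation "H" => Cfsg.hermForm n F q
local notation "V" => (Fin n → F)

lemma hermForm_sum_smul_left {κ : Type*} (s : Finset κ) (c : κ → F) (v : κ → V) (y : V) :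
    H (∑ j ∈ s, c j • v j) y = ∑ j ∈ s, c j * H (v j) y := by
  classical
  induction s using Finset.induction_on with
  | empty => simp [Cfsg.hermForm]
  | insert a s ha ih =>
    rw [Finset.sum_insert ha, Finset.sum_insert ha, hermForm_add_left, hermForm_smul_left, ih]

/-- Normal form of a unitary involution in characteristic two. -/
theorem exists_invol_frame [CharP F 2] (hF : Fintype.card F = q ^ 2) (A : Matrix (Fin n) (Fin n) F)
    (hA : ∀ u v, H (A *ᵥ u) (A *ᵥ v) = H u v) (hA2 : A * A = 1) (r : ℕ) (hr : (A - 1).rank = r) :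
    ∃ w : Fin r → V, w ∈ hFrames F q n r ∧ (∀ x, A *ᵥ x = x + ∑ i, H x (w i) • w i) ∧
      ∀ i₀ : Fin r, ∃ f : V, H f f = 0 ∧ ∀ i, H (w i) f = if i = i₀ then 1 else 0 := by
  classical
  have hq := two_le_of_card_sq hF
  set N := A - 1 with hN
  have hNx : ∀ x, N *ᵥ x = A *ᵥ x - x := by
    intro x; rw [hN, Matrix.sub_mulVec, Matrix.one_mulVec]
  have hAA : ∀ x, A *ᵥ (A *ᵥ x) = x := by
    intro x; rw [Matrix.mulVec_mulVec, hA2, Matrix.one_mulVec]
  have hadj : ∀ x y, H (N *ᵥ x) y = H x (N *ᵥ y) := by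
    intro x y
    rw [hNx, hNx, hermForm_sub_left, hermForm_sub_right hF]
    congr 1
    rw [← hA x (A *ᵥ y), hAA]
  have hNN : ∀ x, N *ᵥ (N *ᵥ x) = 0 := by
    intro x
    rw [hNx, hNx, Matrix.mulVec_sub, hAA]
    have hv2 : ∀ v : V, v + v = 0 := fun v => funext fun i => CharTwo.add_self_eq_zero (v i)
    have : A *ᵥ x + A *ᵥ x = 0 := hv2 _
    have h2 : x + x = 0 := hv2 _
    calc x - A *ᵥ x - (A *ᵥ x - x) = (x + x) - (A *ᵥ x + A *ᵥ x) := by abel
      _ = 0 := by rw [this, h2, sub_zero]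
  let NL : V →ₗ[F] V := Matrix.mulVecLin N
  obtain ⟨C, hC⟩ := Submodule.exists_isCompl (LinearMap.ker NL)
  have hCr : finrank F C = r := by
    have h1 := LinearMap.finrank_range_add_finrank_ker NL
    have h2 := Submodule.finrank_add_eq_of_isCompl hC
    have h3 : finrank F (LinearMap.range NL) = r := hr
    omega
  have hdecomp : ∀ v : V, ∃ c ∈ C, ∃ k : V, N *ᵥ k = 0 ∧ v = c + k := by
    intro v
    have : v ∈ LinearMap.ker NL ⊔ C := by rw [hC.sup_eq_top]; trivial
    obtain ⟨k, hk, c, hc, rfl⟩ := Submodule.mem_sup.1 this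
    exact ⟨c, hc, k, hk, add_comm _ _⟩
  have hzero : ∀ x ∈ C, N *ᵥ x = 0 → x = 0 := by
    intro x hx h0
    have : x ∈ LinearMap.ker NL ⊓ C := ⟨h0, hx⟩
    rw [hC.inf_eq_bot] at this
    exact this
  have hnd : ∀ z : V, (∀ c ∈ C, H c (N *ᵥ z) = 0) → N *ᵥ z = 0 := by
    intro z hz
    apply (hermB_nondegenerate hF n).1
    intro v
    rw [hermB_apply]
    obtain ⟨c, hc, k, hk, rfl⟩ := hdecomp v
    rw [hermForm_add_left, hz c hc, ← hadj, hk, hermForm_zero_left, add_zero]
  obtain ⟨b, hb⟩ := Cfsg.Agent.S0755.result (frobQ hF) (frobQ_ne_id hF)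
    (fun a => pow_q_pow_q hF a) (((hermB hF n).comp NL).domRestrict₁₂ C C) (by
      constructor
      intro x y
      change (H y.1 (N *ᵥ x.1)) ^ q = H x.1 (N *ᵥ y.1)
      rw [hermForm_swap hF, hadj]) (by
      constructor
      · intro x hx
        apply Subtype.ext
        apply hzero x.1 x.2
        apply hnd
        intro c hc
        exact hx ⟨c, hc⟩
      · intro y hy
        apply Subtype.ext
        apply hzero y.1 y.2
        apply hnd
        intro c hc
        have := hy ⟨c, hc⟩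
        change H y.1 (N *ᵥ c) = 0 at this
        rw [← hadj] at this
        exact hermForm_eq_zero_comm hF this)
  subst hCr
  have hb' : ∀ i j, H (b j).1 (N *ᵥ (b i).1) = if i = j then 1 else 0 := hb
  let w : Fin (finrank F C) → V := fun i => N *ᵥ (b i).1
  have hwb : ∀ i j, H (w i) (b j).1 = if i = j then 1 else 0 := by
    intro i j
    rw [← hermForm_swap hF, hb' i j]
    split_ifs <;> simp [show q ≠ 0 by omega]
  have hww : ∀ i j, H (w i) (w j) = 0 := by
    intro i j
    change H (N *ᵥ (b i).1) (N *ᵥ (b j).1) = 0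
    rw [hadj, hNN, hermForm_zero_right hF]
  refine ⟨w, ⟨?_, hww⟩, ?_, ?_⟩
  · rw [Fintype.linearIndependent_iff]
    intro c hc j
    have := congrArg (fun v => H v (b j).1) hc
    simp only [hermForm_sum_smul_left, hwb, hermForm_zero_left] at this
    simpa using this
  · intro x
    have key : N *ᵥ x = ∑ i, H x (w i) • w i := by
      obtain ⟨c, hc, k, hk, rfl⟩ := hdecomp x
      have h1 : ∀ i, H k (w i) = 0 := by
        intro i
        change H k (N *ᵥ (b i).1) = 0
        rw [← hadj, hk, hermForm_zero_left]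
      obtain ⟨α, h2⟩ : ∃ α : Fin (finrank F C) → F, c = ∑ j, α j • (b j).1 := by
        refine ⟨fun j => b.repr ⟨c, hc⟩ j, ?_⟩
        have := congrArg Subtype.val (b.sum_repr ⟨c, hc⟩)
        rw [AddSubmonoidClass.coe_finsetSum] at this
        exact this.symm
      have h3 : ∀ i, H c (w i) = α i := by
        intro i
        rw [h2, hermForm_sum_smul_left]
        simp only [w, hb' i]
        simp
      rw [Matrix.mulVec_add, hk, add_zero]
      simp only [hermForm_add_left, h1, add_zero, h3]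
      conv_lhs => rw [h2]
      rw [Matrix.mulVec_sum]
      exact Finset.sum_congr rfl fun j _ => Matrix.mulVec_smul _ _ _
    rw [← key, hNx]; abel
  · intro i₀
    obtain ⟨c, hc⟩ := exists_tr hF (-(H (b i₀).1 (b i₀).1)) (by
      rw [neg_pow_q hF, hermForm_self_pow hF])
    refine ⟨(b i₀).1 + c • w i₀, ?_, ?_⟩
    · have e1 : H (b i₀).1 (w i₀) = 1 := by
        have := hb' i₀ i₀
        simpa using this
      rw [hermForm_add_left, hermForm_add_right hF, hermForm_add_right hF, hermForm_smul_left,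
        hermForm_smul_left, hermForm_smul_right, hermForm_smul_right, hww, hwb, e1, if_pos rfl]
      linear_combination hc
    · intro i
      rw [hermForm_add_right hF, hermForm_smul_right, hww, hwb, mul_zero, add_zero]

lemma even_q_of_char_two [CharP F 2] (hF : Fintype.card F = q ^ 2) : ∃ t, q = 2 * t := by
  have h1 : (2 : ℕ) ∣ Fintype.card F := by
    rw [← CharP.cast_eq_zero_iff F 2, Nat.cast_card_eq_zero]
  rw [hF] at h1
  exact Nat.Prime.dvd_of_dvd_pow Nat.prime_two h1

theorem su_invol_conj [CharP F 2] (hF : Fintype.card F = q ^ 2) (a b : Cfsg.SU n F q)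
    (ha : a * a = 1) (hb : b * b = 1) (ha1 : a ≠ 1)
    (hr : (a.1.1 - 1).rank = (b.1.1 - 1).rank) : IsConj a b := by
  classical
  have hq := two_le_of_card_sq hF
  obtain ⟨w, hw, hwa, -⟩ := exists_invol_frame hF a.1.1 (SU_preserves a)
    (by rw [← SU_mul_coe, ha]; rfl) _ hr
  obtain ⟨w', hw', hwb, hf⟩ := exists_invol_frame hF b.1.1 (SU_preserves b)
    (by rw [← SU_mul_coe, hb]; rfl) _ rfl
  have hpos : 0 < (b.1.1 - 1).rank := by
    rcases Nat.eq_zero_or_pos (b.1.1 - 1).rank with h0 | h0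
    · exfalso
      apply ha1
      apply SU_ext_mulVec
      intro x
      rw [hwa x]
      have : IsEmpty (Fin (b.1.1 - 1).rank) := by rw [h0]; infer_instance
      simp
    · exact h0
  let i₀ : Fin (b.1.1 - 1).rank := ⟨0, hpos⟩
  obtain ⟨f, hff, hwf⟩ := hf i₀
  obtain ⟨g, hg⟩ := exists_gu_of_frames hF n w w' hw.1 hw'.1 (by
    intro i j; rw [hw.2, hw'.2])
  have hg' : ∀ i, g.1.1 *ᵥ w i = w' i := fun i => congrFun hg i
  set μ := g.1.1.det with hμ
  have hμ1 : μ ^ (q + 1) = 1 := det_pow_eq_one_of_preserves hF g.1.1 g.2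
  have hμ0 : μ ≠ 0 := by
    rintro h0
    rw [h0, zero_pow (by omega)] at hμ1
    exact zero_ne_one hμ1
  obtain ⟨t, ht⟩ := even_q_of_char_two hF
  set l := (μ⁻¹) ^ (t + 1) with hl
  have hl2 : l * l = μ⁻¹ := by
    rw [hl, ← pow_add]
    have : t + 1 + (t + 1) = (q + 1) + 1 := by omega
    rw [this, pow_succ, inv_pow, hμ1]; simp
  have hl1 : l ^ (q + 1) = 1 := by
    rw [hl, ← pow_mul, mul_comm, pow_mul, inv_pow, hμ1]; simp
  have hl0 : l ≠ 0 := by
    rintro h0
    rw [h0, zero_pow (by omega)] at hl1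
    exact zero_ne_one hl1
  have hlq : (l ^ q)⁻¹ = l := by
    rw [pow_succ] at hl1
    exact inv_eq_of_mul_eq_one_right hl1
  have hvf : H (w' i₀) f = 1 := by rw [hwf, if_pos rfl]
  set h := hypMat n q (w' i₀) f l with hh
  have hpres : ∀ x y, H (h *ᵥ x) (h *ᵥ y) = H x y := hypMat_preserves hF hl0 (hw'.2 i₀ i₀) hff hvf
  have hdet : h.det = l * l := by rw [hh, hypMat_det hF hvf, hlq]
  have hhw : ∀ i, h *ᵥ w' i = (if i = i₀ then l else 1) • w' i := by
    intro i
    rw [hh, hypMat_mulVec l hff, hw'.2 i i₀, hwf]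
    by_cases hi : i = i₀
    · rw [if_pos hi, if_pos hi, hi]; module
    · rw [if_neg hi, if_neg hi]; module
  let c : Cfsg.SU n F q := mkSU (h * g.1.1) (by
    rw [Matrix.det_mul, hdet, hl2, ← hμ, inv_mul_cancel₀ hμ0]) (by
    intro u v
    rw [← Matrix.mulVec_mulVec, ← Matrix.mulVec_mulVec, hpres]
    exact g.2 u v)
  have hc : ∀ x, c.1.1 *ᵥ x = h *ᵥ (g.1.1 *ᵥ x) := by
    intro x
    change (h * g.1.1) *ᵥ x = _
    rw [Matrix.mulVec_mulVec]
  have hcw : ∀ i, c.1.1 *ᵥ w i = (if i = i₀ then l else 1) • w' i := by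
    intro i; rw [hc, hg', hhw]
  have hcomm : c * a = b * c := by
    apply SU_ext_mulVec
    intro x
    rw [SU_mul_mulVec, SU_mul_mulVec, hwa x, hwb, Matrix.mulVec_add, Matrix.mulVec_sum]
    congr 1
    apply Finset.sum_congr rfl
    intro i _
    rw [Matrix.mulVec_smul, hcw, smul_smul]
    congr 1
    have h1 := SU_preserves c x (w i)
    rw [hcw, hermForm_smul_right] at h1
    rw [← h1]
    by_cases hi : i = i₀
    · simp only [if_pos hi]
      rw [pow_succ] at hl1
      linear_combination (H (c.1.1 *ᵥ x) (w' i)) * hl1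
    · simp only [if_neg hi]; ring
  rw [isConj_iff]
  exact ⟨c, by rw [hcomm, mul_inv_cancel_right]⟩

end Cfsg.Agent.Lib.Helper5
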